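import Cfsg.Agent.DG.Ext

/-!
# The stable endomorphism ring at the generic shifted cyclic subgroup
-/

namespace CF.DG

open MonoidAlgebra Module CF.Block Subgroup

variable {k K A G : Type*} [Field k] [Field K] [CommGroup A] [Group G]

theorem Subst.hat_hat {ι B : Type*} [CommGroup B] [Algebra (MvPolynomial ι k) K]
    [IsFractionRing (MvPolynomial ι k) K] [Algebra k K] [IsScalarTower k (MvPolynomial ι k) K]
    {r : ι → B} {τ τ' : K →+* K[B]} (h : Subst k r τ) (h' : Subst k (fun q => (r q)⁻¹) τ')
    (β : K[B]) : hat τ' (hat τ β) = β := by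
  induction β using induction_linear with
  | zero => simp
  | add a b ha hb => simp only [map_add, ha, hb]
  | single a c =>
    rw [hat_single, map_mul, h.hat_apply h', hat_single, map_one, one_mul, single_mul_single,
      one_mul, mul_one]

namespace Dat
variable {p : ℕ} {N : Subgroup G} {a : A →* G} {s : A → K[G]} {e j i' : K[G]}
  (h : Dat p N a s e j i')

/-- The action of `K A` through the units `sg`. -/
noncomputable def Sg : K[A] →ₐ[K] K[G] := lift K _ A h.sg

theorem Sg_single (q : A) (c : K) : h.Sg (single q c) = c • h.sg q := lift_single _ _ _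

/-- The two-sided action. -/
noncomputable def rho : K[A × A] →ₐ[K] End K K[G] :=
  lift K _ (A × A) ⟨⟨fun q => LinearMap.mulLeftRight K (h.sg q.1, h.sg q.2),
    LinearMap.ext fun d => by simp⟩, fun q r => LinearMap.ext fun d => by
      simp only [End.mul_apply, LinearMap.mulLeftRight_apply, Prod.fst_mul, Prod.snd_mul,
        mul_comm q.2, map_mul, mul_assoc]⟩

theorem rho_single (q r : A) (c : K) (d : K[G]) :
    h.rho (single (q, r) c) d = c • (h.sg q * d * h.sg r) := by
  simp [rho]

/-- The product of the two actions. -/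
noncomputable def psi : K[A × A] →ₐ[K] K[G] :=
  lift K _ (A × A) (h.sg.comp ((MonoidHom.fst A A) * (MonoidHom.snd A A)))

theorem psi_single (q r : A) (c : K) : h.psi (single (q, r) c) = c • h.sg (q * r) := by
  simp [psi]

theorem psi_sub (β : K[A × A]) : h.psi β ∈ sub K N := by
  induction β using induction_linear with
  | zero => simp
  | add a b ha hb => rw [map_add]; exact add_mem ha hb
  | single q c => rw [psi_single]; exact Subalgebra.smul_mem _ (h.sg_sub _) _

theorem psi_comm {c : K[G]} (hc : ∀ q, h.sg q * c = c * h.sg q) (β : K[A × A]) :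
    h.psi β * c = c * h.psi β := by
  induction β using induction_linear with
  | zero => simp
  | add a b ha hb => rw [map_add, add_mul, mul_add, ha, hb]
  | single q c => rw [psi_single, smul_mul_assoc, mul_smul_comm, hc]

theorem rho_i (β : K[A × A]) : h.rho β (i' * e) = h.psi β * (i' * e) := by
  induction β using induction_linear with
  | zero => simp
  | add a b ha hb => rw [map_add, map_add, LinearMap.add_apply, add_mul, ha, hb]
  | single q c =>
    rw [psi_single, rho_single, mul_assoc, ← h.sg_comm_i, map_mul, smul_mul_assoc, mul_assoc]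

theorem Sg_sub (β : K[A]) : h.Sg β ∈ sub K N := by
  induction β using induction_linear with
  | zero => simp
  | add a b ha hb => rw [map_add]; exact add_mem ha hb
  | single q c => rw [Sg_single]; exact Subalgebra.smul_mem _ (h.sg_sub _) _

theorem Sg_comm {c : K[G]} (hc : ∀ q, h.sg q * c = c * h.sg q) (β : K[A]) :
    h.Sg β * c = c * h.Sg β := by
  induction β using induction_linear with
  | zero => simp
  | add a b ha hb => rw [map_add, add_mul, mul_add, ha, hb]
  | single q c => rw [Sg_single, smul_mul_assoc, mul_smul_comm, hc]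

theorem sg_comm_Sg (β : K[A]) (q : A) : h.sg q * h.Sg β = h.Sg β * h.sg q :=
  (h.Sg_comm (fun r => by rw [← map_mul, mul_comm, map_mul]) β).symm

omit h in
variable (N e i') in
/-- The projection onto the corner `i K N i`. -/
noncomputable def pr : End K K[G] :=
  LinearMap.mulLeftRight K (i' * e, i' * e) ∘ₗ trunc (N : Set G)

omit h in
theorem pr_apply (d : K[G]) : pr N e i' d = i' * e * trunc (N : Set G) d * (i' * e) := rfl

include h

theorem pr_mem (d : K[G]) : pr N e i' d ∈ cor N (i' * e) (i' * e) :=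
  pr_apply (N := N) (e := e) (i' := i') d ▸ mul_mem_cor (mul_mem h.i_sub (trunc_mem_sub N d)) h.i_sub
    (by rw [← mul_assoc, h.i_idem]) h.i_idem

omit h in
theorem pr_of_mem {d : K[G]} (hd : d ∈ cor N (i' * e) (i' * e)) : pr N e i' d = d := by
  rw [pr_apply, trunc_of_mem_sub hd.1, hd.2.1, hd.2.2]

theorem pr_rho (β : K[A × A]) : Commute (pr N e i') (h.rho β) := by
  induction β using induction_linear with
  | zero => simp
  | add a b ha hb => rw [map_add]; exact ha.add_right hb
  | single q c =>
    refine LinearMap.ext fun d => ?_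
    rw [End.mul_apply, End.mul_apply, rho_single, rho_single, map_smul, pr_apply, pr_apply,
      trunc_mul_right _ (h.sg_sub _), trunc_mul_left (h.sg_sub _)]
    have h1 := h.sg_comm_i q.1
    have h2 := h.sg_comm_i q.2
    generalize i' * e = i at h1 h2
    rw [← mul_assoc i, ← mul_assoc i, ← h1, mul_assoc _ (h.sg q.2), h2]
    simp only [mul_assoc]

theorem pr_cjE (β : K[A]) : Commute (pr N e i') (cjE K a β) := by
  induction β using induction_linear with
  | zero => simp
  | add a b ha hb => rw [map_add]; exact ha.add_right hb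
  | single q c =>
    refine LinearMap.ext fun d => ?_
    rw [End.mul_apply, End.mul_apply, cjE_single, cjE_single, map_smul, pr_apply, pr_apply,
      map_mul (cj (a q)) _ (i' * e), map_mul (cj (a q)) (i' * e), h.cj_i, cj_trunc,
      cjs_eq_of_mem_normalizer (h.ext.norm q)]

theorem cjE_mem (β : K[A]) : ∀ d ∈ cor N (i' * e) (i' * e),
    cjE K a β d ∈ cor N (i' * e) (i' * e) := fun d hd => by
  rw [← pr_of_mem hd, ← End.mul_apply, ← (h.pr_cjE β).eq]
  exact h.pr_mem _

end Dat

variable [Fintype A] [Algebra (MvPolynomial A k) K]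

variable (k K A) in
/-- The commutator with the generic element. -/
noncomputable def yy : K[A × A] := ∑ q : A, (single (q, 1) (tv k K q) - single (1, q) (tv k K q))

variable (k K A) in
/-- The generic element of the diagonal action. -/
noncomputable def zz : K[A × A] := ∑ q : A, (single (q, q⁻¹) (tv k K q) - single 1 (tv k K q))

theorem zeta_pow {p : ℕ} [Fact p.Prime] [CharP K p] : zeta k K A ^ p =
    ∑ q : A, (single (q ^ p) (tv k K q ^ p) - single 1 (tv k K q ^ p)) := by
  have : CharP K[A] p := charP_of_injective_algebraMap (algebraMap K K[A]).injective p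
  rw [zeta, sum_pow_char]
  exact Finset.sum_congr rfl fun q _ => by rw [sub_pow_char, single_pow, single_pow, one_pow]

theorem Br_cjE_zeta (a : A →* G) (d : K[G]) : Br a.range (cjE K a (zeta k K A) d) = 0 := by
  refine Br_eq_zero_iff.2 fun x hx => ?_
  simp only [zeta, map_sum, map_sub, LinearMap.sum_apply, LinearMap.sub_apply, cjE_single,
    map_one, cj_one, coeff_sum_apply]
  refine Finset.sum_eq_zero fun q _ => ?_
  rw [← smul_sub, coeff_smul, Finsupp.smul_apply, coeff_sub, Finsupp.sub_apply, coeff_cj,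
    mul_assoc, ← hx _ ⟨q, rfl⟩, inv_mul_cancel_left, sub_self, smul_zero]

theorem cjE_zeta_of_fix (a : A →* G) {d : K[G]} (hd : ∀ q, cj (a q) d = d) :
    cjE K a (zeta k K A) d = 0 := by
  simp [zeta, cjE_single, hd]

theorem Subst.hat_yy [Algebra k K] {τ : K →+* K[A × A]} (h : Subst k (fun q : A => ((1 : A), q⁻¹)) τ) :
    hat τ (yy k K A) = zz k K A := by
  simp only [yy, zz, map_sum, map_sub, hat_single, h.tv, single_mul_single]
  exact Finset.sum_congr rfl fun q _ => by simp [Prod.one_eq_mk]

namespace Dat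
variable {p : ℕ} {N : Subgroup G} {a : A →* G} {s : A → K[G]} {e j i' : K[G]}
  (h : Dat p N a s e j i')

variable (k) in
/-- The generic element. -/
noncomputable def xx : K[G] := h.Sg (zeta k K A)

theorem xx_eq : h.xx k = ∑ q, tv k K q • (h.sg q - 1) := by
  simp [xx, zeta, Sg_single, smul_sub]

theorem xx_pow [Fact p.Prime] [CharP K p] : h.xx k ^ p = 0 := by
  rw [xx, ← map_pow, zeta_pow]
  simp [Sg_single, -map_pow, h.sg_pow]

theorem xx_sub : h.xx k ∈ sub K N := h.Sg_sub _

theorem xx_comm_i : h.xx k * (i' * e) = i' * e * h.xx k := h.Sg_comm h.sg_comm_i _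

theorem xx_mul_mem {w : K[G]} : ∀ v ∈ cor N (i' * e) w,
    LinearMap.mulLeft K (h.xx k) v ∈ cor N (i' * e) w := fun _ hv =>
  mul_mem_cor_of_comm h.xx_sub h.xx_comm_i.symm hv

theorem rho_yy (d : K[G]) : h.rho (yy k K A) d = h.xx k * d - d * h.xx k := by
  simp only [yy, xx_eq, map_sum, map_sub, LinearMap.sum_apply, LinearMap.sub_apply, rho_single,
    map_one, mul_one, one_mul, Finset.sum_mul, Finset.mul_sum, ← Finset.sum_sub_distrib,
    smul_mul_assoc, mul_smul_comm, ← smul_sub, sub_mul, mul_sub, sub_sub_sub_cancel_right]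

theorem rho_zz {d : K[G]} (hd : d ∈ cor N (i' * e) (i' * e)) :
    h.rho (zz k K A) d = cjE K a (zeta k K A) d := by
  simp only [zz, zeta, map_sum, map_sub, LinearMap.sum_apply, LinearMap.sub_apply, rho_single,
    cjE_single, h.sg_conj _ hd.1 (h.e_mul_of hd), Prod.one_eq_mk, map_one, mul_one, one_mul, cj_one]

theorem rho_zz_pow (m : ℕ) {d : K[G]} (hd : d ∈ cor N (i' * e) (i' * e)) :
    (h.rho (zz k K A) ^ m) d = (cjE K a (zeta k K A) ^ m) d := by
  induction m with
  | zero => rfl
  | succ m ih =>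
    rw [pow_succ', pow_succ', End.mul_apply, End.mul_apply, ih,
      h.rho_zz (pow_mem (h.cjE_mem _) m d hd)]

theorem rho_yy_pow_mul (m : ℕ) (d : K[G]) {v : K[G]} (hv : h.xx k * v = 0) :
    (h.rho (yy k K A) ^ m) d * v = h.xx k ^ m * (d * v) := by
  induction m with
  | zero => simp
  | succ m ih =>
    rw [pow_succ', End.mul_apply, rho_yy, sub_mul, mul_assoc, ih, mul_assoc _ _ v, hv, mul_zero,
      sub_zero, pow_succ', mul_assoc]

include h in
theorem cjE_zeta_pow [Fact p.Prime] [CharP K p] {d : K[G]} (hd : d ∈ sub K N) :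
    (cjE K a (zeta k K A) ^ p) d = 0 := by
  rw [← map_pow, zeta_pow]
  have h1 : ∀ q, cj (a (q ^ p)) d = d := fun q => mem_fix.1 (mem_fix_of_mem_sub_centralizer
    (H := centralizer (N : Set G)) (sub_mono (le_centralizer_iff.1 le_rfl) hd)) _ (h.cen q)
  simp [cjE_single, -map_pow, h1]

variable [IsFractionRing (MvPolynomial A k) K] [Algebra k K]
  [IsScalarTower k (MvPolynomial A k) K] [Finite G] [Fact p.Prime] [CharP k p] {n : ℕ}
  (hA : ∀ q : A, q ^ p ^ n = 1)
include h hA

theorem exists_of_zeta {d : K[G]} (hd : d ∈ cor N (i' * e) (i' * e))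
    (h0 : cjE K a (zeta k K A) d = 0) : ∃ c : K, Br a.range d = c • i' ∧
      ∃ w ∈ cor N (i' * e) (i' * e), Br a.range w = 0 ∧
        d = c • (i' * e) + (cjE K a (zeta k K A) ^ (p - 1)) w := by
  obtain ⟨c, hc⟩ := h.Br_eq hd
  have hi : cjE K a (zeta k K A) (i' * e) = 0 := cjE_zeta_of_fix a h.cj_i
  have h1 : d - c • (i' * e) ∈ cor N (i' * e) (i' * e) := sub_mem hd (Submodule.smul_mem _ _ h.i_mem)
  have h2 : Br a.range (d - c • (i' * e)) = 0 := by rw [map_sub, map_smul, h.Br_i, hc, sub_self]
  obtain ⟨w₀, -, hw₀⟩ := supp_free (k := k) hA a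
    (X := {x | x ∈ N ∧ x ∉ centralizer (a.range : Set G)}) (d := d - c • (i' * e))
    (fun x hx q => ⟨conj_mem_of_mem_normalizer (h.ext.norm q) hx.1, fun h3 => hx.2 (by
      have := conj_mem_of_mem_normalizer' (normalizer_le_normalizer_centralizer a.range
        (le_normalizer ⟨q, rfl⟩)) h3
      simpa [mul_assoc] using this)⟩)
    (fun x hx q => by rw [← h.cen q x hx.1, mul_inv_cancel_right])
    (fun x hx => by
      by_contra h3
      push Not at h3
      refine hx.2 ?_
      rintro _ ⟨q, rfl⟩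
      exact mul_inv_eq_iff_eq_mul.1 (h3 q))
    (fun x hx => by
      by_cases h3 : x ∈ N
      · exact Br_eq_zero_iff.1 h2 x (not_not.1 fun h4 => hx ⟨h3, h4⟩)
      · exact mem_sub.1 h1.1 x h3)
    (by rw [map_sub, map_smul, h0, hi, smul_zero, sub_zero])
  obtain ⟨c', hc'⟩ := h.Br_eq (h.pr_mem w₀)
  refine ⟨c, hc, pr N e i' w₀ - c' • (i' * e), sub_mem (h.pr_mem _)
    (Submodule.smul_mem _ _ h.i_mem), by rw [map_sub, map_smul, h.Br_i, hc', sub_self], ?_⟩
  have h3 : p - 1 = p - 2 + 1 := by have := (Fact.out : p.Prime).two_le; omega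
  rw [map_sub, map_smul, ← End.mul_apply, ← ((h.pr_cjE _).pow_right _).eq, End.mul_apply, hw₀,
    pr_of_mem h1, h3, pow_succ, End.mul_apply, hi, map_zero, smul_zero, sub_zero, add_sub_cancel]

include k in
theorem not_dvd_finrank : ¬ p ∣ finrank K (cor N (i' * e) (i' * e)) := by
  have : CharP K p := charP_of_injective_algebraMap (algebraMap k K).injective p
  have hp : p - 1 + 1 = p := Nat.sub_add_cancel (Fact.out : p.Prime).pos
  have h1 := dvd_finrank (x := cjE K a (zeta k K A)) (r := p - 1)
    (U := cor N (i' * e) (i' * e) ⊓ LinearMap.ker (Br a.range))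
    (fun v hv => ⟨h.cjE_mem _ v hv.1, Br_cjE_zeta a v⟩)
    (fun v hv => by rw [hp]; exact h.cjE_zeta_pow hv.1.1) fun v hv h0 => by
      obtain ⟨c, hc, w, hw, hw', h2⟩ := h.exists_of_zeta hA hv.1 h0
      rw [LinearMap.mem_ker.1 hv.2, eq_comm, smul_eq_zero_iff_left h.pt'.ne] at hc
      exact ⟨w, ⟨hw, hw'⟩, by rw [h2, hc, zero_smul, zero_add]⟩
  have h2 : (cor N (i' * e) (i' * e)).map (Br a.range) = K ∙ i' := le_antisymm
    (by
      rintro _ ⟨d, hd, rfl⟩
      obtain ⟨c, hc⟩ := h.Br_eq hd
      exact hc ▸ Submodule.smul_mem _ _ (Submodule.mem_span_singleton_self _))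
    ((Submodule.span_singleton_le_iff_mem _ _).2 ⟨_, h.i_mem, h.Br_i⟩)
  rw [hp] at h1
  rw [← finrank_map_add (Br a.range), h2, finrank_span_singleton h.pt'.ne]
  intro h3
  exact (Fact.out : p.Prime).not_dvd_one ((Nat.dvd_add_left h1).1 h3)

theorem exists_not_mem : ∃ t ∈ cor N (i' * e) j, h.xx k * t = 0 ∧
    t ∉ (cor N (i' * e) j).map (LinearMap.mulLeft K (h.xx k) ^ (p - 1)) := by
  have : CharP K p := charP_of_injective_algebraMap (algebraMap k K).injective p
  have hp : p - 1 + 1 = p := Nat.sub_add_cancel (Fact.out : p.Prime).pos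
  by_contra h0
  push Not at h0
  refine h.not_dvd_finrank (k := k) hA (hp ▸ dvd_finrank (x := LinearMap.mulLeft K (h.xx k))
    h.xx_mul_mem (fun v _ => by rw [hp, LinearMap.pow_mulLeft, h.xx_pow]; simp) fun d hd h1 => ?_)
  obtain ⟨m, α, β, hα, hβ, he⟩ := h.pt.gen
  have h2 : d = ∑ b, d * α b * j * (β b * (i' * e)) := by
    have h3 : d * (∑ b, α b * j * β b) * (i' * e) = d := by rw [he, mul_assoc, h.e_mul_i, hd.2.2]
    refine h3.symm.trans ?_
    rw [Finset.mul_sum, Finset.sum_mul]
    simp only [mul_assoc]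
  rw [h2]
  refine Submodule.sum_mem _ fun b _ => ?_
  obtain ⟨v, hv, hv'⟩ := h0 (d * α b * j) (mul_mem_cor (mul_mem hd.1 (hα b)) h.pt.sub
    (by rw [← mul_assoc, hd.2.1]) h.pt.idem)
    (by rw [← mul_assoc, ← mul_assoc, show h.xx k * d = 0 from h1, zero_mul, zero_mul])
  refine ⟨v * (β b * (i' * e)), mul_mem_cor hv.1 (mul_mem (hβ b) h.i_sub) hv.2.1
    (by rw [mul_assoc, h.i_idem]), ?_⟩
  rw [← hv', LinearMap.pow_mulLeft, LinearMap.mulLeft_apply, LinearMap.mulLeft_apply, mul_assoc]

end Dat

end CF.DG
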