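import Mathlib.RingTheory.UniqueFactorizationDomain.GCDMonoid
import Mathlib.Algebra.GCDMonoid.Finset
import Mathlib.RingTheory.Localization.FractionRing
import Mathlib.Algebra.Algebra.Tower
import Mathlib.RingTheory.Localization.Integer
import Mathlib.Tactic.FieldSimp
import Mathlib.Tactic.Ring

/-!
# Cocycles with values in the fraction field of a factorial ring

If a finite group acts on a factorial domain whose units are constants, then every cocycle with
values in the multiplicative group of the fraction field is a coboundary times a character.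
-/

namespace CF.DG

variable {k S K : Type*} [Field k] [CommRing S] [IsDomain S] [UniqueFactorizationMonoid S]
  [Field K] [Algebra S K] [IsFractionRing S K] [Algebra k S] [Algebra k K] [IsScalarTower k S K]

theorem exists_gen {Γ : Type*} [Finite Γ] (f : Γ → K) :
    ∃ g : K, (∀ γ, ∃ s : S, f γ = algebraMap S K s * g) ∧
      ∀ y : K, (∀ γ, ∃ s : S, f γ = algebraMap S K s * y) → ∃ s : S, g = algebraMap S K s * y := by
  classical
  have := Fintype.ofFinite Γ
  let _ : NormalizedGCDMonoid S := Classical.arbitrary _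
  obtain ⟨d, hd⟩ := IsLocalization.exist_integer_multiples_of_finite (nonZeroDivisors S) f
  choose a ha using hd
  have hd0 : algebraMap S K d ≠ 0 := IsFractionRing.to_map_ne_zero_of_mem_nonZeroDivisors d.2
  have ha' : ∀ γ, algebraMap S K (a γ) = algebraMap S K d * f γ := fun γ => by
    rw [ha, Algebra.smul_def]
  refine ⟨algebraMap S K (Finset.univ.gcd a) / algebraMap S K d, fun γ => ?_, fun y hy => ?_⟩
  · obtain ⟨s, hs⟩ := Finset.gcd_dvd (f := a) (Finset.mem_univ γ)
    refine ⟨s, ?_⟩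
    rw [mul_div_assoc', ← map_mul, mul_comm s, ← hs, ha', mul_div_cancel_left₀ _ hd0]
  · obtain ⟨m, n, hn, rfl⟩ := IsFractionRing.div_surjective (A := S) y
    have hn0 : algebraMap S K n ≠ 0 := IsFractionRing.to_map_ne_zero_of_mem_nonZeroDivisors hn
    have h1 : m * d ∣ Finset.univ.gcd fun γ => a γ * n := Finset.dvd_gcd fun γ _ => by
      obtain ⟨s, hs⟩ := hy γ
      refine ⟨s, IsFractionRing.injective S K ?_⟩
      rw [map_mul, map_mul, map_mul, ha', hs]
      field_simp
    obtain ⟨s, hs⟩ := h1.trans (Finset.gcd_mul_right' Finset.univ a n).dvd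
    refine ⟨s, ?_⟩
    have := congrArg (algebraMap S K) hs
    rw [map_mul, map_mul, map_mul] at this
    field_simp
    rw [this]; ring

theorem exists_hom_of_cocycle (hU : ∀ u : S, IsUnit u → ∃ c : k, u = algebraMap k S c)
    {Γ : Type*} [Group Γ] [Finite Γ] (ρ : Γ → K →+* K) (h1 : ∀ x, ρ 1 x = x)
    (hm : ∀ γ δ x, ρ (γ * δ) x = ρ γ (ρ δ x))
    (hS : ∀ γ (s : S), ∃ s' : S, ρ γ (algebraMap S K s) = algebraMap S K s')
    (hk : ∀ γ (c : k), ρ γ (algebraMap k K c) = algebraMap k K c) (f : Γ → K) (hf1 : f 1 = 1)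
    (hf : ∀ γ δ, f (γ * δ) = ρ γ (f δ) * f γ) :
    ∃ c : Γ →* k, ∀ γ, (∀ x, ρ γ x = x) → f γ = algebraMap k K (c γ) := by
  obtain ⟨g, hg1, hg2⟩ := exists_gen (S := S) f
  have hg0 : g ≠ 0 := by
    rintro rfl
    obtain ⟨s, hs⟩ := hg1 1
    rw [hf1, mul_zero] at hs
    exact one_ne_zero hs
  have h2 : ∀ γ, ∃ s : S, g = algebraMap S K s * (ρ γ g * f γ) := fun γ => hg2 _ fun δ => by
    obtain ⟨s, hs⟩ := hg1 (γ⁻¹ * δ)
    obtain ⟨s', hs'⟩ := hS γ s
    refine ⟨s', ?_⟩
    rw [← hs', ← mul_assoc, ← map_mul, ← hs, ← hf, mul_inv_cancel_left]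
  have h3 : ∀ γ, ∃ c : k, ρ γ g * f γ = algebraMap k K c * g := fun γ => by
    obtain ⟨s, hs⟩ := h2 γ
    obtain ⟨t, ht⟩ := h2 γ⁻¹
    obtain ⟨t', ht'⟩ := hS γ t
    have h4 : ρ γ g * f γ = algebraMap S K t' * g := by
      conv_lhs => rw [ht]
      rw [map_mul, map_mul, ht', ← hm, mul_inv_cancel, h1, mul_assoc, mul_assoc, ← hf,
        mul_inv_cancel, hf1, mul_one]
    have h5 : t' * s = 1 := by
      apply IsFractionRing.injective S K
      rw [h4, ← mul_assoc] at hs
      rw [map_mul, map_one, mul_comm]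
      exact mul_right_cancel₀ hg0 (hs.symm.trans (one_mul g).symm)
    obtain ⟨c, hc⟩ := hU t' (IsUnit.of_mul_eq_one _ h5)
    exact ⟨c, by rw [h4, hc, ← IsScalarTower.algebraMap_apply]⟩
  choose c hc using h3
  have hinj : ∀ a b : k, algebraMap k K a * g = algebraMap k K b * g → a = b := fun a b h =>
    (algebraMap k K).injective (mul_right_cancel₀ hg0 h)
  refine ⟨⟨⟨c, hinj _ _ ?_⟩, fun γ δ => hinj _ _ ?_⟩, fun γ hγ => ?_⟩
  · rw [← hc, h1, hf1, map_one, mul_one, one_mul]
  · rw [← hc, hm, hf, ← mul_assoc, ← map_mul, hc, map_mul, hk, mul_assoc, hc, map_mul]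
    ring
  · have := hc γ
    rw [hγ, mul_comm] at this
    exact mul_right_cancel₀ hg0 this

end CF.DG
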