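import Cfsg.Agent.DG.Core1
import Cfsg.Agent.DG.H90
import Mathlib.Algebra.MvPolynomial.Nilpotent
import Mathlib.RingTheory.Polynomial.UniqueFactorization

/-!
# The core step of Dade's theorem
-/

namespace CF.DG

open MonoidAlgebra Module CF.Block Subgroup

variable {k K A G : Type*} [Field k] [Field K] [CommGroup A] [Group G] [Fintype A]
  [Algebra (MvPolynomial A k) K] [IsFractionRing (MvPolynomial A k) K] [Algebra k K]
  [IsScalarTower k (MvPolynomial A k) K] [Finite G] {p : ℕ} [Fact p.Prime] [CharP k p] {n : ℕ}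
  {N : Subgroup G} {a : A →* G}

namespace Dat

section OverK
variable {s : A → K[G]} {e j i' : K[G]} (h : Dat p N a s e j i') (hA : ∀ q : A, q ^ p ^ n = 1)
  (h1 : ∀ q, ∃ w : k[G], h.sg q = DG.xt K w) (h2 : ∃ w : k[G], i' * e = DG.xt K w)
include hA h1 h2

theorem decomp {b : K[G]} (hb : b ∈ cor N (i' * e) (i' * e)) (hx : h.xx k * b = b * h.xx k) :
    ∃ (c : K) (β : K[A × A]), IsNilpotent β ∧ ∃ d ∈ cor N (i' * e) (i' * e),
      b = c • (i' * e) + h.psi β * (i' * e) + (h.rho (yy k K A) ^ (p - 1)) d := by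
  have : CharP K p := charP_of_injective_algebraMap (algebraMap k K).injective p
  have := Fintype.ofFinite G
  have hA' : ∀ q : A × A, q ^ p ^ n = 1 := fun q => Prod.ext (hA q.1) (hA q.2)
  obtain ⟨τ, hτ⟩ := exists_subst (k := k) (K := K) hA' fun q : A => ((1 : A), q⁻¹)
  obtain ⟨τ', hτ'⟩ := exists_subst (k := k) (K := K) hA' fun q : A => ((1 : A), q⁻¹)⁻¹
  have hr : ∀ q, Rat k (h.rho (single q 1)) := fun q w => by
    obtain ⟨u, hu⟩ := h1 q.1
    obtain ⟨u', hu'⟩ := h1 q.2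
    exact ⟨u * w * u', by rw [rho_single, one_smul, hu, hu', map_mul, map_mul]⟩
  obtain ⟨i₀, hi₀⟩ := h2
  have hpr : Rat k (pr N e i') := fun w =>
    ⟨i₀ * trunc (N : Set G) w * i₀, by rw [pr_apply, hi₀, map_mul, map_mul, xt_trunc]⟩
  have hT : ∀ {r : A → A × A} {σ : K →+* K[A × A]}, Subst k r σ →
      ∀ d ∈ cor N (i' * e) (i' * e), Top h.rho σ d ∈ cor N (i' * e) (i' * e) := fun hσ d hd => by
    rw [← pr_of_mem hd, hσ.top_comm hpr h.pr_rho]
    exact h.pr_mem _
  obtain ⟨c, -, w, hw, -, h3⟩ := h.exists_of_zeta (k := k) hA (hT hτ b hb) (by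
    rw [← h.rho_zz (hT hτ b hb), ← hτ.hat_yy, ← hτ.top_apply hr, rho_yy, hx, sub_self, map_zero])
  refine ⟨c, τ' c - algebraMap K _ c, ?_, _, hT hτ' w hw, ?_⟩
  · have := isNilpotent_sub_augm hA' (τ' c)
    rwa [hτ'.aug] at this
  · rw [← hτ.top_top hτ' hr b, h3, map_add, ← h.rho_zz_pow _ hw, ← map_pow, hτ'.top_apply hr,
      map_pow, ← hτ.hat_yy, hτ.hat_hat hτ', map_pow, ← rho_i, map_sub, AlgHom.commutes,
      LinearMap.sub_apply, algebraMap_end_apply, add_sub_cancel, hi₀, hτ'.top_smul]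

omit hA h1 h2 [Fintype A] [Algebra (MvPolynomial A k) K] [IsFractionRing (MvPolynomial A k) K]
  [Algebra k K] [IsScalarTower k (MvPolynomial A k) K] [Finite G] [Fact p.Prime] [CharP k p] in
include h in
theorem exists_functional (φ : K[G] →ₗ[K] K) : ∃ b ∈ sub K N, ∀ v ∈ cor N (i' * e) j,
    j * b * v = φ v • j := by
  obtain ⟨m, α, β, hα, hβ, he⟩ := h.pt.gen
  refine ⟨∑ l, φ (i' * e * α l * j) • β l,
    Subalgebra.sum_mem _ fun l _ => Subalgebra.smul_mem _ (hβ l) _, fun v hv => ?_⟩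
  choose c hc using fun l => h.pt.loc _ (mul_mem (hβ l) hv.1)
  have h3 : ∀ l, j * β l * v = c l • j := fun l => by
    rw [← hc, mul_assoc j (β l * v), mul_assoc (β l), hv.2.2, mul_assoc]
  have h4 : v = ∑ l, c l • (i' * e * α l * j) := by
    have h5 : i' * e * (∑ l, α l * j * β l) * v = v := by rw [he, h.i_mul_e, hv.2.1]
    refine h5.symm.trans ?_
    rw [Finset.mul_sum, Finset.sum_mul]
    refine Finset.sum_congr rfl fun l _ => ?_
    rw [← mul_smul_comm, ← h3]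
    simp only [mul_assoc]
  conv_rhs => rw [h4]
  rw [Finset.mul_sum, Finset.sum_mul, map_sum, Finset.sum_smul]
  refine Finset.sum_congr rfl fun l _ => ?_
  rw [mul_smul_comm, smul_mul_assoc, h3, map_smul, smul_smul, smul_eq_mul, mul_comm]

theorem oneDim : ∃ t ∈ cor N (i' * e) j, h.xx k * t = 0 ∧
    t ∉ (cor N (i' * e) j).map (LinearMap.mulLeft K (h.xx k) ^ (p - 1)) ∧
    ∀ v ∈ cor N (i' * e) j, h.xx k * v = 0 → ∃ c : K,
      v - c • t ∈ (cor N (i' * e) j).map (LinearMap.mulLeft K (h.xx k) ^ (p - 1)) := by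
  obtain ⟨t, ht, ht1, ht2⟩ := h.exists_not_mem (k := k) hA
  refine ⟨t, ht, ht1, ht2, fun v hv hv1 => exists_sub_smul_mem h.xx_mul_mem
    (fun l m hm hm1 φ hφ => ?_) ht ht1 ht2 hv hv1⟩
  simp only [LinearMap.pow_mulLeft, LinearMap.mulLeft_apply] at hm1 hφ ⊢
  obtain ⟨b, hb, hb1⟩ := h.exists_functional φ
  set x := h.xx k with hx
  have hxi : ∀ r, x ^ r * (i' * e) = i' * e * x ^ r := fun r =>
    (Commute.pow_left (h.xx_comm_i (k := k)) r).eq
  have hxs : ∀ r, x ^ r ∈ sub K N := fun r => Subalgebra.pow_mem _ h.xx_sub r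
  have hmb : ∀ w ∈ cor N (i' * e) j, m * b * w = φ w • m := fun w hw => by
    rw [← hm.2.2, mul_assoc m, mul_assoc m, hb1 w hw, mul_smul_comm, hm.2.2]
  let L : End K K[G] := LinearMap.mulLeft K x
  let R : End K K[G] := LinearMap.mulRight K x
  let g := m * b * (i' * e)
  have hg : g ∈ cor N (i' * e) (i' * e) := mul_mem_cor (mul_mem hm.1 hb) h.i_sub
    (by rw [← mul_assoc, hm.2.1]) h.i_idem
  let f := (∑ r ∈ Finset.range (l + 1), L ^ r * R ^ (l + 1 - 1 - r)) g
  have hf : f = ∑ r ∈ Finset.range (l + 1), x ^ r * (g * x ^ (l - r)) := by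
    simp [f, L, R, LinearMap.pow_mulLeft, LinearMap.pow_mulRight]
  have hf1 : f ∈ cor N (i' * e) (i' * e) := hf ▸ Submodule.sum_mem _ fun r _ =>
    mul_mem_cor_of_comm (hxs r) (hxi r).symm ⟨mul_mem hg.1 (hxs _), by rw [← mul_assoc, hg.2.1],
      by rw [mul_assoc, hxi, ← mul_assoc, hg.2.2]⟩
  have hf2 : x * f = f * x := by
    have h3 := congrArg (· g) ((LinearMap.commute_mulLeft_right (R := K) x x).mul_geom_sum₂ (l + 1))
    simp only [End.mul_apply, LinearMap.sub_apply, LinearMap.pow_mulLeft, LinearMap.pow_mulRight,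
      LinearMap.mulLeft_apply, LinearMap.mulRight_apply] at h3
    have h4 : x ^ (l + 1) * g = 0 := by
      rw [← mul_assoc _ (m * b), ← mul_assoc _ m, hm1, zero_mul, zero_mul]
    have h5 : g * x ^ (l + 1) = 0 := by
      obtain ⟨m', α, β, hα, hβ, he⟩ := h.pt.gen
      have h6 : g * x ^ (l + 1) * ∑ r, α r * j * β r = g * x ^ (l + 1) := by
        rw [he, mul_assoc, ← h.ext.comm (hxs _), ← mul_assoc, mul_assoc (m * b), h.i_mul_e]
      rw [← h6, Finset.mul_sum]
      refine Finset.sum_eq_zero fun r _ => ?_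
      have h7 : i' * e * α r * j ∈ cor N (i' * e) j := mul_mem_cor (mul_mem h.i_sub (hα r)) h.pt.sub
        (by rw [← mul_assoc, h.i_idem]) h.pt.idem
      have h8 := hmb _ (mul_mem_cor_of_comm (hxs (l + 1)) (hxi _).symm h7)
      rw [hφ _ h7, zero_smul] at h8
      rw [mul_assoc (m * b), ← hxi, ← zero_mul (β r), ← h8]
      simp only [mul_assoc]
    rw [h4, h5, sub_self, sub_eq_zero] at h3
    simpa only [f, L, R, LinearMap.pow_mulLeft, LinearMap.pow_mulRight] using h3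
  obtain ⟨c, β, hβ, d, hd, h3⟩ := h.decomp hA h1 h2 hf1 hf2
  refine ⟨c, LinearMap.mulLeft K (h.psi β), LinearMap.ext fun w => ?_, fun w hw =>
    mul_mem_cor_of_comm (h.psi_sub β) (h.psi_comm h.sg_comm_i β).symm hw, ?_, fun w hw hw1 => ?_⟩
  · simp only [End.mul_apply, LinearMap.mulLeft_apply]
    rw [← mul_assoc, ← mul_assoc, h.psi_comm (c := x) (h.sg_comm_Sg _) β]
  · obtain ⟨r, hr⟩ := hβ
    refine ⟨r, ?_⟩
    rw [LinearMap.pow_mulLeft, ← map_pow, hr, map_zero, LinearMap.mulLeft_zero_eq_zero]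
  · have h4 : f * w = φ w • (x ^ l * m) := by
      rw [hf, Finset.sum_mul, Finset.sum_range_succ, Finset.sum_eq_zero fun r hr => ?_, zero_add,
        Nat.sub_self, pow_zero, mul_one, mul_assoc, mul_assoc (m * b), hw.2.1, hmb w hw,
        mul_smul_comm]
      rw [show l - r = l - r - 1 + 1 by have := Finset.mem_range.1 hr; omega, pow_succ, mul_assoc,
        mul_assoc g, mul_assoc _ x, hw1, mul_zero, mul_zero, mul_zero]
    refine ⟨d * w, ⟨mul_mem hd.1 hw.1, by rw [← mul_assoc, hd.2.1], by rw [mul_assoc, hw.2.2]⟩, ?_⟩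
    rw [← h4, h3, add_mul, add_mul, h.rho_yy_pow_mul _ _ hw1, smul_mul_assoc,
      mul_assoc (h.psi β), hw.2.1, LinearMap.mulLeft_apply, LinearMap.mulLeft_apply]
    abel

end OverK

end Dat

omit [Fintype A] in
theorem exists_perm (σ : Equiv.Perm A) : ∃ ρ : K →+* K, (∀ q, ρ (tv k K q) = tv k K (σ q)) ∧
    (∀ c : k, ρ (algebraMap k K c) = algebraMap k K c) ∧
    ∀ f : MvPolynomial A k, ∃ f' : MvPolynomial A k,
      ρ (algebraMap _ K f) = algebraMap _ K f' := by
  let ρ := IsFractionRing.ringEquivOfRingEquiv (K := K) (L := K)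
    (MvPolynomial.renameEquiv k σ).toRingEquiv
  have h1 : ∀ f, ρ (algebraMap _ K f) = algebraMap _ K (MvPolynomial.rename σ f) := fun f =>
    IsFractionRing.ringEquivOfRingEquiv_algebraMap _ _
  refine ⟨ρ, fun q => ?_, fun c => ?_, fun f => ⟨_, h1 f⟩⟩
  · rw [tv, RingHom.coe_coe, h1, MvPolynomial.rename_X, tv]
  · rw [IsScalarTower.algebraMap_apply k (MvPolynomial A k) K, RingHom.coe_coe, h1,
      AlgHom.commutes]

end CF.DG
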