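import Cfsg.Agent.DG.Core2

/-!
# The core step of Dade's theorem: descent from the generic point
-/

namespace CF.DG

open MonoidAlgebra Module CF.Block Subgroup

variable {k A G : Type*} [Field k] [CommGroup A] [Group G] [Fintype A] [Finite G] {p : ℕ}
  [Fact p.Prime] [CharP k p] {n : ℕ} {N : Subgroup G} {a : A →* G} {s : A → k[G]} {e j i' : k[G]}
  {Γ : Type*} [Group Γ] [Finite Γ] {π : Γ →* G} {s₂ u : Γ → k[G]}

theorem Dat.core_aux (K : Type*) [Field K] [Algebra (MvPolynomial A k) K]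
    [IsFractionRing (MvPolynomial A k) K] [Algebra k K] [IsScalarTower k (MvPolynomial A k) K]
    (h₀ : Dat p N a s e j i') (hA : ∀ q : A, q ^ p ^ n = 1) (hs₀ : Ext N e π s₂)
    (hu₀ : Ext (centralizer (a.range : Set G) ⊓ N) (Br a.range e) π u) (σ : Γ →* Equiv.Perm A)
    (hσ : ∀ γ q, s₂ γ * s q = s (σ γ q) * s₂ γ) :
    ∃ c : Γ →* k, ∀ γ, σ γ = 1 → ∀ c₀ : k, u γ⁻¹ * s₂ γ = c₀ • (Br a.range e * e) → c γ = c₀ := by
  have h := h₀.xt (K := K)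
  have hs := hs₀.xt (K := K)
  have hu := hu₀.xt (K := K)
  have hsg : ∀ q, h.sg q = DG.xt K (h₀.sg q) := fun q => by simp [Dat.sg_apply]
  obtain ⟨t, ht, ht1, ht2, ht3⟩ := h.oneDim hA (fun q => ⟨_, hsg q⟩) ⟨i' * e, (map_mul _ _ _).symm⟩
  choose ρ hρ1 hρ2 hρ3 using fun γ => exists_perm (k := k) (K := K) (σ γ)
  have hρ4 : ∀ γ, σ γ = 1 → ∀ x, ρ γ x = x := fun γ hγ x =>
    DFunLike.congr_fun (ringHom_ext_tv (k := k) (ι := A) (f := ρ γ) (g := RingHom.id K) (hρ2 γ)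
      fun q => by rw [hρ1, hγ]; rfl) x
  have hρ5 : ∀ γ δ x, ρ (γ * δ) x = ρ γ (ρ δ x) := fun γ δ x =>
    DFunLike.congr_fun (ringHom_ext_tv (k := k) (ι := A) (f := ρ (γ * δ)) (g := (ρ γ).comp (ρ δ))
      (fun c => by simp [hρ2]) fun q => by simp [hρ1]) x
  set x := h.xx k with hx
  set M := cor N (DG.xt K i' * DG.xt K e) (DG.xt K j) with hM
  set W := M.map (LinearMap.mulLeft K x ^ (p - 1)) with hW
  let α : Γ → K[G] →+* K[G] := fun γ => mapRingHom G (ρ γ)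
  have hα1 : ∀ γ (w : k[G]), α γ (DG.xt K w) = DG.xt K w := fun γ w =>
    ga_ext fun g => by simp [α, hρ2]
  have hα2 : ∀ γ (c : K) v, α γ (c • v) = ρ γ c • α γ v := fun γ c v =>
    ga_ext fun g => by simp [α]
  have hα3 : ∀ γ δ v, α (γ * δ) v = α γ (α δ v) := fun γ δ v => ga_ext fun g => by simp [α, hρ5]
  have hα4 : ∀ γ, σ γ = 1 → ∀ v, α γ v = v := fun γ hγ v => ga_ext fun g => by
    simp [α, hρ4 γ hγ]
  have hα5 : ∀ γ, ∀ v ∈ sub K N, α γ v ∈ sub K N := fun γ v hv => mem_sub.2 fun g hg => by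
    simp [α, mem_sub.1 hv g hg]
  let b : Γ → K[G] := fun γ => DG.xt K (u γ⁻¹) * DG.xt K (s₂ γ)
  have hb0 : ∀ γ, b γ ∈ sub K N := fun γ => mul_mem (sub_mono inf_le_right (hu.sub _)) (hs.sub _)
  have hb1 : ∀ γ, ∀ c ∈ sub K (centralizer (a.range : Set G) ⊓ N), b γ * c = c * b γ :=
    fun γ c hc => by
      have h1 := hu.conj γ⁻¹ _ (hu.cj_mem γ hc)
      rw [map_inv, cj_inv_cj] at h1
      simp only [b]
      rw [mul_assoc, hs.conj γ c (sub_mono inf_le_right hc), ← mul_assoc, h1, mul_assoc]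
  have hb2 : ∀ γ, b γ * (DG.xt K i' * DG.xt K e) = DG.xt K i' * DG.xt K e * b γ := fun γ => by
    rw [← mul_assoc, hb1 γ _ h.pt'.sub, mul_assoc, ← h.ext.comm (hb0 γ), mul_assoc]
  have hb3 : ∀ γ, b γ * α γ x = x * b γ := fun γ => by
    have h1 : ∀ q, DG.xt K (s₂ γ) * h.sg q = h.sg (σ γ q) * DG.xt K (s₂ γ) := fun q => by
      rw [Dat.sg_apply, Dat.sg_apply, mul_add, add_mul, ← map_mul, hσ, map_mul, mul_sub, sub_mul,
        hs.mul_e, hs.e_mul, mul_one, one_mul]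
    have h2 : DG.xt K (s₂ γ) * α γ x = x * DG.xt K (s₂ γ) := by
      rw [hx, h.xx_eq, map_sum, Finset.mul_sum, Finset.sum_mul]
      refine Fintype.sum_equiv (σ γ) _ _ fun q => ?_
      rw [hα2, hρ1, map_sub, map_one, hsg, hα1, ← hsg, mul_smul_comm, smul_mul_assoc, mul_sub,
        sub_mul, h1, mul_one, one_mul]
    simp only [b]
    rw [mul_assoc, h2, ← mul_assoc, ← mul_assoc]
    congr 1
    exact (h.Sg_comm (h.sg_comm (sub_mono inf_le_right (hu.sub _)) (h.s_comm (hu.sub _))) _).symm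
  have hb4 : ∀ γ δ, b (γ * δ) = b γ * b δ := fun γ δ => by
    have h1 := hb1 γ _ (hu.sub δ⁻¹)
    simp only [b] at h1 ⊢
    rw [← mul_assoc, h1, mul_inv_rev, hu.mul, hs.mul]
    simp only [mul_assoc]
  have hb5 : ∀ γ δ, α γ (b δ) = b δ := fun γ δ => by simp only [b, map_mul, hα1]
  have hb6 : ∀ v ∈ M, DG.xt K (Br a.range e * e) * v = v := fun v hv => by
    rw [← hv.2.1, ← mul_assoc, map_mul, mul_assoc _ (DG.xt K e), h.e_mul_i, ← mul_assoc, xt_Br,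
      h.pt'.mul]
  let Φ : Γ → K[G] → K[G] := fun γ v => b γ * α γ v
  have hΦ1 : ∀ γ, ∀ v ∈ M, Φ γ v ∈ M := fun γ v hv =>
    mul_mem_cor_of_comm (hb0 γ) (hb2 γ).symm ⟨hα5 γ v hv.1,
      by rw [← hα1 γ i', ← hα1 γ e, ← map_mul, ← map_mul, hv.2.1],
      by rw [← hα1 γ j, ← map_mul, hv.2.2]⟩
  have hΦ2 : ∀ γ r v, Φ γ (x ^ r * v) = x ^ r * Φ γ v := fun γ r v => by
    simp only [Φ]
    rw [map_mul, map_pow, ← mul_assoc, ← mul_assoc, (SemiconjBy.pow_right (hb3 γ) r).eq]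
  have hΦ3 : ∀ γ, ∀ w ∈ W, Φ γ w ∈ W := by
    rintro γ _ ⟨v, hv, rfl⟩
    refine ⟨_, hΦ1 γ v hv, ?_⟩
    simp only [LinearMap.pow_mulLeft, LinearMap.mulLeft_apply, hΦ2]
  choose f hf using fun γ => ht3 _ (hΦ1 γ t ht) (by
    have := hΦ2 γ 1 t
    rw [pow_one, ht1] at this
    rw [← this]; simp [Φ])
  have huniq : ∀ γ (c : K), Φ γ t - c • t ∈ W → f γ = c := fun γ c hc => by
    by_contra h1
    have h2 := W.sub_mem hc (hf γ)
    rw [sub_sub_sub_cancel_left, ← sub_smul, W.smul_mem_iff (sub_ne_zero.2 h1)] at h2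
    exact ht2 h2
  have hfc : ∀ γ, σ γ = 1 → ∀ c₀ : k, u γ⁻¹ * s₂ γ = c₀ • (Br a.range e * e) →
      f γ = algebraMap k K c₀ := fun γ hγ c₀ hc => huniq γ _ (by
    simp only [Φ, b]
    rw [hα4 γ hγ, ← map_mul, hc, xt_smul, smul_mul_assoc, hb6 t ht, sub_self]
    exact zero_mem _)
  obtain ⟨c, hc⟩ := exists_hom_of_cocycle (k := k) (S := MvPolynomial A k)
    (fun u hu => by
      obtain ⟨r, -, hr⟩ := MvPolynomial.isUnit_iff_eq_C_of_isReduced.1 hu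
      exact ⟨r, hr⟩) ρ (hρ4 1 (map_one σ)) hρ5 hρ3 hρ2 f
    (by rw [hfc 1 (map_one σ) 1 (by rw [inv_one, hu₀.one, hs₀.one, one_smul]), map_one])
    fun γ δ => huniq _ _ (by
      convert W.add_mem (hΦ3 γ _ (hf δ)) (W.smul_mem (ρ γ (f δ)) (hf γ)) using 1
      simp only [Φ]
      rw [hb4, hα3, map_sub, map_mul, hb5, hα2, mul_sub, mul_smul_comm, smul_sub, smul_smul,
        mul_assoc]
      abel)
  exact ⟨c, fun γ hγ c₀ h1 => (algebraMap k K).injective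
    ((hc γ (hρ4 γ hγ)).symm.trans (hfc γ hγ c₀ h1))⟩

theorem Dat.core (h₀ : Dat p N a s e j i') (hA : ∀ q : A, q ^ p ^ n = 1) (hs₀ : Ext N e π s₂)
    (hu₀ : Ext (centralizer (a.range : Set G) ⊓ N) (Br a.range e) π u) (σ : Γ →* Equiv.Perm A)
    (hσ : ∀ γ q, s₂ γ * s q = s (σ γ q) * s₂ γ) :
    ∃ c : Γ →* k, ∀ γ, σ γ = 1 → ∀ c₀ : k, u γ⁻¹ * s₂ γ = c₀ • (Br a.range e * e) → c γ = c₀ :=
  h₀.core_aux (FractionRing (MvPolynomial A k)) hA hs₀ hu₀ σ hσ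

end CF.DG
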