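import Cfsg.Agent.DG.Units
import Cfsg.Agent.Block.Dade

/-!
# Dade's theorem on extensions of Glauberman correspondents, for abelian `p`-groups
-/

namespace CF.DG

open Cfsg MonoidAlgebra Module CF.Block Subgroup CF.Clifford
open CF.BlockB (v O k resC nrm omega eSet ev)

universe u w

theorem Ext.exists_hom {k G Γ : Type*} [Field k] [Group G] [Group Γ] {N : Subgroup G}
    {e j : k[G]} {π : Γ →* G} {s s' : Γ → k[G]} (h : Ext N e π s) (h' : Ext N e π s')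
    (hj : Pt N e j) : ∃ c : Γ →* k, ∀ γ, s' γ = c γ • s γ := by
  have h1 : ∀ γ, ∃ c : k, s' γ = c • s γ := fun γ => by
    obtain ⟨c, hc⟩ := hj.scalar (x := s γ⁻¹ * s' γ) (mul_mem (h.sub _) (h'.sub _))
      (by rw [mul_assoc, h'.mul_e]) fun a ha => by
        rw [mul_assoc, h'.conj γ a ha, ← mul_assoc, h.conj _ _ (h.cj_mem γ ha), map_inv, cj_inv_cj,
          mul_assoc]
    refine ⟨c, ?_⟩
    rw [← h'.e_mul, ← h.one, ← mul_inv_cancel γ, h.mul, mul_assoc, hc, mul_smul_comm, h.mul_e]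
  choose c hc using h1
  have h2 : ∀ γ, s γ ≠ 0 := fun γ h0 => hj.e_ne (by
    rw [← h.one, ← mul_inv_cancel γ, h.mul, h0, zero_mul])
  refine ⟨⟨⟨c, smul_left_injective k (h2 1) ?_⟩, fun γ δ => smul_left_injective k (h2 (γ * δ)) ?_⟩,
    hc⟩
  · simp only
    rw [← hc, one_smul, h.one, h'.one]
  · simp only
    rw [← hc, h'.mul, h.mul, hc, hc, smul_mul_smul_comm]

variable {p : ℕ} {M : Ideal AlgInt} {G : Type u} [Group G] [Finite G]

theorem eq_of_resC_eq (hM : IsPModular p M) {z w : ℂ} {a b : ℕ} (ha : ¬ p ∣ a) (hb : ¬ p ∣ b)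
    (hz : z ^ a = 1) (hw : w ^ b = 1) (h : resC M z = resC M w) : z = w := by
  have h2 := BlockB.v_eq_one_of_pow_eq_one (M := M) (by rintro rfl; simp at hb) hw
  have h3 : w ≠ 0 := by rintro rfl; simp at h2
  rw [BlockB.resC_eq_iff (BlockB.v_eq_one_of_pow_eq_one (by rintro rfl; simp at ha) hz).le h2.le]
    at h
  refine (div_eq_one_iff_eq h3).1 (BlockB.eq_one_of_v_sub_one_lt_one hM (m := a * b)
    (fun h => (hM.1.dvd_mul.1 h).elim ha hb) ?_ ?_)
  · rw [div_pow, pow_mul, hz, mul_comm, pow_mul, hw, one_pow, one_pow, div_one]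
  · rwa [div_sub_one h3, map_div₀, h2, div_one]

theorem exists_lin_lift' (hM : IsPModular p M) (μ : G →* k M) :
    ∃ lam : G →* ℂˣ, (∀ g, resC M (lam g) = μ g) ∧ ∃ m, ¬ p ∣ m ∧ ∀ g, (lam g : ℂ) ^ m = 1 := by
  have := Fact.mk hM.1
  have := BlockB.charP_k hM
  obtain ⟨lam, h1, h2⟩ := exists_lin_lift hM μ
  obtain ⟨i, m, hm, h0⟩ := Nat.exists_eq_pow_mul_and_not_dvd (Nat.card_pos (α := G)).ne' p
    hM.1.ne_one
  refine ⟨lam, h1, m, hm, fun g => ?_⟩
  rw [← Units.val_pow_eq_pow_val, ← map_pow, h2, Units.val_one]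
  have : μ (g ^ m) ^ p ^ i = 1 := by
    rw [← map_pow, ← pow_mul, mul_comm, ← h0, pow_card_eq_one', map_one]
  rwa [← sub_eq_zero, ← one_pow (p ^ i), ← sub_pow_char_pow, pow_eq_zero_iff
    (pow_ne_zero _ hM.1.ne_zero), sub_eq_zero] at this

theorem exists_lift {N : Type*} [Group N] [Finite N] (hp : p.Prime) (hN : ¬ p ∣ Nat.card N)
    (E : NormalEmb N G) {θ : N → ℂ} (hθ : IsIrrCharacter N θ) (hi : E.Invariant θ) :
    ∃ (Γ : Type u) (_ : Group Γ) (_ : Finite Γ) (E' : NormalEmb N Γ) (π : Γ →* G) (θ' : Γ → ℂ)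
      (lam : π.ker →* ℂˣ) (m : ℕ), IsLift E θ m E' π θ' lam ∧
        ∃ a, ¬ p ∣ a ∧ ∀ z, (lam z : ℂ) ^ a = 1 := by
  obtain ⟨Γ, _, _, E', π, θ', lam, L⟩ := E.exists_isLift hθ hi
  have hd := (BlockB.charDegree_eq (Char.irr_isCharacter hθ)).symm
  refine ⟨Γ, _, ‹_›, E', π, θ', lam, _, L, charDegree θ * detOrder θ, fun h => hN ?_, fun z => ?_⟩
  · exact (hp.dvd_mul.1 h).elim (fun h => h.trans (Char.irr_one_dvd_card hθ hd))
      fun h => h.trans (detOrder_dvd_card (Char.irr_isCharacter hθ))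
  · rw [pow_mul, ← L.detChar_ker hd, L.det_pow]

theorem exists_singleton {N : Type*} [Group N] [Finite N] (hM : IsPModular p M)
    (hN : ¬ p ∣ Nat.card N) {j : N →* G} (hj : Function.Injective j) {e : (k M)[G]}
    (he : IsBlk j.range e) : ∃ θ : IrrCharacter N, gmap j (eb M {θ}) = e := by
  obtain ⟨e₀, rfl⟩ := exists_gmap_eq hj (mem_Zc.1 he.mem).1
  obtain ⟨b, hb, rfl⟩ := exists_eb_eq hM
    ((isBlk_gmap hj (K := ⊤)).1 (by rwa [← MonoidHom.range_eq_map]))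
  obtain ⟨θ, hθ⟩ := BlockB.block_nonempty hM hb
  exact ⟨θ, by rw [BlockB.block_eq_blockOf hM hb hθ,
    ← BlockB.block_eq_blockOf hM (isPBlock_singleton_of_not_dvd hM hN θ) rfl]⟩

theorem invariant_of_cj {N Γ : Type*} [Group N] [Finite N] [Group Γ] (hM : IsPModular p M)
    (hN : ¬ p ∣ Nat.card N) (E : NormalEmb N Γ) {j : N →* G} (hj : Function.Injective j)
    {π : Γ →* G} (hπ : ∀ n, π (E.ι n) = j n) {θ : IrrCharacter N}
    (h : ∀ γ, cj (π γ) (gmap j (eb M {θ})) = gmap j (eb M {θ})) : E.Invariant (θ : N → ℂ) := by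
  intro γ
  have h1 : eb M {(⟨_, E.cj_irr θ.2 γ⟩ : IrrCharacter N)} = eb M {θ} := ga_ext fun n => by
    have h2 := congrArg (fun a => a.coeff (j n)) (h γ⁻¹)
    simp only [coeff_cj, map_inv, inv_inv] at h2
    rw [← hπ, ← map_inv, ← map_mul, ← map_mul, ← E.ι_c, hπ, hπ, coeff_gmap hj, coeff_gmap hj] at h2
    rw [← h2, coeff_eb, coeff_eb, BlockB.blockCoeff_singleton, BlockB.blockCoeff_singleton]
    simp [NormalEmb.cj]
  have h2 := eb_inj hM (isPBlock_singleton_of_not_dvd hM hN _)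
    (isPBlock_singleton_of_not_dvd hM hN _) h1
  exact congrFun (congrArg Subtype.val (Set.singleton_injective h2))

theorem exists_ext_cover {Γ : Type w} [Group Γ] [Finite Γ] (hM : IsPModular p M) {C : Subgroup G}
    (hC : ¬ p ∣ Nat.card C) {f : (k M)[G]} (hf : IsBlk C f) {π : Γ →* G}
    (h1 : ∀ γ, π γ ∈ normalizer (C : Set G)) (h2 : ∀ γ, cj (π γ) f = f) :
    ∃ (Δ : Type (max u w)) (_ : Group Δ) (_ : Finite Δ) (ρ : Δ →* Γ) (u : Δ → (k M)[G]),
      Function.Surjective ρ ∧ Ext C f (π.comp ρ) u := by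
  obtain ⟨φ, rfl⟩ := exists_singleton hM hC C.subtype_injective (by rwa [C.range_subtype])
  set T := stab (normalizer (C : Set G)) (gmap C.subtype (eb M {φ}))
  let E := NormalEmb.ofLe (N := C) (T := T) (le_stab le_normalizer hf.mem_fix)
    fun t ht n hn => conj_mem_of_mem_normalizer (mem_stab.1 ht).1 hn
  obtain ⟨Γ', _, _, E', π', θ', lam, L⟩ := E.exists_isLift φ.2
    (invariant_of_cj hM hC E C.subtype_injective (π := T.subtype) (fun _ => rfl)
      fun t => (mem_stab.1 t.2).2)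
  obtain ⟨s, hs, -⟩ := exists_ext_of_char hM hC E' (Char.irr_isCharacter L.irr) L.ext
    (j := C.subtype) (π := T.subtype.comp π') fun n => by rw [MonoidHom.comp_apply, L.π_ι]; rfl
  rw [C.range_subtype] at hs
  let Δ := (π.comp (MonoidHom.fst Γ Γ')).eqLocus ((T.subtype.comp π').comp (MonoidHom.snd Γ Γ'))
  refine ⟨Δ, inferInstance, inferInstance, (MonoidHom.fst Γ Γ').comp Δ.subtype, _, fun γ => ?_,
    (MonoidHom.ext fun δ : Δ => δ.2.symm :
      (T.subtype.comp π').comp ((MonoidHom.snd Γ Γ').comp Δ.subtype) =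
        π.comp ((MonoidHom.fst Γ Γ').comp Δ.subtype)) ▸ hs.comp _⟩
  obtain ⟨x, hx⟩ := L.surj ⟨π γ, mem_stab.2 ⟨h1 γ, h2 γ⟩⟩
  exact ⟨⟨(γ, x), (congrArg Subtype.val hx).symm⟩, rfl⟩

theorem dade_step {Γ : Type w} [Group Γ] [Finite Γ] (hM : IsPModular p M) {N : Subgroup G}
    (hN : ¬ p ∣ Nat.card N) {e : (k M)[G]} (he : IsBlk N e) {π : Γ →* G} {s : Γ → (k M)[G]}
    (hs : Ext N e π s) (A : Subgroup Γ) [A.Normal] (hA : IsPGroup p A)
    (hc : ∀ a ∈ A, ∀ b ∈ A, a * b = b * a) (h0 : ∀ a ∈ A, π (a ^ p) ∈ centralizer (N : Set G)) :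
    ∃ u, Ext (Cz N (A.map π)) (Br (A.map π) e) π u ∧ ∀ γ ∈ centralizer (A : Set Γ),
      π γ ∈ Cz N (A.map π) → ∀ c : k M, s γ = c • (single (π γ) 1 * e) →
        u γ = c • (single (π γ) 1 * Br (A.map π) e) := by
  have := Fact.mk hM.1
  have := BlockB.charP_k hM
  have := Fintype.ofFinite A
  let _ : CommGroup A := { (inferInstance : Group A) with
    mul_comm := fun a b => Subtype.ext (hc _ a.2 _ b.2) }
  have hcast : ∀ K : Subgroup G, ¬ p ∣ Nat.card K → (Nat.card K : k M) ≠ 0 := fun K hK h =>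
    hK ((CharP.cast_eq_zero_iff _ p _).1 h)
  have hC : ¬ p ∣ Nat.card (Cz N (A.map π)) := fun h => hN (h.trans (card_dvd_of_le inf_le_right))
  have hf : IsBlk (Cz N (A.map π)) (Br (A.map π) e) :=
    he.isBlk_Br_of_coprime (regSupp hM) (hA.map π) (by rintro _ ⟨a, -, rfl⟩; exact hs.norm a)
      (mem_fix.2 (by rintro _ ⟨a, -, rfl⟩; exact hs.cj_e a)) hN
  have hn : ∀ γ, π γ ∈ normalizer (A.map π : Set G) := fun γ =>
    le_normalizer_map π ⟨γ, le_normalizer_of_normal' ⊤ A trivial, rfl⟩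
  obtain ⟨j, hj⟩ := exists_pt he (hcast _ hN)
  obtain ⟨i, hi⟩ := exists_pt hf (hcast _ hC)
  obtain ⟨Δ, _, _, ρ, u, hρ, hu⟩ := exists_ext_cover hM hC hf (π := π)
    (fun γ => normalizer_inf_le_normalizer_inf _ _
      ⟨normalizer_le_normalizer_centralizer _ (hn γ), hs.norm γ⟩)
    fun γ => by rw [cj_Br, cjs_eq_of_mem_normalizer (hn γ), hs.cj_e]
  obtain ⟨n, hn⟩ := IsPGroup.iff_card.1 hA
  have hA' : ∀ q : A, q ^ p ^ n = 1 := fun q => by rw [← hn, pow_card_eq_one']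
  have hr : (π.comp A.subtype).range = A.map π := by rw [MonoidHom.range_comp, A.range_subtype]
  have hD : Dat p N (π.comp A.subtype) (fun q => s (A.subtype q)) e j i :=
    ⟨hs.comp _, fun q => hs.eq_e hj (h0 q q.2) (n := n)
      (by rw [← map_pow, ← pow_mul, mul_comm, pow_mul, hA', one_pow, map_one]),
      fun q => h0 q q.2, hj, hr ▸ hi⟩
  obtain ⟨c, hc⟩ := hD.core hA' (hs.comp ρ) (hr ▸ hu)
    ((MulAut.toPerm A).comp (MulAut.conjNormal.comp ρ)) fun γ q => by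
      rw [← hs.mul, ← hs.mul]
      exact congrArg s (inv_mul_cancel_right (ρ γ * q) (ρ γ)).symm
  have key : ∀ δ, ρ δ ∈ centralizer (A : Set Γ) → π (ρ δ) ∈ Cz N (A.map π) → ∀ c₀ : k M,
      s (ρ δ) = c₀ • (single (π (ρ δ)) 1 * e) →
      c δ • u δ = c₀ • (single (π (ρ δ)) 1 * Br (A.map π) e) := fun δ h1 h2 c₀ h3 => by
    obtain ⟨d, -, hd⟩ := hu.exists_smul hi h2 (γ := δ) fun _ _ => rfl
    obtain ⟨d', -, hd'⟩ := hu.exists_smul hi (inv_mem h2) (γ := δ⁻¹) fun _ _ => by rw [map_inv]; rfl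
    have h4 : ∀ x : (k M)[G], single (π (ρ δ))⁻¹ 1 * Br (A.map π) e * (single (π (ρ δ)) 1 * x) =
        Br (A.map π) e * x := fun x => by
      rw [← hu.comm (single_mem_sub (inv_mem h2) 1), mul_assoc, ← mul_assoc (single _ _),
        single_mul_single, inv_mul_cancel, mul_one, ← one_def, one_mul]
    have h5 : d' * d = 1 := smul_left_injective (k M) hi.e_ne (by
      simp only [one_smul]
      conv_rhs => rw [← hu.one, ← inv_mul_cancel δ, hu.mul, hd, hd', smul_mul_smul_comm, h4,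
        hu.idem])
    rw [hc δ (Equiv.ext fun q => Subtype.ext (show ρ δ * q * (ρ δ)⁻¹ = q by
      rw [← mem_centralizer_iff.1 h1 q q.2, mul_inv_cancel_right])) (d' * c₀)
      (by rw [hd', h3, smul_mul_smul_comm, h4, hr]), hd, smul_smul, mul_right_comm, h5, one_mul]
  obtain ⟨u', h1, h2⟩ := (hu.smul c).descend hρ fun δ hδ => by
    simpa [hδ, ← one_def] using key δ (hδ ▸ one_mem _) (by rw [hδ, map_one]; exact one_mem _) 1
      (by simp [hδ, hs.one, ← one_def])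
  refine ⟨u', h1, fun γ => ?_⟩
  obtain ⟨δ, rfl⟩ := hρ γ
  rw [h2]
  exact key δ

theorem dade {Γ : Type w} [Group Γ] [Finite Γ] (hM : IsPModular p M) {N : Subgroup G}
    (hN : ¬ p ∣ Nat.card N) {e : (k M)[G]} (he : IsBlk N e) {π : Γ →* G} {s : Γ → (k M)[G]}
    (hs : Ext N e π s) (A : Subgroup Γ) [A.Normal] (hA : IsPGroup p A)
    (hc : ∀ a ∈ A, ∀ b ∈ A, a * b = b * a) :
    ∃ u, Ext (Cz N (A.map π)) (Br (A.map π) e) π u ∧ ∀ γ ∈ centralizer (A : Set Γ),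
      π γ ∈ Cz N (A.map π) → ∀ c : k M, s γ = c • (single (π γ) 1 * e) →
        u γ = c • (single (π γ) 1 * Br (A.map π) e) := by
  have := Fact.mk hM.1
  have := BlockB.charP_k hM
  induction hn : Nat.card A using Nat.strong_induction_on generalizing A with
  | _ n ih =>
  by_cases h0 : A = ⊥
  · subst h0
    simp only [Subgroup.map_bot, Cz_bot, Br_bot]
    exact ⟨s, hs, fun _ _ _ _ h => h⟩
  let A₁ : Subgroup Γ :=
    { carrier := {x | ∃ a ∈ A, a ^ p = x}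
      one_mem' := ⟨1, one_mem _, one_pow _⟩
      mul_mem' := by
        rintro _ _ ⟨a, ha, rfl⟩ ⟨b, hb, rfl⟩
        exact ⟨a * b, mul_mem ha hb, Commute.mul_pow (hc a ha b hb) p⟩
      inv_mem' := by
        rintro _ ⟨a, ha, rfl⟩
        exact ⟨a⁻¹, inv_mem ha, inv_pow _ _⟩ }
  have h1 : A₁ ≤ A := by
    rintro _ ⟨a, ha, rfl⟩
    exact A.pow_mem ha p
  have : A₁.Normal := ⟨by
    rintro _ ⟨a, ha, rfl⟩ g
    exact ⟨_, ‹A.Normal›.conj_mem a ha g, conj_pow⟩⟩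
  have h2 : ¬ A ≤ A₁ := fun h => h0 (eq_bot_iff.2 fun a ha => by
    have h3 : ∀ m : ℕ, ∃ b ∈ A, b ^ p ^ m = a := fun m => by
      induction m with
      | zero => exact ⟨a, ha, by simp⟩
      | succ m ih =>
        obtain ⟨b, hb, rfl⟩ := ih
        obtain ⟨c, hc, rfl⟩ := h hb
        exact ⟨c, hc, by rw [← pow_mul, pow_succ']⟩
    obtain ⟨m, hm⟩ := IsPGroup.iff_card.1 hA
    obtain ⟨b, hb, rfl⟩ := h3 m
    exact congrArg Subtype.val (show (⟨b, hb⟩ : A) ^ p ^ m = 1 by rw [← hm, pow_card_eq_one']))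
  have h3 : A₁.map π ≤ A.map π := map_mono h1
  obtain ⟨u₁, hu₁, h4⟩ := ih _ (hn ▸ lt_of_le_of_ne (card_le_of_le h1) fun h =>
    h2 (eq_of_le_of_card_ge h1 h.ge).ge) A₁ (hA.to_le h1)
    (fun a ha b hb => hc a (h1 ha) b (h1 hb)) rfl
  obtain ⟨u, hu, h5⟩ := dade_step hM (fun h => hN (h.trans (card_dvd_of_le inf_le_right)))
    (he.isBlk_Br_of_coprime (regSupp hM) ((hA.to_le h1).map π)
      (by rintro _ ⟨a, -, rfl⟩; exact hs.norm a)
      (mem_fix.2 (by rintro _ ⟨a, -, rfl⟩; exact hs.cj_e a)) hN) hu₁ A hA hc fun a ha =>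
      le_centralizer_iff.1 inf_le_left ⟨_, ⟨a, ha, rfl⟩, rfl⟩
  rw [Cz_Cz, sup_eq_left.2 h3, Br_Br h3] at hu h5
  exact ⟨u, hu, fun γ h6 h7 c h8 =>
    h5 γ h6 h7 c (h4 γ (centralizer_anti h1 h6) (Cz_anti N h3 h7) c h8)⟩

/-- An extension of a factor gives an extension of the corresponding character. -/
theorem exists_char_of_ext {N : Type*} {Γ : Type w} [Group N] [Finite N] [Group Γ] [Finite Γ]
    (hM : IsPModular p M) (hN : ¬ p ∣ Nat.card N) (E : NormalEmb N Γ) {j : N →* G}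
    (hj : Function.Injective j) {π : Γ →* G} (hπ : ∀ n, π (E.ι n) = j n) {φ : IrrCharacter N}
    {u : Γ → (k M)[G]} (hu : Ext j.range (gmap j (eb M {φ})) π u)
    (h1 : ∀ n, u (E.ι n) = single (j n) 1 * gmap j (eb M {φ})) :
    ∃ ψ, IsIrrCharacter Γ ψ ∧ (∀ n, ψ (E.ι n) = (φ : N → ℂ) n) ∧ ∀ z ∈ center Γ, ∀ (c : ℂ) (a : ℕ),
      ¬ p ∣ a → z ^ a = 1 → c ^ a = 1 → u z = resC M c • gmap j (eb M {φ}) →
        ∀ x, ψ (z * x) = c * ψ x := by
  have := BlockB.charP_k hM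
  obtain ⟨Δ, _, _, E', ρ, η, lam, m, L, a, ha, hlam⟩ :=
    exists_lift hM.1 hN E φ.2 (invariant_of_cj hM hN E hj hπ hu.cj_e)
  obtain ⟨s, hs, h2, h3⟩ := exists_ext_of_char hM hN E' (Char.irr_isCharacter L.irr) L.ext
    (j := j) (π := π.comp ρ) fun n => by rw [MonoidHom.comp_apply, L.π_ι, hπ]
  have hb : IsBlk j.range (gmap j (eb M {φ})) := by
    rw [MonoidHom.range_eq_map]
    exact (isBlk_gmap hj).2 (isBlk_eb hM (isPBlock_singleton_of_not_dvd hM hN φ))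
  obtain ⟨i, hi⟩ := exists_pt hb fun h => hN (by
    rwa [CharP.cast_eq_zero_iff _ p, ← Nat.card_congr (MonoidHom.ofInjective hj).toEquiv] at h)
  obtain ⟨c, hc⟩ := (hu.comp ρ).exists_hom hs hi
  obtain ⟨ν, hν, b, hb, hν'⟩ := exists_lin_lift' hM c
  have hv : ∀ {z : ℂ} {a : ℕ}, ¬ p ∣ a → z ^ a = 1 → v M z ≤ 1 := fun ha hz =>
    (BlockB.v_eq_one_of_pow_eq_one (by rintro rfl; simp at ha) hz).le
  have hA : ∀ n, ν (E'.ι n) = 1 := fun n => Units.ext <| by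
    refine eq_of_resC_eq hM hb hb (hν' _) (one_pow _) ?_
    have h4 := hc (E'.ι n)
    rw [h2, L.π_ι, h1] at h4
    rw [hν, Units.val_one, BlockB.resC_one]
    refine smul_left_injective _ (fun h => hi.e_ne ?_) (h4.symm.trans (one_smul _ _).symm)
    rw [← hu.one, ← mul_inv_cancel (E.ι n), hu.mul, h1, h, zero_mul]
  have hB : ∀ z : ρ.ker, ν z = lam z := fun z => Units.ext <| by
    refine eq_of_resC_eq hM hb ha (hν' _) (hlam z) ?_
    have h4 := hc z
    rw [h3 z _ (hv ha (hlam z)) (L.scalar z), show ρ z = 1 from z.2, hu.one] at h4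
    rw [hν]
    exact smul_left_injective _ hi.e_ne h4.symm
  obtain ⟨ψ, h4, h5, h6⟩ := L.exists_ext_of_linear ν hA hB
  refine ⟨ψ, h4, h5, fun z hz d a' ha' hz' hd h7 => ?_⟩
  obtain ⟨ω, hω⟩ := Char.mem_charCenter.1 (Char.center_le_charCenter h4 hz)
  have h8 : (ω : ℂ) ^ a' = 1 := by
    have h9 : ∀ n : ℕ, ψ (z ^ n) = ω ^ n * ψ 1 := fun n => by
      induction n with
      | zero => simp
      | succ n ih => rw [pow_succ', hω, ih, pow_succ', mul_assoc]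
    have := h9 a'
    rw [hz'] at this
    exact (mul_eq_right₀ (Char.irr_one_ne_zero h4)).1 this.symm
  obtain ⟨y, rfl⟩ := L.surj z
  have h9 := h3 y (ν y * ω) (BlockB.v_mul_le_one (hv hb (hν' y)) (hv ha' h8)) fun x => by
    rw [h6, h6, map_mul, map_mul, hω]
    push_cast
    ring
  rw [hc, h7, smul_smul, BlockB.resC_mul (hv hb (hν' y)) (hv ha' h8), hν] at h9
  have h10 : c y ≠ 0 := fun h => by simpa [h] using map_mul c y y⁻¹
  rw [← eq_of_resC_eq hM ha' ha' h8 hd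
    (mul_left_cancel₀ h10 (smul_left_injective _ hi.e_ne h9.symm))]
  exact hω

end CF.DG
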