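import Cfsg.Agent.DG.Orb

/-!
# Extensions of a simple factor of a group algebra, points, and extension of scalars
-/

namespace CF.DG

open MonoidAlgebra Module CF.Block Subgroup

variable {k K G : Type*} [Field k] [Field K] [Group G]

theorem sub_induction [Finite G] {N : Subgroup G} {P : k[G] → Prop} (h0 : P 0)
    (h1 : ∀ a b, P a → P b → P (a + b)) (h2 : ∀ (c : k), ∀ n ∈ N, P (c • single n 1))
    {a : k[G]} (ha : a ∈ sub k N) : P a := by
  have := Fintype.ofFinite G
  rw [eq_sum_single a]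
  refine Finset.sum_induction _ P h1 h0 fun x _ => ?_
  by_cases hx : x ∈ N
  · simpa using h2 (a.coeff x) x hx
  · rwa [mem_sub.1 ha x hx, single_zero]

/-- `s` lifts the action of `Γ` on the factor `k N e` to units of this factor. -/
structure Ext {Γ : Type*} [Group Γ] (N : Subgroup G) (e : k[G]) (π : Γ →* G) (s : Γ → k[G]) :
    Prop where
  norm : ∀ γ, π γ ∈ normalizer (N : Set G)
  sub : ∀ γ, s γ ∈ sub k N
  mul : ∀ γ δ, s (γ * δ) = s γ * s δ
  one : s 1 = e
  conj : ∀ γ, ∀ a ∈ Block.sub k N, s γ * a = cj (π γ) a * s γ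

/-- `j` is a primitive idempotent of the simple algebra `k N e`. -/
structure Pt (N : Subgroup G) (e j : k[G]) : Prop where
  sub : j ∈ sub k N
  idem : j * j = j
  ne : j ≠ 0
  mul : e * j = j
  loc : ∀ a ∈ Block.sub k N, ∃ c : k, j * a * j = c • j
  gen : ∃ (n : ℕ) (α β : Fin n → k[G]), (∀ b, α b ∈ Block.sub k N) ∧ (∀ b, β b ∈ Block.sub k N) ∧
    ∑ b, α b * j * β b = e

namespace Ext
variable {Γ : Type*} [Group Γ] {N : Subgroup G} {e : k[G]} {π : Γ →* G} {s : Γ → k[G]}
  (h : Ext N e π s)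
include h

theorem e_sub : e ∈ Block.sub k N := h.one ▸ h.sub 1

theorem e_mul (γ : Γ) : e * s γ = s γ := by rw [← h.one, ← h.mul, one_mul]

theorem mul_e (γ : Γ) : s γ * e = s γ := by rw [← h.one, ← h.mul, mul_one]

theorem idem : e * e = e := by simpa [h.one] using h.e_mul 1

theorem comm {a : k[G]} (ha : a ∈ Block.sub k N) : e * a = a * e := by
  simpa [h.one] using h.conj 1 a ha

theorem cj_mem (γ : Γ) {a : k[G]} (ha : a ∈ Block.sub k N) : cj (π γ) a ∈ Block.sub k N := by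
  have := cj_mem_sub (π γ) ha
  rwa [cjs_eq_of_mem_normalizer (h.norm γ)] at this

theorem cj_mul_e (γ : Γ) {a : k[G]} (ha : a ∈ Block.sub k N) :
    cj (π γ) a * e = s γ * a * s γ⁻¹ := by
  rw [h.conj γ a ha, mul_assoc, ← h.mul, mul_inv_cancel, h.one]

theorem cj_e (γ : Γ) : cj (π γ) e = e := by
  have h1 : ∀ γ, cj (π γ) e * e = e := fun γ => by
    rw [h.cj_mul_e γ h.e_sub, h.mul_e, ← h.mul, mul_inv_cancel, h.one]
  have h2 := congrArg (cj (π γ)) (h1 γ⁻¹)
  rw [map_mul, map_inv, cj_cj_inv, h.comm (h.cj_mem γ h.e_sub), h1] at h2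
  exact h2.symm

theorem comp {Δ : Type*} [Group Δ] (f : Δ →* Γ) : Ext N e (π.comp f) fun δ => s (f δ) where
  norm δ := h.norm (f δ)
  sub δ := h.sub (f δ)
  mul γ δ := by rw [map_mul, h.mul]
  one := by rw [map_one, h.one]
  conj δ := h.conj (f δ)

end Ext

section BaseChange
variable [Algebra k K]

theorem xt_injective : Function.Injective (xt K : k[G] → K[G]) := fun a b h =>
  ga_ext fun g => (algebraMap k K).injective (by rw [← coeff_xt, h, coeff_xt])

theorem xt_smul (c : k) (a : k[G]) : xt K (c • a) = algebraMap k K c • xt K a :=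
  ga_ext fun g => by simp [Algebra.smul_def c]

theorem xt_mem_sub {N : Subgroup G} {a : k[G]} (ha : a ∈ sub k N) : xt K a ∈ sub K N :=
  mem_sub.2 fun x hx => by rw [coeff_xt, mem_sub.1 ha x hx, map_zero]

theorem xt_cj (g : G) (a : k[G]) : xt K (cj g a) = cj g (xt K a) := ga_ext fun x => by simp

theorem xt_trunc (S : Set G) (a : k[G]) : xt K (trunc S a) = trunc S (xt K a) := by
  classical
  refine ga_ext fun x => ?_
  rw [coeff_xt, coeff_trunc, coeff_trunc, coeff_xt]
  split_ifs <;> simp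

theorem xt_Br (Q : Subgroup G) (a : k[G]) : xt K (Br Q a) = Br Q (xt K a) := xt_trunc _ a

theorem xt_single_one (g : G) : xt K (single g (1 : k)) = single g 1 := by simp

variable [Finite G]

theorem Ext.xt {Γ : Type*} [Group Γ] {N : Subgroup G} {e : k[G]} {π : Γ →* G} {s : Γ → k[G]}
    (h : Ext N e π s) : Ext N (xt K e) π fun γ => xt K (s γ) where
  norm := h.norm
  sub γ := xt_mem_sub (h.sub γ)
  mul γ δ := by rw [h.mul, map_mul]
  one := by rw [h.one]
  conj γ a ha := by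
    refine sub_induction (P := fun a => DG.xt K (s γ) * a = cj (π γ) a * DG.xt K (s γ)) (by simp)
      (fun a b ha hb => by rw [mul_add, map_add, add_mul, ha, hb]) (fun c n hn => ?_) ha
    rw [mul_smul_comm, map_smul, smul_mul_assoc, ← xt_single_one (k := k), ← map_mul,
      h.conj γ _ (single_mem_sub hn 1), map_mul, xt_cj]

theorem Pt.xt {N : Subgroup G} {e j : k[G]} (h : Pt N e j) : Pt N (xt K e) (xt K j) where
  sub := xt_mem_sub h.sub
  idem := by rw [← map_mul, h.idem]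
  ne h0 := h.ne (xt_injective (K := K) (by rw [h0, map_zero]))
  mul := by rw [← map_mul, h.mul]
  loc a ha := by
    refine sub_induction (P := fun a => ∃ c : K, DG.xt K j * a * DG.xt K j = c • DG.xt K j)
      ⟨0, by simp⟩ ?_ (fun c n hn => ?_) ha
    · rintro a b ⟨c, hc⟩ ⟨d, hd⟩
      exact ⟨c + d, by rw [mul_add, add_mul, hc, hd, add_smul]⟩
    · obtain ⟨d, hd⟩ := h.loc _ (single_mem_sub hn 1)
      refine ⟨c * algebraMap k K d, ?_⟩
      rw [mul_smul_comm, smul_mul_assoc, ← xt_single_one (k := k), ← map_mul, ← map_mul, hd,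
        xt_smul, smul_smul]
  gen := by
    obtain ⟨n, α, β, h1, h2, h3⟩ := h.gen
    exact ⟨n, fun b => DG.xt K (α b), fun b => DG.xt K (β b), fun b => xt_mem_sub (h1 b),
      fun b => xt_mem_sub (h2 b), by simp [← h3]⟩

end BaseChange

/-- The corner `i k N j`. -/
def cor (N : Subgroup G) (i j : k[G]) : Submodule k k[G] where
  carrier := {v | v ∈ sub k N ∧ i * v = v ∧ v * j = v}
  zero_mem' := ⟨zero_mem _, mul_zero _, zero_mul _⟩
  add_mem' ha hb := ⟨add_mem ha.1 hb.1, by rw [mul_add, ha.2.1, hb.2.1],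
    by rw [add_mul, ha.2.2, hb.2.2]⟩
  smul_mem' c a ha := ⟨Subalgebra.smul_mem _ ha.1 c, by rw [mul_smul_comm, ha.2.1],
    by rw [smul_mul_assoc, ha.2.2]⟩

theorem mul_mem_cor {N : Subgroup G} {i j a b : k[G]} (ha : a ∈ sub k N) (hb : b ∈ sub k N)
    (h1 : i * a = a) (h2 : b * j = b) : a * b ∈ cor N i j :=
  ⟨mul_mem ha hb, by rw [← mul_assoc, h1], by rw [mul_assoc, h2]⟩

theorem mul_mem_cor_of_comm {N : Subgroup G} {i j a v : k[G]} (ha : a ∈ sub k N)
    (h : i * a = a * i) (hv : v ∈ cor N i j) : a * v ∈ cor N i j :=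
  ⟨mul_mem ha hv.1, by rw [← mul_assoc, h, mul_assoc, hv.2.1], by rw [mul_assoc, hv.2.2]⟩

/-- The data of the core step of Dade's theorem. -/
structure Dat (p : ℕ) {A : Type*} [CommGroup A] (N : Subgroup G) (a : A →* G) (s : A → k[G])
    (e j i' : k[G]) : Prop where
  ext : Ext N e a s
  pow : ∀ q, s (q ^ p) = e
  cen : ∀ q, a (q ^ p) ∈ centralizer (N : Set G)
  pt : Pt N e j
  pt' : Pt (centralizer (a.range : Set G) ⊓ N) (Br a.range e) i'

namespace Dat
variable {p : ℕ} {A : Type*} [CommGroup A] {N : Subgroup G} {a : A →* G} {s : A → k[G]}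
  {e j i' : k[G]} (h : Dat p N a s e j i')
include h

theorem xt [Finite G] [Algebra k K] :
    Dat p N a (fun q => xt K (s q)) (xt K e) (xt K j) (xt K i') where
  ext := h.ext.xt
  pow q := by rw [h.pow]
  cen := h.cen
  pt := h.pt.xt
  pt' := xt_Br (K := K) a.range e ▸ h.pt'.xt

omit h in
theorem cj_of_mem {c : k[G]} (hc : c ∈ sub k (centralizer (a.range : Set G) ⊓ N)) (q : A) :
    cj (a q) c = c :=
  mem_fix.1 (mem_fix_of_mem_sub_centralizer (sub_mono inf_le_left hc)) _ ⟨q, rfl⟩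

theorem s_comm {c : k[G]} (hc : c ∈ sub k (centralizer (a.range : Set G) ⊓ N)) (q : A) :
    s q * c = c * s q := by
  rw [h.ext.conj q c (sub_mono inf_le_right hc), cj_of_mem hc]

theorem i'_sub : i' ∈ sub k N := sub_mono inf_le_right h.pt'.sub

theorem i_sub : i' * e ∈ sub k N := mul_mem h.i'_sub h.ext.e_sub

theorem e_mul_i : e * (i' * e) = i' * e := by
  rw [← mul_assoc, h.ext.comm h.i'_sub, mul_assoc, h.ext.idem]

theorem i_mul_e : i' * e * e = i' * e := by rw [mul_assoc, h.ext.idem]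

theorem i'_mul_i : i' * (i' * e) = i' * e := by rw [← mul_assoc, h.pt'.idem]

theorem i_mul_i' : i' * e * i' = i' * e := by
  rw [mul_assoc, h.ext.comm h.i'_sub, h.i'_mul_i]

theorem i_idem : i' * e * (i' * e) = i' * e := by rw [mul_assoc, h.e_mul_i, h.i'_mul_i]

theorem cj_i (q : A) : cj (a q) (i' * e) = i' * e := by
  rw [map_mul, cj_of_mem h.pt'.sub, h.ext.cj_e]

theorem s_comm_i (q : A) : s q * (i' * e) = i' * e * s q := by
  rw [h.ext.conj q _ h.i_sub, h.cj_i]

theorem Br_i : Br a.range (i' * e) = i' := by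
  rw [← h.ext.comm h.i'_sub, Br_mul_right _ (sub_mono inf_le_left h.pt'.sub), h.pt'.mul]

theorem i_mem : i' * e ∈ cor N (i' * e) (i' * e) := ⟨h.i_sub, h.i_idem, h.i_idem⟩

theorem e_mul_of {v w : k[G]} (hv : v ∈ cor N (i' * e) w) : e * v = v := by
  rw [← hv.2.1, ← mul_assoc, h.e_mul_i]

theorem Br_eq {d : k[G]} (hd : d ∈ cor N (i' * e) (i' * e)) : ∃ c : k, Br a.range d = c • i' := by
  obtain ⟨c, hc⟩ := h.pt'.loc (Br a.range d) (mem_sub'.2 fun x hx =>
    ⟨mem_of_coeff_ne_zero (Br_mem_sub _ d) hx,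
      mem_of_coeff_ne_zero (Br_mem_sub_of_mem _ hd.1) hx⟩)
  have h1 : i' * d * i' = d := by
    rw [← hd.2.1, ← mul_assoc, h.i'_mul_i, hd.2.1, ← hd.2.2, mul_assoc, h.i_mul_i']
  have h2 := sub_mono inf_le_left h.pt'.sub
  exact ⟨c, by rw [← hc, ← Br_mul_left h2, ← Br_mul_right _ h2, h1]⟩

/-- The unipotent units attached to the elements of `A`. -/
noncomputable def sg : A →* k[G] where
  toFun q := s q + (1 - e)
  map_one' := by rw [h.ext.one, add_sub_cancel]
  map_mul' q r := by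
    rw [h.ext.mul, add_mul, mul_add, mul_add, mul_sub, sub_mul, sub_mul, mul_sub, mul_sub,
      h.ext.mul_e, h.ext.e_mul, h.ext.idem]
    simp

theorem sg_apply (q : A) : h.sg q = s q + (1 - e) := rfl

theorem sg_sub (q : A) : h.sg q ∈ sub k N :=
  add_mem (h.ext.sub q) (sub_mem (one_mem _) h.ext.e_sub)

theorem sg_pow (q : A) : h.sg (q ^ p) = 1 := by rw [sg_apply, h.pow, add_sub_cancel]

theorem sg_comm {c : k[G]} (hc : c ∈ sub k N) (h1 : ∀ q, s q * c = c * s q) (q : A) :
    h.sg q * c = c * h.sg q := by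
  rw [sg_apply, add_mul, mul_add, sub_mul, mul_sub, h1, h.ext.comm hc, one_mul, mul_one]

theorem sg_comm_i (q : A) : h.sg q * (i' * e) = i' * e * h.sg q := h.sg_comm h.i_sub h.s_comm_i q

theorem sg_conj (q : A) {d : k[G]} (hd : d ∈ sub k N) (he : e * d = d) :
    h.sg q * d * h.sg q⁻¹ = cj (a q) d := by
  have h1 : d * e = d := by rw [← h.ext.comm hd, he]
  have h2 : h.sg q * d = s q * d := by rw [sg_apply, add_mul, sub_mul, he, one_mul, sub_self, add_zero]
  rw [h2, sg_apply, mul_add, ← h.ext.cj_mul_e q hd, mul_assoc, mul_sub, h1, mul_one, sub_self,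
    mul_zero, add_zero, ← h.ext.cj_e q, ← map_mul, h1]

end Dat

end CF.DG
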