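import Mathlib.LinearAlgebra.FiniteDimensional.Lemmas
import Mathlib.LinearAlgebra.Dual.Lemmas
import Mathlib.RingTheory.Nilpotent.Basic
import Mathlib.Algebra.CharP.Defs

/-!
# Linear algebra of nilpotent operators
-/

namespace CF.DG

open Module LinearMap

variable {K V : Type*} [Field K] [AddCommGroup V] [Module K V]

theorem pow_mem {x : End K V} {U : Submodule K V} (h : ∀ v ∈ U, x v ∈ U) (n : ℕ) :
    ∀ v ∈ U, (x ^ n) v ∈ U := fun v hv => End.pow_apply_mem_of_forall_mem n h v hv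

theorem map_pow_anti {x : End K V} {U : Submodule K V} (h : ∀ v ∈ U, x v ∈ U) {a b : ℕ}
    (hab : a ≤ b) : U.map (x ^ b) ≤ U.map (x ^ a) := by
  obtain ⟨d, rfl⟩ := Nat.exists_eq_add_of_le hab
  rintro _ ⟨v, hv, rfl⟩
  exact ⟨_, pow_mem h d v hv, by rw [pow_add]; rfl⟩

theorem mem_map_pow_of_comm {x y : End K V} {U : Submodule K V} (h : ∀ v ∈ U, y v ∈ U)
    (hc : Commute y x) (r : ℕ) : ∀ v ∈ U.map (x ^ r), y v ∈ U.map (x ^ r) := by
  rintro _ ⟨v, hv, rfl⟩
  exact ⟨_, h v hv, by rw [← End.mul_apply, ← (hc.pow_right r).eq, End.mul_apply]⟩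

/-- If the centralizer of `x` acts on `ker x / x ^ r M` by scalars modulo nilpotents, then this
space has dimension at most one. -/
theorem exists_sub_smul_mem {x : End K V} {M : Submodule K V} (hx : ∀ v ∈ M, x v ∈ M) {r : ℕ}
    (H : ∀ n, ∀ m ∈ M, (x ^ (n + 1)) m = 0 → ∀ φ : V →ₗ[K] K,
      (∀ v ∈ M, φ ((x ^ (n + 1)) v) = 0) → ∃ (c : K) (ν : End K V), Commute ν x ∧
        (∀ v ∈ M, ν v ∈ M) ∧ IsNilpotent ν ∧
        ∀ v ∈ M, x v = 0 → φ v • (x ^ n) m - c • v - ν v ∈ M.map (x ^ r))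
    {t : V} (ht : t ∈ M) (hxt : x t = 0) (htr : t ∉ M.map (x ^ r)) {v : V} (hv : v ∈ M)
    (hxv : x v = 0) : ∃ c : K, v - c • t ∈ M.map (x ^ r) := by
  classical
  set W := M.map (x ^ r)
  have hex : ∃ j, t ∉ M.map (x ^ j) := ⟨r, htr⟩
  obtain ⟨n, hn⟩ := Nat.exists_eq_succ_of_ne_zero (n := Nat.find hex) fun h3 => by
    have := Nat.find_spec hex
    rw [h3] at this
    exact this ⟨t, ht, rfl⟩
  have h1 : t ∉ M.map (x ^ (n + 1)) := by have := Nat.find_spec hex; rwa [hn] at this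
  obtain ⟨m, hm, rfl⟩ : t ∈ M.map (x ^ n) := not_not.1 (Nat.find_min hex (by omega))
  obtain ⟨φ₀, hφ₀, hφ₁⟩ := Submodule.exists_le_ker_of_notMem h1
  let φ := (φ₀ ((x ^ n) m))⁻¹ • φ₀
  have hφt : φ ((x ^ n) m) = 1 := inv_mul_cancel₀ hφ₀
  obtain ⟨c, ν, hc, hν, ⟨a, ha⟩, h2⟩ := H n m hm (by rw [pow_succ', End.mul_apply, hxt]) φ
    fun w hw => by simp [φ, mem_ker.1 (hφ₁ ⟨w, hw, rfl⟩)]
  set t := (x ^ n) m
  have hνW := mem_map_pow_of_comm hν hc r
  have h3 : ν t - (1 - c) • t ∈ W := by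
    have := W.neg_mem (h2 t ht hxt)
    rw [hφt] at this
    convert this using 1
    rw [sub_smul]; abel
  have h4 : ∀ i, (ν ^ i) t - (1 - c) ^ i • t ∈ W := fun i => by
    induction i with
    | zero => simp
    | succ i ih =>
      convert W.add_mem (hνW _ ih) (W.smul_mem ((1 - c) ^ i) h3) using 1
      rw [map_sub, map_smul, smul_sub, smul_smul, pow_succ', End.mul_apply, pow_succ]
      abel
  have h5 : c = 1 := by
    by_contra h6
    have := h4 a
    rw [ha, zero_apply, zero_sub, neg_mem_iff] at this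
    exact htr ((W.smul_mem_iff (pow_ne_zero a (sub_ne_zero.2 (Ne.symm h6)))).1 this)
  subst h5
  have hk : ∀ i, x ((ν ^ i) v) = 0 := fun i => by
    rw [← End.mul_apply, ← (hc.pow_left i).eq, End.mul_apply, hxv, map_zero]
  have h6 : ∀ i, (ν ^ i) v - (-1 : K) ^ i • v ∈ W ⊔ K ∙ t := fun i => by
    induction i with
    | zero => simp
    | succ i ih =>
      have h7 := h2 _ (pow_mem hν i v hv) (hk i)
      convert Submodule.sub_mem _ (Submodule.add_mem_sup (W.neg_mem h7) (Submodule.smul_mem _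
        (φ ((ν ^ i) v)) (Submodule.mem_span_singleton_self t))) ih using 1
      rw [pow_succ', End.mul_apply, pow_succ, mul_neg_one, neg_smul, one_smul]
      abel
  have h7 := h6 a
  rw [ha, zero_apply, zero_sub, neg_mem_iff,
    Submodule.smul_mem_iff _ (pow_ne_zero a (neg_ne_zero.2 one_ne_zero))] at h7
  obtain ⟨w, hw, z, hz, rfl⟩ := Submodule.mem_sup.1 h7
  obtain ⟨c, rfl⟩ := Submodule.mem_span_singleton.1 hz
  exact ⟨c, by simpa using hw⟩

theorem finrank_map_add [FiniteDimensional K V] (x : End K V) (W : Submodule K V) :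
    finrank K (W.map x) + finrank K (W ⊓ ker x : Submodule K V) = finrank K W := by
  rw [← finrank_range_add_finrank_ker (x.domRestrict W), range_domRestrict, ker_domRestrict,
    ← Submodule.finrank_map_subtype_eq W, Submodule.map_comap_subtype]

theorem dvd_finrank [FiniteDimensional K V] {x : End K V} {U : Submodule K V}
    (hx : ∀ v ∈ U, x v ∈ U) {r : ℕ} (h0 : ∀ v ∈ U, (x ^ (r + 1)) v = 0)
    (h : ∀ v ∈ U, x v = 0 → v ∈ U.map (x ^ r)) : r + 1 ∣ finrank K U := by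
  have h1 : ∀ a ≤ r + 1, finrank K U =
      finrank K (U.map (x ^ a)) + a * finrank K (U ⊓ ker x : Submodule K V) := fun a ha => by
    induction a with
    | zero => rw [pow_zero, End.one_eq_id, Submodule.map_id, zero_mul, add_zero]
    | succ a ih =>
      have h2 : U.map (x ^ a) ⊓ ker x = U ⊓ ker x := le_antisymm
        (inf_le_inf_right _ (by rintro _ ⟨v, hv, rfl⟩; exact pow_mem hx a v hv))
        fun v hv => ⟨map_pow_anti hx (by omega) (h v hv.1 hv.2), hv.2⟩
      rw [ih (by omega), ← finrank_map_add x (U.map (x ^ a)), h2, ← Submodule.map_comp,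
        ← End.mul_eq_comp, ← pow_succ']
      ring
  have h2 : U.map (x ^ (r + 1)) = ⊥ := by
    rw [eq_bot_iff]; rintro _ ⟨v, hv, rfl⟩; exact h0 v hv
  rw [h1 _ le_rfl, h2, finrank_bot, zero_add]
  exact dvd_mul_right _ _

/-- A derivation-like operator forces freeness over `K[z] / z ^ p`. -/
theorem mem_map_pow_of_deriv {z δ u u' : End K V} {U : Submodule K V} (hz : ∀ v ∈ U, z v ∈ U)
    (hδ : ∀ v ∈ U, δ v ∈ U) (hu' : ∀ v ∈ U, u' v ∈ U) (h1 : ∀ v ∈ U, δ (z v) = z (δ v) + u v)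
    (h2 : Commute u z) (h3 : Commute u' z) (h4 : u' * u = 1) {r : ℕ}
    (hr : ∀ m, 0 < m → m ≤ r → (m : K) ≠ 0) {d : V} (hd : d ∈ U) (hzd : z d = 0) :
    d ∈ U.map (z ^ r) := by
  have h5 : ∀ m, ∀ v ∈ U, δ ((z ^ (m + 1)) v) =
      (z ^ (m + 1)) (δ v) + ((m + 1 : ℕ) : K) • u ((z ^ m) v) := fun m v hv => by
    induction m with
    | zero => simpa using h1 v hv
    | succ m ih =>
      rw [pow_succ' z (m + 1), End.mul_apply, h1 _ (pow_mem hz _ v hv), ih, map_add, map_smul,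
        End.mul_apply, ← End.mul_apply z u, ← h2.eq, End.mul_apply u, ← End.mul_apply z (z ^ m),
        ← pow_succ', Nat.cast_succ (m + 1), add_smul, one_smul, add_assoc]
  induction r with
  | zero => exact ⟨d, hd, rfl⟩
  | succ r ih =>
    obtain ⟨w, hw, rfl⟩ := ih fun m h6 h7 => hr m h6 (by omega)
    have h6 := h5 r w hw
    rw [pow_succ', End.mul_apply, hzd, map_zero, ← pow_succ'] at h6
    have h7 := congrArg u' h6
    rw [map_zero, map_add, map_smul, ← End.mul_apply u' u, h4, End.one_apply,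
      ← End.mul_apply u', (h3.pow_right _).eq, End.mul_apply] at h7
    refine ⟨-((r + 1 : ℕ) : K)⁻¹ • u' (δ w), U.smul_mem _ (hu' _ (hδ _ hw)), ?_⟩
    rw [map_smul, eq_neg_of_add_eq_zero_left h7.symm, smul_neg, neg_smul, neg_neg, smul_smul,
      inv_mul_cancel₀ (hr _ (by omega) le_rfl), one_smul]

end CF.DG
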