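import Cfsg.Agent.Char.Triple
import Cfsg.Agent.BlockB.Rank
import Cfsg.Agent.BlockB.Third

/-!
# Perfect isometries with positive signs: induction and Gallagher parametrisations
-/

namespace CF.DG

open Cfsg Subgroup CF.Clifford CF.Char Function
open CF.BlockB (v nrm eSet ev Cen)
open scoped ComplexConjugate

variable {p : ℕ} {M : Ideal AlgInt} {G H : Type*} [Group G] [Group H]

/-- Perfectness in terms of the valuation. -/
def Perf (p : ℕ) (M : Ideal AlgInt) (μ : G → H → ℂ) : Prop :=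
  ∀ x y, v M (μ x y) ≤ v M (Nat.card (Cen x)) ∧ v M (μ x y) ≤ v M (Nat.card (Cen y)) ∧
    ((p ∣ orderOf x ↔ p ∣ orderOf y) ∨ μ x y = 0)

/-- There is a perfect isometry with positive signs. -/
def PI (p : ℕ) (M : Ideal AlgInt) (B : Set (IrrCharacter G)) (c : Set (IrrCharacter H)) : Prop :=
  ∃ (n : ℕ) (f : Fin n → IrrCharacter G) (g : Fin n → IrrCharacter H), Injective f ∧
    Set.range f = B ∧ Injective g ∧ Set.range g = c ∧
    Perf p M fun x y => ∑ i, (f i : G → ℂ) x * (g i : H → ℂ) y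

variable {B : Set (IrrCharacter G)} {c : Set (IrrCharacter H)}

theorem PI.of_fintype {ι : Type*} [Fintype ι] {f : ι → IrrCharacter G} {g : ι → IrrCharacter H}
    (h1 : Injective f) (h2 : Set.range f = B) (h3 : Injective g) (h4 : Set.range g = c)
    (h : Perf p M fun x y => ∑ i, (f i : G → ℂ) x * (g i : H → ℂ) y) : PI p M B c := by
  let e := (Fintype.equivFin ι).symm
  refine ⟨_, f ∘ e, g ∘ e, h1.comp e.injective, by rw [e.surjective.range_comp, h2],
    h3.comp e.injective, by rw [e.surjective.range_comp, h4], ?_⟩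
  convert h using 3 with x y
  exact e.sum_comp fun i => (f i : G → ℂ) x * (g i : H → ℂ) y

theorem PI.symm (h : PI p M B c) : PI p M c B := by
  obtain ⟨n, f, g, h1, h2, h3, h4, h⟩ := h
  refine ⟨n, g, f, h3, h4, h1, h2, fun y x => ?_⟩
  simp only [mul_comm ((g _ : H → ℂ) y)]
  exact ⟨(h x y).2.1, (h x y).1, (h x y).2.2.imp_left Iff.symm⟩

theorem Perf.ind [Fintype G] {T : Subgroup G} {μ : T → H → ℂ} (h : Perf p M μ)
    (hc : ∀ y, IsClassFunction T (μ · y)) : Perf p M fun x y => indFun T (μ · y) x := by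
  classical
  refine fun x y => ⟨?_, ?_, ?_⟩
  · have h1 := BlockB.ev_indFun T (μ · y) (BlockB.classSum_mem_Z x)
    rw [BlockB.ev_classSum (fun g k => classFun_conj (indFun_isClassFunction T _) g k),
      BlockB.eq_sum_classSum (BlockB.trunc_mem_Z T (BlockB.classSum_mem_Z x)), map_sum] at h1
    have h2 : v M (((Cen x).index : ℂ) * indFun T (μ · y) x) ≤ v M (T.index * Nat.card T) := by
      rw [h1, map_mul, map_mul]
      refine mul_le_mul_right (Valuation.map_sum_le _ fun K _ => ?_) _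
      rw [map_smul, BlockB.ev_classSum (fun g k => classFun_conj (hc y) g k), smul_eq_mul, map_mul,
        map_mul, ← (Cen K.out).index_mul_card, Nat.cast_mul, map_mul]
      refine mul_le_of_le_one_of_le ?_ (mul_le_mul_right (h _ y).1 _)
      exact (BlockB.v_coeff_le_nrm _ _).trans
        ((BlockB.nrm_trunc_le _ _).trans (BlockB.nrm_classSum_le x))
    rw [← Nat.cast_mul, T.index_mul_card, ← (Cen x).index_mul_card, Nat.cast_mul, map_mul,
      map_mul] at h2
    exact le_of_mul_le_mul_left h2 (BlockB.v_pos (Nat.cast_ne_zero.2 index_ne_zero_of_finite))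
  · simp only
    rw [indFun_eq_sum_quotient T (hc y)]
    refine Valuation.map_sum_le _ fun q _ => ?_
    rw [extendByZero_apply]
    split_ifs
    · exact (h _ y).2.1
    · simp
  · refine or_iff_not_imp_left.2 fun h1 => indFun_eq_zero T fun g hg => ?_
    refine (h _ y).2.2.resolve_left ?_
    rwa [← Subgroup.orderOf_coe, show orderOf (g * x * g⁻¹) = orderOf x from
      (MulAut.conj g).orderOf_eq x]

theorem PI.ind [Fintype G] {T : Subgroup G} {B' : Set (IrrCharacter T)} (h : PI p M B' c)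
    (h1 : ∀ χ ∈ B, ∃ ψ ∈ B', (χ : G → ℂ) = indFun T (ψ : T → ℂ))
    (h2 : ∀ ψ ∈ B', ∃ χ ∈ B, (χ : G → ℂ) = indFun T (ψ : T → ℂ))
    (h3 : ∀ ψ ∈ B', ∀ ψ' ∈ B', indFun T (ψ : T → ℂ) = indFun T (ψ' : T → ℂ) → ψ = ψ') :
    PI p M B c := by
  obtain ⟨n, f, g, hf, rfl, hg, rfl, h⟩ := h
  choose f' h4 h5 using fun i => h2 (f i) ⟨i, rfl⟩
  refine ⟨n, f', g, fun i j hij => hf (h3 _ ⟨i, rfl⟩ _ ⟨j, rfl⟩ (by rw [← h5, ← h5, hij])),
    Set.Subset.antisymm (Set.range_subset_iff.2 h4) fun χ hχ => ?_, hg, rfl, ?_⟩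
  · obtain ⟨_, ⟨i, rfl⟩, h6⟩ := h1 χ hχ
    exact ⟨i, Subtype.ext ((h5 i).trans h6.symm)⟩
  · have h6 : ∀ y, (fun x => ∑ i, (f i : T → ℂ) x * (g i : H → ℂ) y) =
        ∑ i, (g i : H → ℂ) y • (f i : T → ℂ) := fun y => funext fun x => by simp [mul_comm]
    convert h.ind fun y => by
      rw [h6]
      exact classFun_sum _ fun i _ => classFun_smul _ (irr_isClassFunction (f i).2) using 3 with x y
    simp [h6, indFun_sum, indFun_smul, h5, mul_comm]

theorem rank_eq_sum [Fintype G] [Fintype H] (hM : IsPModular p M) (hB : nrm M (eSet B) ≤ 1)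
    {ι : Type*} [Fintype ι] {f : ι → IrrCharacter G} {g : ι → IrrCharacter H} (h1 : Injective f)
    (h2 : Set.range f = B) (h3 : Injective g) {μ : G → H → ℂ}
    (hμ : ∀ x y, μ x y = ∑ i, (f i : G → ℂ) x * (g i : H → ℂ) y) :
    (Nat.card G * Nat.card H * blockRank p B : ℂ) =
      ∑ x, ∑ y, if p ∣ orderOf x then 0 else μ x y * conj (μ x y) := by
  classical
  have h4 : ∀ x, ∑ y, μ x y * conj (μ x y) =
      Nat.card H * ∑ i, (f i : G → ℂ) x * conj ((f i : G → ℂ) x) := fun x => by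
    have h5 : μ x = ∑ i, (f i : G → ℂ) x • (g i : H → ℂ) := funext fun y => by simp [hμ]
    rw [← card_mul_inner, h5, inner_sum_left]
    simp [inner_sum_right, Char.inner_smul_left, Char.inner_smul_right, inner_irr', h3.eq_iff,
      mul_comm]
  rw [BlockB.blockRank_eq_sum hM hB, ← Finset.sum_nbij f (s := Finset.univ)
    (f := fun i => classInner (pRegularPart p (f i : G → ℂ)) (f i)) (by simp [← h2]) h1.injOn
    (fun χ hχ => by simpa [← h2] using hχ) fun _ _ => rfl, mul_comm (Nat.card G : ℂ), mul_assoc,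
    Finset.mul_sum]
  simp only [card_mul_inner, Finset.sum_ite_irrel, h4, Finset.sum_const_zero]
  rw [Finset.sum_comm, Finset.mul_sum]
  refine Finset.sum_congr rfl fun x _ => ?_
  by_cases hx : p ∣ orderOf x <;> simp [pRegularPart, IsPRegular, hx]

theorem PI.result [Finite G] [Finite H] (h : PI p M B c) (hM : IsPModular p M) (hB : IsPBlock M B)
    (hc : IsPBlock M c) : Nat.card c = Nat.card B ∧ blockRank p c = blockRank p B ∧
      ∃ I ε, IsPerfectIsometry p M c B I ε := by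
  classical
  have := Fintype.ofFinite G
  have := Fintype.ofFinite H
  obtain ⟨n, f, g, hf, h1, hg, h2, h⟩ := h
  refine ⟨by rw [← h1, ← h2, Nat.card_range_of_injective hf, Nat.card_range_of_injective hg], ?_,
    extend g f fun _ => oneIrr G, fun _ => 1, ?_, fun _ _ => .inl rfl, fun x y => ?_⟩
  · have h3 := rank_eq_sum hM (BlockB.nrm_eSet_le_one hM hB) hf h1 hg fun _ _ => rfl
    have h4 := rank_eq_sum hM (BlockB.nrm_eSet_le_one hM hc) hg h2 hf
      (μ := fun y x => ∑ i, (f i : G → ℂ) x * (g i : H → ℂ) y) fun _ _ => by simp [mul_comm]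
    rw [Finset.sum_comm, mul_comm (Nat.card H : ℂ), Finset.sum_congr rfl fun x _ =>
      Finset.sum_congr rfl fun y _ => ?_, ← h3] at h4
    · exact_mod_cast mul_left_cancel₀ (mul_ne_zero card_ne_zero_complex card_ne_zero_complex) h4
    · rcases (h x y).2.2 with h5 | h5
      · simp only [h5]
      · simp only [h5, zero_mul, ite_self]
  · subst h1 h2
    refine ⟨?_, ?_, ?_⟩
    · rintro _ ⟨i, rfl⟩
      exact ⟨i, (hg.extend_apply _ _ i).symm⟩
    · rintro _ ⟨i, rfl⟩ _ ⟨j, rfl⟩ h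
      rw [hg.extend_apply, hg.extend_apply] at h
      rw [hf h]
    · rintro _ ⟨i, rfl⟩
      exact ⟨_, ⟨i, rfl⟩, hg.extend_apply _ _ i⟩
  · have h5 : signedBijectionKernel c (extend g f fun _ => oneIrr G) (fun _ => 1) x y =
        ∑ i, (f i : G → ℂ) x * (g i : H → ℂ) y := by
      rw [signedBijectionKernel, ← h2, finsum_mem_range hg, finsum_eq_sum_of_fintype]
      simp [hg.extend_apply]
    have h6 : ∀ m : ℕ, m ≠ 0 → v M (∑ i, (f i : G → ℂ) x * (g i : H → ℂ) y) ≤ v M m →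
        MemLocalRing M ((∑ i, (f i : G → ℂ) x * (g i : H → ℂ) y) / m) := fun m hm h7 => by
      refine BlockB.memLocalRing_of_v_le_one hM ((IsIntegral.sum _ fun i _ =>
        (gen_isIntegral (gen_of_irr (f i).2) x).mul
          (gen_isIntegral (gen_of_irr (g i).2) y)).isAlgebraic.mul (isAlgebraic_natCast m).inv) ?_
      rw [map_div₀]
      exact div_le_one_of_le₀ h7 zero_le
    rw [h5]
    exact ⟨h6 _ Nat.card_pos.ne' (h x y).1, h6 _ Nat.card_pos.ne' (h x y).2.1,
      (h x y).2.2.imp_left not_congr⟩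

section Side
variable {N Δ T Q Z : Type*} [Group N] [Group Δ] [Group T] [Group Q] [Group Z]

theorem eq_one_of_pow (hp : p.Prime) {g : G} {n : ℕ} (h1 : g ^ p ^ n = 1)
    (h2 : ¬ p ∣ orderOf g) : g = 1 := by
  obtain ⟨m, -, hm⟩ := (Nat.dvd_prime_pow hp).1 (orderOf_dvd_of_pow_eq_one h1)
  rcases m with _ | m
  · simpa using hm
  · exact absurd (hm ▸ dvd_pow_self p m.succ_ne_zero) h2

theorem dvd_orderOf_map_iff (hp : p.Prime) {a : Δ →* T} (h : ∀ z ∈ a.ker, ¬ p ∣ orderOf z)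
    (x : Δ) : p ∣ orderOf (a x) ↔ p ∣ orderOf x := by
  refine ⟨fun h1 => h1.trans (orderOf_map_dvd a x), fun h1 => ?_⟩
  have h2 : orderOf x ∣ orderOf (a x) * orderOf (x ^ orderOf (a x)) :=
    orderOf_dvd_of_pow_eq_one (by rw [pow_mul, pow_orderOf_eq_one])
  exact (hp.dvd_mul.1 (h1.trans h2)).resolve_right
    (h _ (by rw [MonoidHom.mem_ker, map_pow, pow_orderOf_eq_one]))

theorem comm_of_pow (hp : p.Prime) {a : Δ →* T} (hc : a.ker ≤ center Δ)
    (h1 : ∀ z ∈ a.ker, ¬ p ∣ orderOf z) {s x : Δ} {n : ℕ} (h4 : s ^ p ^ n = 1)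
    (h : a s * a x = a x * a s) : s * x = x * s := by
  have h5 : s * x * s⁻¹ * x⁻¹ ∈ a.ker := by
    rw [MonoidHom.mem_ker, map_mul, map_mul, map_mul, h]
    simp
  set z := s * x * s⁻¹ * x⁻¹ with hz
  have h6 : ∀ m : ℕ, s ^ m * x = z ^ m * x * s ^ m := fun m => by
    induction m with
    | zero => simp
    | succ m ih =>
      rw [pow_succ', mul_assoc, ih, ← mul_assoc, ← mul_assoc,
        mem_center_iff.1 (pow_mem (hc h5) m), pow_succ z]
      simp [hz, mul_assoc]
  have h7 := h6 (p ^ n)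
  rw [h4, one_mul, mul_one, right_eq_mul] at h7
  simpa [eq_one_of_pow hp h7 (h1 z h5)] using h6 1

theorem v_card_Cen_le [Finite Δ] [Finite Q] (hM : IsPModular p M) {a : Δ →* T}
    (ha : Surjective a) {b : Δ →* Q} (hc : a.ker ≤ center Δ) (h1 : ∀ z ∈ a.ker, ¬ p ∣ orderOf z)
    (h2 : ∀ z ∈ b.ker, ¬ p ∣ orderOf z) (x : Δ) :
    v M (Nat.card (Cen (b x))) ≤ v M (Nat.card (Cen (a x))) := by
  have := Fact.mk hM.1
  have := Finite.of_surjective a ha
  let D := (Cen (a x)).comap a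
  obtain ⟨S⟩ : Nonempty (Sylow p D) := inferInstance
  have h3 : ∀ s : D, s ∈ (S : Subgroup D) → (s : Δ) * x = x * s := fun s hs => by
    obtain ⟨n, hn⟩ := S.isPGroup' ⟨s, hs⟩
    exact comm_of_pow hM.1 hc h1 (congrArg (fun t : S => ((t : D) : Δ)) hn)
      (mem_centralizer_singleton_iff.1 s.2)
  let f : S →* Cen (b x) := (b.comp (D.subtype.comp (S : Subgroup D).subtype)).codRestrict _
    fun s => mem_centralizer_singleton_iff.2 
      ((map_mul b _ _).symm.trans ((congrArg b (h3 s s.2)).trans (map_mul b _ _)))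
  have hf : Injective f := (injective_iff_map_eq_one f).2 fun s hs => by
    obtain ⟨n, hn⟩ := S.isPGroup' s
    exact Subtype.ext (Subtype.ext (eq_one_of_pow hM.1
      (congrArg (fun t : S => ((t : D) : Δ)) hn) (h2 _ (congrArg Subtype.val hs))))
  have h4 := card_dvd_of_injective f hf
  have h5 : Nat.card (Cen (a x)) ∣ Nat.card D :=
    map_comap_eq_self_of_surjective ha (Cen (a x)) ▸ card_map_dvd D a
  rw [S.card_eq_multiplicity, ← BlockB.v_natCast_le_pow_iff hM,
    ← BlockB.v_natCast hM Nat.card_pos.ne'] at h4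
  obtain ⟨r, hr⟩ := h5
  refine h4.trans ?_
  rw [hr, Nat.cast_mul, map_mul]
  exact mul_le_of_le_one_right' (BlockB.v_natCast_le_one M r)

theorem sum_ov [Finite Q] [Fintype Z] (ζ : Z →* Q) (hζ : ∀ z, ζ z ∈ center Q) (lam : Z →* ℂˣ)
    [Fintype {β : IrrCharacter Q // Ov ζ (fun z => (lam⁻¹ z : ℂ)) β}] (u w : Q)
    [DecidablePred (IsConj w)] :
    Nat.card Z * ∑ β : {β : IrrCharacter Q // Ov ζ (fun z => (lam⁻¹ z : ℂ)) β},
      (β.1 : Q → ℂ) u * (β.1 : Q → ℂ) w =
      ∑ z, lam z * if IsConj w (ζ z * u)⁻¹ then (Nat.card (Cen w) : ℂ) else 0 := by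
  classical
  have h1 : ∀ z, (if IsConj w (ζ z * u)⁻¹ then (Nat.card (Cen w) : ℂ) else 0) =
      ∑ β : IrrCharacter Q, (β : Q → ℂ) (ζ z * u) * (β : Q → ℂ) w := fun z => by
    have := sum_irr_mul_conj w (ζ z * u)⁻¹
    simp only [char_inv (irr_isCharacter (Subtype.prop _)), Complex.conj_conj, mul_comm _
      ((_ : IrrCharacter Q).1 (ζ z * u))] at this
    rw [this]
    congr
  simp only [h1, Finset.mul_sum]
  rw [Finset.sum_comm, ← Finset.sum_subtype (Finset.univ.filter fun β : IrrCharacter Q =>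
    Ov ζ (fun z => (lam⁻¹ z : ℂ)) β) (by simp)
    fun β : IrrCharacter Q => Nat.card Z * ((β : Q → ℂ) u * (β : Q → ℂ) w), Finset.sum_filter]
  refine Finset.sum_congr rfl fun β _ => ?_
  split_ifs with h
  · simp only [scalar_of_inner ζ hζ β.2 (ov_iff.1 h)]
    simp [← mul_assoc]
  · rw [Ov, not_not, finsum_eq_sum_of_fintype] at h
    simp only [char_mul_of_mem_charCenter (irr_one_ne_zero β.2)
      (center_le_charCenter β.2 (hζ _))]
    calc _ = (∑ z, (β : Q → ℂ) (ζ z) * conj (lam⁻¹ z : ℂ)) *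
          ((β : Q → ℂ) u * (β : Q → ℂ) w / (β : Q → ℂ) 1) := by rw [h, zero_mul]
      _ = _ := by
        rw [Finset.sum_mul]
        refine Finset.sum_congr rfl fun z _ => ?_
        rw [linear_conj]
        simp only [MonoidHom.inv_apply, Units.val_inv_eq_inv_val, inv_inv]
        ring

/-- The characters of `T` over `θ` are parametrised by characters of `Q`. -/
structure Side (p : ℕ) (F : NormalEmb N Δ) (a : Δ →* T) (b : Δ →* Q) (i : Z →* Δ) (θ : N → ℂ)
    (η : Δ → ℂ) (lam : Z →* ℂˣ) : Prop where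
  ha : Surjective a
  hb : Surjective b
  kb : b.ker = F.ι.range
  ka : a.ker = i.range
  hc : ∀ z, i z ∈ center Δ
  irr : IsIrrCharacter N θ
  char : IsCharacter Δ η
  ext : ∀ n, η (F.ι n) = θ n
  sc : ∀ z, η (i z) = lam z * η 1
  hN : ¬ p ∣ Nat.card N
  hZ : ¬ p ∣ Nat.card Z

namespace Side
variable {F : NormalEmb N Δ} {a : Δ →* T} {b : Δ →* Q} {i : Z →* Δ} {θ : N → ℂ} {η : Δ → ℂ}
  {lam : Z →* ℂˣ} (S : Side p F a b i θ η lam)
include S

theorem cen (z : Z) : b.comp i z ∈ center Q := mem_center_iff.2 fun g => by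
  obtain ⟨y, rfl⟩ := S.hb g
  simp only [MonoidHom.comp_apply, ← map_mul, mem_center_iff.1 (S.hc z) y]

theorem ord_a : ∀ z ∈ a.ker, ¬ p ∣ orderOf z := by
  rw [S.ka]
  rintro _ ⟨z, rfl⟩ h
  exact S.hZ (h.trans ((orderOf_map_dvd i z).trans (orderOf_dvd_natCard z)))

theorem ord_b : ∀ z ∈ b.ker, ¬ p ∣ orderOf z := by
  rw [S.kb]
  rintro _ ⟨z, rfl⟩ h
  exact S.hN (h.trans ((orderOf_map_dvd F.ι z).trans (orderOf_dvd_natCard z)))

theorem ker_le : a.ker ≤ center Δ := by
  rw [S.ka]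
  rintro _ ⟨z, rfl⟩
  exact S.hc z

theorem exists_fun [Finite Δ] [Finite Z] :
    ∃ f : {β : IrrCharacter Q // Ov (b.comp i) (fun z => (lam⁻¹ z : ℂ)) β} → IrrCharacter T,
      Injective f ∧ Set.range f = {χ : IrrCharacter T | Ov (a.comp F.ι) θ χ} ∧
      ∀ β x, (f β : T → ℂ) (a x) = (β.1 : Q → ℂ) (b x) * η x := by
  have := Fintype.ofFinite Z
  have := Finite.of_surjective _ S.hb
  have b1 := bij_inflate a S.ha (P := Ov (a.comp F.ι) θ) (R := Ov F.ι θ) fun _ _ => Iff.rfl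
  have h1 : η 1 ≠ 0 := by rw [← map_one F.ι, S.ext]; exact irr_one_ne_zero S.irr
  have b2 := bij_restrict (P' := fun χ => a.ker ≤ charKer χ)
    (Q' := Ov (b.comp i) fun z => (lam⁻¹ z : ℂ)) (bij_gallagher F b S.hb S.kb S.irr S.char S.ext) (by
      rintro _ β hχ hβ - - rfl
      rw [S.ka, ov_iff]
      refine ⟨fun h => ?_, ?_⟩
      · have : (fun z => β (b.comp i z)) = β 1 • fun z => (lam⁻¹ z : ℂ) := funext fun z => by
          have := (mem_charKer_iff (irr_isCharacter hχ)).1 (h ⟨z, rfl⟩)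
          simp only [Pi.mul_apply, S.sc, map_one, ← mul_assoc, mul_left_inj' h1] at this
          simp [← this]
        rw [this, Char.inner_smul_left, inner_irr_self (irr_linear _), mul_one]
        exact irr_one_ne_zero hβ
      · rintro h _ ⟨z, rfl⟩
        have := scalar_of_inner (b.comp i) S.cen hβ h z 1
        rw [mul_one, MonoidHom.comp_apply] at this
        rw [mem_charKer_iff (irr_isCharacter hχ)]
        simp only [Pi.mul_apply, this, S.sc, map_one]
        simp [mul_comm, mul_left_comm])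
  obtain ⟨f, hf, h2⟩ := bij_exists_fun (bij_symm (bij_congr (b1.comp b2) (fun _ _ => Iff.rfl)
    (Q' := Ov (b.comp i) fun z => (lam⁻¹ z : ℂ)) fun _ _ => by simp))
  refine ⟨fun β => (f β).1, Subtype.val_injective.comp hf.1, ?_, fun β x => ?_⟩
  · rw [← Subtype.range_coe_subtype, ← hf.2.range_comp]
    rfl
  · obtain ⟨ξ, -, -, e1, e2⟩ := (h2 β _).2 rfl
    exact congrFun (e1.symm.trans e2) x

end Side

theorem pi_of_sides {N' Δ' T' : Type*} [Group N'] [Group Δ'] [Group T'] [Finite Δ] [Finite Δ']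
    [Finite Z] (hM : IsPModular p M) {F : NormalEmb N Δ} {a : Δ →* T} {b : Δ →* Q} {i : Z →* Δ}
    {θ : N → ℂ} {η : Δ → ℂ} {lam : Z →* ℂˣ} (S : Side p F a b i θ η lam) {F' : NormalEmb N' Δ'}
    {a' : Δ' →* T'} {b' : Δ' →* Q} {i' : Z →* Δ'} {θ' : N' → ℂ} {η' : Δ' → ℂ}
    (S' : Side p F' a' b' i' θ' η' lam) (h : b'.comp i' = b.comp i) :
    PI p M {χ : IrrCharacter T | Ov (a.comp F.ι) θ χ}
      {χ : IrrCharacter T' | Ov (a'.comp F'.ι) θ' χ} := by
  classical
  have := Fintype.ofFinite Z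
  have := Finite.of_surjective _ S.hb
  obtain ⟨f, h1, h2, h3⟩ := S.exists_fun
  obtain ⟨g, h4, h5, h6⟩ := h ▸ S'.exists_fun
  have := Fintype.ofFinite {β : IrrCharacter Q // Ov (b.comp i) (fun z => (lam⁻¹ z : ℂ)) β}
  set K : Q → Q → ℂ := fun u w =>
    ∑ β : {β : IrrCharacter Q // Ov (b.comp i) (fun z => (lam⁻¹ z : ℂ)) β},
      (β.1 : Q → ℂ) u * (β.1 : Q → ℂ) w with hK
  have h7 : ∀ u w, v M (K u w) ≤ v M (Nat.card (Cen w)) := fun u w => by
    have h8 := congrArg (v M) (sum_ov _ S.cen lam u w)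
    rw [map_mul, (BlockB.v_natCast_eq_one_iff hM _).2 S.hZ, one_mul] at h8
    refine h8.trans_le (Valuation.map_sum_le _ fun z _ => ?_)
    rw [map_mul]
    refine mul_le_of_le_one_of_le (BlockB.v_le_one_of_isIntegral M
      (char_isIntegral (irr_isCharacter (irr_linear lam)) z)) ?_
    split_ifs <;> simp
  refine PI.of_fintype h1 h2 h4 h5 fun x y => ?_
  obtain ⟨x, rfl⟩ := S.ha x
  obtain ⟨y, rfl⟩ := S'.ha y
  have h8 : ∑ β, (f β : T → ℂ) (a x) * (g β : T' → ℂ) (a' y) = η x * η' y * K (b x) (b' y) := by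
    simp only [h3, h6, hK, Finset.mul_sum]
    exact Finset.sum_congr rfl fun _ _ => by ring
  have h9 : v M (η x * η' y) ≤ 1 := BlockB.v_le_one_of_isIntegral M
    ((char_isIntegral S.char x).mul (char_isIntegral S'.char y))
  simp only [h8]
  refine ⟨?_, ?_, or_iff_not_imp_right.2 fun h10 => ?_⟩
  · rw [map_mul, show K (b x) (b' y) = K (b' y) (b x) by simp [hK, mul_comm]]
    exact mul_le_of_le_one_of_le h9
      ((h7 _ _).trans (v_card_Cen_le hM S.ha S.ker_le S.ord_a S.ord_b x))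
  · rw [map_mul]
    exact mul_le_of_le_one_of_le h9
      ((h7 _ _).trans (v_card_Cen_le hM S'.ha S'.ker_le S'.ord_a S'.ord_b y))
  · obtain ⟨z, -, hz⟩ := Finset.exists_ne_zero_of_sum_ne_zero (sum_ov _ S.cen lam _ _ ▸
      mul_ne_zero card_ne_zero_complex (right_ne_zero_of_mul h10))
    obtain ⟨g, hg⟩ := isConj_iff.1 (ite_ne_right_iff.1 (right_ne_zero_of_mul hz)).1
    have h11 : a (i z * x) = a x := by
      rw [map_mul, show a (i z) = 1 from MonoidHom.mem_ker.1 (S.ka ▸ ⟨z, rfl⟩), one_mul]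
    rw [← h11, dvd_orderOf_map_iff hM.1 S.ord_a, dvd_orderOf_map_iff hM.1 S'.ord_a,
      ← dvd_orderOf_map_iff hM.1 S.ord_b, ← dvd_orderOf_map_iff hM.1 S'.ord_b, map_mul,
      ← orderOf_inv, ← MonoidHom.comp_apply, ← hg,
      show orderOf (g * b' y * g⁻¹) = orderOf (b' y) from (MulAut.conj g).orderOf_eq _]

end Side

end CF.DG
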