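import Cfsg.Agent.DG.Dade
import Cfsg.Agent.DG.Perf
import Cfsg.Agent.Block.Deg

/-!
# Perfect isometries for blocks of `p`-solvable groups with abelian defect group
-/

namespace CF.DG

open Cfsg MonoidAlgebra CF.Block Subgroup CF.Clifford CF.Char Function
open CF.BlockB (v k resC)

universe u

variable {p : ℕ} {M : Ideal AlgInt}

theorem exists_normal_lift {Γ G : Type*} [Group Γ] [Group G] [Finite Γ] [Fact p.Prime]
    {π : Γ →* G} (hc : π.ker ≤ center Γ) (h1 : ∀ z ∈ π.ker, ¬ p ∣ orderOf z) {P : Subgroup G}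
    (hP : IsPGroup p P) (hab : ∀ x ∈ P, ∀ y ∈ P, x * y = y * x) (h2 : P ≤ π.range)
    (h3 : ∀ γ, π γ ∈ normalizer (P : Set G)) :
    ∃ A : Subgroup Γ, A.Normal ∧ IsPGroup p A ∧ A.map π = P := by
  have hp : p.Prime := Fact.out
  let A : Subgroup Γ :=
    { carrier := {x | π x ∈ P ∧ ∃ n, x ^ p ^ n = 1}
      one_mem' := ⟨by simp, 0, by simp⟩
      mul_mem' := by
        rintro x y ⟨hx, n, hn⟩ ⟨hy, m, hm⟩
        refine ⟨map_mul π x y ▸ mul_mem hx hy, n + m, ?_⟩
        rw [Commute.mul_pow (comm_of_pow hp hc h1 hn (hab _ hx _ hy)), pow_add, pow_mul, hn,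
          mul_comm (p ^ n), pow_mul, hm, one_pow, one_pow, one_mul]
      inv_mem' := by
        rintro x ⟨hx, n, hn⟩
        exact ⟨map_inv π x ▸ inv_mem hx, n, by rw [inv_pow, hn, inv_one]⟩ }
  refine ⟨A, ⟨?_⟩, fun x => x.2.2.imp fun n hn => Subtype.ext hn, le_antisymm ?_ fun g hg => ?_⟩
  · rintro x ⟨hx, n, hn⟩ g
    refine ⟨?_, n, by rw [conj_pow, hn, mul_one, mul_inv_cancel]⟩
    rw [map_mul, map_mul, map_inv]
    exact conj_mem_of_mem_normalizer (h3 g) hx
  · rintro _ ⟨x, hx, rfl⟩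
    exact hx.1
  · obtain ⟨x, rfl⟩ := h2 hg
    obtain ⟨n, hn⟩ := hP ⟨_, hg⟩
    have h4 : x ^ p ^ n ∈ π.ker := by
      rw [MonoidHom.mem_ker, map_pow]
      exact congrArg Subtype.val hn
    obtain ⟨t, ht⟩ := exists_pow_eq_self_of_coprime (x := π x) (n := orderOf (x ^ p ^ n))
      (Nat.Coprime.coprime_dvd_right (orderOf_dvd_of_pow_eq_one (congrArg Subtype.val hn))
        ((hp.coprime_iff_not_dvd.2 (h1 _ h4)).symm.pow_right n))
    have h5 : π ((x ^ orderOf (x ^ p ^ n)) ^ t) = π x := by rw [map_pow, map_pow, ht]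
    refine ⟨_, ⟨h5 ▸ hg, n, ?_⟩, h5⟩
    rw [← pow_mul, ← pow_mul, mul_comm t, ← mul_assoc, mul_comm _ (p ^ n), pow_mul, pow_mul,
      pow_orderOf_eq_one, one_pow]

theorem range_eq_Cz {G H : Type*} [Group G] [Group H] (hp : p.Prime) {N P : Subgroup G}
    [hn : N.Normal] (hN : ¬ p ∣ Nat.card N) (hP : IsPGroup p P) {j : H →* G}
    (hr : j.range = normalizer (P : Set G)) : (N.comap j).map j = Cz N P := by
  rw [map_comap_eq, hr]
  refine le_antisymm (fun x hx => ⟨mem_centralizer_iff.2 fun y hy => ?_, hx.2⟩)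
    (inf_le_inf_right _ (centralizer_le_normalizer' P))
  obtain ⟨n, h⟩ := hP ⟨_, mul_mem (inv_mem hy) (conj_mem_of_mem_normalizer hx.1 hy)⟩
  have h1 : y⁻¹ * (x * y * x⁻¹) ∈ N := by
    simpa [mul_assoc] using mul_mem (hn.conj_mem x hx.2 y⁻¹) (inv_mem hx.2)
  have h2 := eq_one_of_pow hp (congrArg Subtype.val h) fun h =>
    hN (h.trans (N.orderOf_dvd_natCard h1))
  rw [inv_mul_eq_one] at h2
  exact (eq_mul_inv_iff_mul_eq.1 h2)

theorem pi_inv {G : Type u} {H : Type*} [Group G] [Group H] [Finite G] [Finite H]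
    (hM : IsPModular p M) {N : Subgroup G} [N.Normal] (hN : ¬ p ∣ Nat.card N) {θ : IrrCharacter N}
    (hθ : ebs M N {θ} ∈ fix (k M) ⊤) {P : Subgroup G} (hP : IsPGroup p P)
    (hab : ∀ x ∈ P, ∀ y ∈ P, x * y = y * x) {j : H →* G} (hj : Injective j)
    (hr : j.range = normalizer (P : Set G)) (hs' : ∀ g, ∃ h, ∃ n ∈ N, g = j h * n)
    {φ : IrrCharacter (N.comap j)} (hφ : gmap j (ebs M _ {φ}) = Br P (ebs M N {θ})) :
    PI p M {χ : IrrCharacter G | Ov N.subtype θ χ}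
      {χ : IrrCharacter H | Ov (N.comap j).subtype φ χ} := by
  have := Fact.mk hM.1
  obtain ⟨Γ, _, _, E, π, η, lam, m, L, a, ha, hlam⟩ :=
    exists_lift hM.1 hN (NormalEmb.sub N) θ.2 (invariant_of_ebs_fix hM hN hθ)
  have hz : ∀ z : π.ker, z ^ a = 1 := fun z =>
    L.inj (Units.ext (by rw [map_pow, map_one, Units.val_pow_eq_pow_val, hlam, Units.val_one]))
  have hZ : ¬ p ∣ Nat.card π.ker := fun h => by
    obtain ⟨z, h1⟩ := exists_prime_orderOf_dvd_card' p h
    exact ha (h1 ▸ orderOf_dvd_of_pow_eq_one (hz z))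
  have S : Side p E π (QuotientGroup.mk' E.ι.range) π.ker.subtype θ η lam :=
    ⟨L.surj, QuotientGroup.mk'_surjective _, QuotientGroup.ker_mk' _, (range_subtype _).symm,
      fun z => L.central z.2, θ.2, irr_isCharacter L.irr, L.ext,
      fun z => by simpa using L.scalar z 1, hN, hZ⟩
  have hN' : ¬ p ∣ Nat.card (N.comap j) := fun h =>
    hN (h.trans (card_comap_dvd_of_injective N j hj))
  let Δ := j.range.comap π
  let a' : Δ →* H := (MonoidHom.ofInjective hj).symm.toMonoidHom.comp (π.subgroupComap j.range)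
  have ha' : ∀ x, j (a' x) = π x := fun x => MonoidHom.apply_ofInjective_symm hj _
  let F : NormalEmb (N.comap j) Δ :=
    { ι := (E.ι.comp (j.subgroupComap N)).codRestrict Δ fun c =>
        ⟨c, (L.π_ι (j.subgroupComap N c)).symm⟩
      c := (NormalEmb.sub (N.comap j)).c.comp a'
      inj := fun c d h => Subtype.ext (hj (congrArg Subtype.val (E.inj (congrArg Subtype.val h))))
      ι_c := fun g c => Subtype.ext (by
        refine Eq.trans (congrArg E.ι ?_) (E.ι_c g (j.subgroupComap N c))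
        rw [(NormalEmb.sub N).c_eq_of_comp E π L.π_ι]
        refine Subtype.ext ?_
        change j (a' g * c * (a' g)⁻¹) = π g * j c * (π g)⁻¹
        rw [map_mul, map_mul, map_inv, ha']) }
  have hF : ∀ c, π (F.ι c) = j c := fun c => L.π_ι (j.subgroupComap N c)
  let i : π.ker →* Δ := inclusion (ker_le_comap π _)
  have hi : ∀ z, i z ∈ center Δ := fun z => mem_center_iff.2 fun g =>
    Subtype.ext (mem_center_iff.1 (L.central z.2) g)
  obtain ⟨s, hs, h1, h2⟩ := exists_ext_of_char hM hN E S.char L.ext (j := N.subtype) L.π_ι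
  rw [N.range_subtype] at hs
  have hc : (π.comp Δ.subtype).ker ≤ center Δ := fun z hz => hi ⟨z, hz⟩
  have ho : ∀ z ∈ (π.comp Δ.subtype).ker, ¬ p ∣ orderOf z := fun z hz =>
    Subgroup.orderOf_coe z ▸ S.ord_a z hz
  obtain ⟨A, _, hA, h3⟩ := exists_normal_lift hc ho hP hab (fun g hg => by
    obtain ⟨x, rfl⟩ := L.surj g
    exact ⟨⟨x, show π x ∈ j.range from hr ▸ le_normalizer hg⟩, rfl⟩) fun γ => hr ▸ γ.2
  have h4 : ∀ γ : Δ, π γ ∈ centralizer (P : Set G) → γ ∈ centralizer (A : Set Δ) :=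
    fun γ h q hq => by
      obtain ⟨n, hn⟩ := hA ⟨q, hq⟩
      exact comm_of_pow hM.1 hc ho (congrArg Subtype.val hn) (h _ (h3 ▸ mem_map_of_mem _ hq))
  obtain ⟨u, hu, h5⟩ := dade hM hN (isBlk_ebs hM (isPBlock_singleton_of_not_dvd hM hN θ))
    (hs.comp Δ.subtype) A hA fun x hx y hy => (h4 x (mem_centralizer_iff.2 fun z hz =>
      hab _ hz _ (h3 ▸ mem_map_of_mem _ hx)) y hy).symm
  have h6 := range_eq_Cz hM.1 hN hP hr
  rw [ebs, gmap_gmap] at hφ
  rw [h3, ← hφ] at hu h5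
  have h7 : ∀ c : N.comap j, j c ∈ Cz N P := fun c => h6 ▸ mem_map_of_mem _ c.2
  obtain ⟨ψ, h8, h9, h10⟩ := exists_char_of_ext hM hN' F (j := j.comp (N.comap j).subtype)
    (hj.comp (subtype_injective _)) (π := π.comp Δ.subtype) hF (φ := φ) (u := u)
    (by rwa [MonoidHom.range_comp, range_subtype, h6]) fun c => by
      have := h5 (F.ι c) (h4 _ (hF c ▸ (h7 c).1)) (hF c ▸ h7 c) 1 (by
        rw [one_smul, MonoidHom.comp_apply, subtype_apply, hF]
        exact h1 _)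
      rwa [one_smul, MonoidHom.comp_apply, subtype_apply, hF] at this
  have S' : Side p F a' ((QuotientGroup.mk' E.ι.range).comp Δ.subtype) i φ ψ lam := by
    refine ⟨fun h => ?_, fun q => ?_, Subgroup.ext fun x => ?_, Subgroup.ext fun x => ?_, hi, φ.2,
      irr_isCharacter h8, h9, fun z => ?_, hN', hZ⟩
    · obtain ⟨x, hx⟩ := L.surj (j h)
      exact ⟨⟨x, h, hx.symm⟩, hj ((ha' _).trans hx)⟩
    · obtain ⟨x, rfl⟩ := QuotientGroup.mk'_surjective _ q
      obtain ⟨h, n, hn, h11⟩ := hs' (π x)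
      refine ⟨⟨x * (E.ι ⟨n, hn⟩)⁻¹, h, by simp [L.π_ι, h11]⟩, ?_⟩
      simp
    · rw [MonoidHom.mem_ker, MonoidHom.comp_apply, QuotientGroup.mk'_apply,
        QuotientGroup.eq_one_iff]
      refine ⟨?_, by rintro ⟨c, rfl⟩; exact ⟨_, rfl⟩⟩
      rintro ⟨n, hn⟩
      have h11 : j (a' x) = n := by rw [ha', ← subtype_apply, ← hn, L.π_ι]; rfl
      exact ⟨⟨a' x, show j (a' x) ∈ N from h11 ▸ n.2⟩,
        Subtype.ext ((congrArg E.ι (Subtype.ext h11)).trans hn)⟩
    · rw [MonoidHom.mem_ker, ← map_eq_one_iff j hj, ha']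
      exact ⟨fun h => ⟨⟨x, h⟩, rfl⟩, by rintro ⟨z, rfl⟩; exact z.2⟩
    · have h11 : (π.comp Δ.subtype) (i z) = 1 := z.2
      have h12 : v M (lam z : ℂ) ≤ 1 :=
        (BlockB.v_eq_one_of_pow_eq_one (by rintro rfl; simp at ha) (hlam z)).le
      simpa using h10 (i z) (hi z) (lam z) a ha (by rw [← map_pow, hz, map_one]) (hlam z)
        (by simpa [h11, ← one_def] using h5 (i z) (center_le_centralizer _ (hi z))
              (h11 ▸ one_mem _) (resC M (lam z))
              (by rw [h11, ← one_def, one_mul]; exact h2 z _ h12 (L.scalar z))) 1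
  convert pi_of_sides hM S S' rfl using 4
  · exact MonoidHom.ext fun n => (L.π_ι n).symm
  · exact MonoidHom.ext fun c => hj ((ha' _).trans (hF c)).symm

section Ind
variable {G H : Type*} [Group G] [Group H] [Finite G]

theorem eq_ov (hM : IsPModular p M) {N : Subgroup G} [N.Normal] (hN : ¬ p ∣ Nat.card N)
    {θ : IrrCharacter N} {B : Set (IrrCharacter G)} (hB : IsPBlock M B)
    (h : eb M B = ebs M N {θ}) : B = {χ : IrrCharacter G | Ov N.subtype θ χ} := by
  have := Fintype.ofFinite N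
  obtain ⟨B', h1, h2, h3⟩ := exists_block_over_singleton hM hN θ
    (by rw [← h]; exact isBlk_eb hM hB)
  rw [eb_inj hM hB h1 (h.trans h2.symm)]
  exact Set.ext fun χ => (h3 χ).trans (ov_iff (j := N.subtype)).symm

theorem pi_fr (H : Type*) [Group H] (hM : IsPModular p M) {N T : Subgroup G} [N.Normal]
    (hN : ¬ p ∣ Nat.card N) {θ : IrrCharacter N} (hT : T = stab ⊤ (ebs M N {θ}))
    {B : Set (IrrCharacter G)} (hB : IsPBlock M B) (hcov : eb M B * ebs M N {θ} ≠ 0) :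
    ∃ B' : Set (IrrCharacter T), IsPBlock M B' ∧ ebs M T B' = eb M B * ebs M N {θ} ∧
      (∀ D, IsDefGrp p T (ebs M T B') D → IsDefGrp p ⊤ (eb M B) D) ∧
      ∀ c : Set (IrrCharacter H), PI p M B' c → PI p M B c := by
  have := Fact.mk hM.1
  have := Fintype.ofFinite G
  have := Fintype.ofFinite T
  have := Fintype.ofFinite N
  have hb := isPBlock_singleton_of_not_dvd hM hN θ
  have hNT : N ≤ T := hT ▸ le_stab le_top (isBlk_ebs hM hb).mem_fix
  obtain ⟨B', h1, h2, h3, h4, h5, -⟩ := fr_reduce hM hb hT hB hcov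
  refine ⟨B', h1.1, h2, h3, fun c hc => hc.ind h4 h5 fun ψ hψ ψ' hψ' h => Subtype.ext ?_⟩
  have h6 := fun ψ => exists_under_of_covers_stable hM hNT (le_normalizer_of_normal' _ _) h1.1 hb
    (hT ▸ mem_fix_stab _ _) (by rwa [h2, mul_assoc, (isBlk_ebs hM hb).idem]) (χ := ψ)
  obtain ⟨_, rfl, h7⟩ := h6 ψ hψ
  obtain ⟨_, rfl, h8⟩ := h6 ψ' hψ'
  refine (NormalEmb.sub N).corr_inj ((NormalEmb.sub N).restrict T fun n => hNT n.2) T.subtype
    T.subtype_injective (fun _ => rfl) (Subtype.prop _) ?_ ψ.2 ψ'.2 h7 h8 (by rwa [ind_subtype, ind_subtype])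
  rw [T.range_subtype, hT]
  exact inertia_le_stab hM hb rfl

theorem exists_mul_core [Fact p.Prime] (hs : IsPSolvable p G) {P : Subgroup G} (hP : IsSyl p P ⊤)
    (hab : ∀ x ∈ P, ∀ y ∈ P, x * y = y * x) (g : G) :
    ∃ h ∈ normalizer (P : Set G), ∃ n ∈ pPrimeCore p G, h * n = g := by
  set N := pPrimeCore p G
  obtain ⟨S, rfl⟩ := isSyl_top_iff.1 hP
  have h1 : pCore p (G ⧸ N) ≤ (S : Subgroup G).map (QuotientGroup.mk' N) :=
    Solv.pCore_le_sylow (S.mapSurjective (QuotientGroup.mk'_surjective N))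
  have h2 : (S : Subgroup G).map (QuotientGroup.mk' N) ≤ pCore p (G ⧸ N) := by
    rintro _ ⟨x, hx, rfl⟩
    refine Loc.isCharP_top_iff.1 (isCharP_quot_of_isPSolvable hs) fun y hy => ?_
    obtain ⟨a, ha, rfl⟩ := h1 hy
    rw [← map_mul, ← map_mul, hab a ha x hx]
  have h3 := S.normalizer_sup_eq_top' (N := (pCore p (G ⧸ N)).comap (QuotientGroup.mk' N))
    (map_le_iff_le_comap.1 h2)
  rw [← le_antisymm h2 h1, comap_map_eq, QuotientGroup.ker_mk', ← sup_assoc, ← S.coe_coe,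
    sup_eq_left.2 (le_normalizer (H := (S : Subgroup G)))] at h3
  exact (mem_sup_of_norm (le_normalizer_of_normal' _ N)).1 (h3.ge (mem_top g))

end Ind

theorem pi_main (hM : IsPModular p M) {G : Type u} [Group G] [Finite G] (hs : IsPSolvable p G)
    {B : Set (IrrCharacter G)} (hB : IsPBlock M B) {P : Subgroup G} (hP : IsDefGrp p ⊤ (eb M B) P)
    (hab : ∀ x ∈ P, ∀ y ∈ P, x * y = y * x) {H : Type u} [Group H] [Finite H] {j : H →* G}
    (hj : Injective j) (hr : j.range = normalizer (P : Set G)) {c : Set (IrrCharacter H)}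
    (hc : IsPBlock M c) (h : gmap j (eb M c) = Br P (eb M B)) : PI p M B c := by
  have := Fact.mk hM.1
  have := BlockB.charP_k hM
  induction hn : Nat.card G using Nat.strong_induction_on generalizing G H with
  | _ n ih =>
  set N := pPrimeCore p G
  have hN : ¬ p ∣ Nat.card N := Solv.not_dvd_card_pPrimeCore
  have hN' : ¬ p ∣ Nat.card (N.comap j) := fun h =>
    hN (h.trans (card_comap_dvd_of_injective N j hj))
  have hB' := isBlk_eb hM hB
  obtain ⟨b, hb, h1, h2, h3, -⟩ := hP.exists_covered hB' (le_normalizer_of_normal' ⊤ N) le_top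
  obtain ⟨θ, rfl⟩ : ∃ θ, ebs M N {θ} = b :=
    exists_singleton hM hN N.subtype_injective (by rwa [N.range_subtype])
  have h4 := hb.isBlk_Br_of_coprime (regSupp hM) hP.isP (le_normalizer_of_normal' _ N) h1 hN
  obtain ⟨φ, hφ⟩ := exists_singleton hM hN' (j := j.comp (N.comap j).subtype)
    (hj.comp (subtype_injective _))
    (by rwa [MonoidHom.range_comp, range_subtype, range_eq_Cz hM.1 hN hP.isP hr])
  rw [← gmap_gmap, ← ebs] at hφ
  set T := stab ⊤ (ebs M N {θ}) with hT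
  by_cases hTt : T = ⊤
  · have hst : ebs M N {θ} ∈ fix (k M) ⊤ := (le_stab_iff.1 hTt.ge).2
    obtain ⟨h5, h6, -⟩ := fong_isBlk hM hN (isCharP_quot_of_isPSolvable hs) hb hst
    have h7 := hB'.eq_of_mul_ne_zero h5 h2
    obtain ⟨S, hS⟩ := exists_isSyl (p := p) (⊤ : Subgroup G)
    have hPS : IsSyl p P ⊤ := isSyl_of_card_ge hS hP.isP le_top ((h7 ▸ h6 S hS).card_eq hP hB').le
    rw [eq_ov hM hN hB h7, eq_ov hM hN' hc (gmap_injective hj (by rw [h, h7, hφ]))]
    refine pi_inv hM hN hst hP.isP hab hj hr (fun g => ?_) hφ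
    obtain ⟨_, h8, n, hn, rfl⟩ := exists_mul_core hs hPS hab g
    obtain ⟨x, rfl⟩ := hr.ge h8
    exact ⟨x, n, hn, rfl⟩
  have hBP : eb M B ∈ fix (k M) P := fix_anti le_top hB'.mem_fix
  have h5 : T.comap j = stab ⊤ (ebs M _ {φ}) := Subgroup.ext fun x => by
    have h5 := cjs_eq_of_mem_normalizer (hr.le ⟨x, rfl⟩)
    simp only [mem_comap, hT, mem_stab, mem_top, true_and]
    rw [← (gmap_injective hj).eq_iff, gmap_cj, hφ, cj_Br, h5]
    refine ⟨fun h6 => by rw [h6], fun h6 => ?_⟩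
    refine (cjs_eq_of_normal (j x) N ▸ hb.cj (j x)).eq_of_mul_ne_zero hb fun h7 => h4.ne ?_
    rw [← h4.idem]
    nth_rewrite 1 [← h6]
    rw [← Br_mul hP.isP (h5 ▸ cj_mem_fix (j x) h1) h1, h7, map_zero]
  obtain ⟨B', h6, h7, h8, h9⟩ := pi_fr (T.comap j) hM hN hT hB h2
  obtain ⟨c', h10, h11, -, h12⟩ := pi_fr G hM hN' h5 hc fun h10 => h3 (by
    rw [← h, ← hφ, ← map_mul, h10, map_zero])
  have hPT : P ≤ T := le_stab le_top h1
  obtain ⟨D, hD⟩ := (isBlk_ebs hM h6).exists_isDefGrp (p := p)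
  have h13 : IsDefGrp p T (ebs M T B') P := hD.of_card_ge (isBlk_ebs hM h6) hP.isP hPT
    (by rwa [h7, Br_mul hP.isP hBP h1]) ((h8 D hD).card_eq hP hB').le
  refine (h12 _ (h9 _ (ih _ ?_ (Solv.isPSolvable_subgroup hs T) h6 (P := P.subgroupOf T)
    ((isDefGrp_gmap T.subtype_injective).1 ?_) (fun x hx y hy => Subtype.ext (hab _ hx _ hy))
    (j := j.subgroupComap T) (fun x y hxy => Subtype.ext (hj (congrArg Subtype.val hxy))) ?_ h10
    (gmap_injective T.subtype_injective ?_) rfl)).symm).symm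
  · rw [← hn, ← T.card_mul_index]
    exact lt_mul_of_one_lt_right Nat.card_pos (one_lt_index_of_ne_top hTt)
  · rwa [map_top_subtype, map_subgroupOf_subtype hPT]
  · rw [← subgroupOf_normalizer_eq hPT, ← hr]
    refine Subgroup.ext fun x => ⟨by rintro ⟨y, rfl⟩; exact ⟨y, rfl⟩, ?_⟩
    rintro ⟨y, hy⟩
    exact ⟨⟨y, show j y ∈ T from hy ▸ x.2⟩, Subtype.ext hy⟩
  · rw [gmap_Br T.subtype_injective, map_subgroupOf_subtype hPT, ← ebs, h7, Br_mul hP.isP hBP h1,
      ← h, ← hφ, ← map_mul, ← h11, ebs, gmap_gmap, gmap_gmap]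
    rfl

end CF.DG
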