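import Cfsg.Agent.DG.Tau
import Cfsg.Agent.DG.Lin
import Mathlib.Algebra.Module.ZMod
import Mathlib.Algebra.Field.ZMod
import Mathlib.RingTheory.MvPolynomial.Basic

/-!
# Permutation modules without fixed points are free over a generic shifted cyclic subgroup
-/

namespace CF.DG

open MonoidAlgebra Module CF.Block

theorem exists_addHom {F V : Type*} [Field F] [AddCommGroup V] [Module F V] {v : V} (hv : v ≠ 0) :
    ∃ φ : V →+ F, φ v ≠ 0 :=
  let ⟨φ, hφ⟩ := Projective.exists_dual_ne_zero F hv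
  ⟨φ.toAddMonoidHom, hφ⟩

theorem exists_addChar {k A : Type*} [Field k] [CommGroup A] {p : ℕ} [Fact p.Prime] [CharP k p]
    {S : Subgroup A} (h1 : ∀ a, a ^ p ∈ S) {a₀ : A} (h2 : a₀ ∉ S) :
    ∃ c : A → k, (∀ a b, c (a * b) = c a + c b) ∧ (∀ a ∈ S, c a = 0) ∧ c a₀ ≠ 0 := by
  let _ : Module (ZMod p) (Additive (A ⧸ S)) := AddCommGroup.zmodModule fun x => by
    obtain ⟨a, ha⟩ := QuotientGroup.mk_surjective x.toMul
    apply Additive.toMul.injective
    rw [toMul_nsmul, ← ha, ← QuotientGroup.mk_pow]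
    exact (QuotientGroup.eq_one_iff _).2 (h1 a)
  have h3 : Additive.ofMul (a₀ : A ⧸ S) ≠ 0 := fun h => h2 ((QuotientGroup.eq_one_iff _).1 h)
  obtain ⟨φ, hφ⟩ := exists_addHom (F := ZMod p) h3
  refine ⟨fun a => ZMod.castHom (dvd_refl p) k (φ (Additive.ofMul (a : A ⧸ S))), fun a b => ?_,
    fun a ha => ?_, fun h => hφ ((ZMod.castHom (dvd_refl p) k).injective (h.trans ?_))⟩
  · simp only [QuotientGroup.mk_mul, ofMul_mul, map_add]
  · simp only [(QuotientGroup.eq_one_iff _).2 ha, ofMul_one, map_zero]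
  · rw [map_zero]

variable {k K A G : Type*} [Field k] [Field K] [CommGroup A] [Fintype A] [Group G]

variable (K) in
/-- Elements supported on a set. -/
def supp (X : Set G) : Submodule K K[G] where
  carrier := {d | ∀ x ∉ X, d.coeff x = 0}
  zero_mem' _ _ := rfl
  add_mem' ha hb x hx := by rw [coeff_add, Finsupp.add_apply, ha x hx, hb x hx, add_zero]
  smul_mem' c d hd x hx := by rw [coeff_smul, Finsupp.smul_apply, hd x hx, smul_zero]

variable (K) in
/-- The conjugation action. -/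
noncomputable def cjE (a : A →* G) : K[A] →ₐ[K] End K K[G] :=
  lift K _ A ⟨⟨fun q => (cj (a q)).toLinearMap, LinearMap.ext fun d => by simp⟩, fun q r => by
    refine LinearMap.ext fun d => ?_
    simp [cj_mul]⟩

omit [Fintype A] in
theorem cjE_single (a : A →* G) (q : A) (c : K) (d : K[G]) :
    cjE K a (single q c) d = c • cj (a q) d := by
  simp [cjE]

omit [Fintype A] in
theorem cjE_mem_supp (a : A →* G) {X : Set G} (hX : ∀ x ∈ X, ∀ q, a q * x * (a q)⁻¹ ∈ X)
    (β : K[A]) : ∀ d ∈ supp K X, cjE K a β d ∈ supp K X := fun d hd => by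
  induction β using induction_linear with
  | zero => simp
  | add b c hb hc => rw [map_add]; exact add_mem hb hc
  | single q c =>
    rw [cjE_single]
    refine Submodule.smul_mem _ _ fun x hx => ?_
    rw [coeff_cj]
    exact hd _ fun h => hx (by simpa [mul_assoc] using hX _ h q)

omit [Fintype A] in
theorem cjE_trunc (a : A →* G) {X : Set G} (hX : ∀ x ∈ X, ∀ q, a q * x * (a q)⁻¹ ∈ X)
    (β : K[A]) (d : K[G]) : cjE K a β (trunc X d) = trunc X (cjE K a β d) := by
  classical
  induction β using induction_linear with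
  | zero => simp
  | add b c hb hc => simp only [map_add, LinearMap.add_apply, hb, hc]
  | single q c =>
    rw [cjE_single, cjE_single, map_smul]
    congr 1
    refine ga_ext fun x => ?_
    rw [coeff_cj, coeff_trunc, coeff_trunc, coeff_cj]
    refine if_congr ⟨fun h => by simpa [mul_assoc] using hX _ h q, fun h => ?_⟩ rfl rfl
    simpa using hX _ h q⁻¹

variable [Algebra (MvPolynomial A k) K] [IsFractionRing (MvPolynomial A k) K] [Algebra k K]
  [IsScalarTower k (MvPolynomial A k) K]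

variable (k K A) in
/-- The generic element of the augmentation ideal. -/
noncomputable def zeta : K[A] := ∑ q : A, (single q (tv k K q) - single 1 (tv k K q))

theorem sum_tv_ne_zero {c : A → k} {a₀ : A} (h : c a₀ ≠ 0) :
    ∑ q, tv k K q * algebraMap k K (c q) ≠ 0 := by
  intro h0
  have h1 : ∑ q, c q • (MvPolynomial.X q : MvPolynomial A k) = 0 := by
    apply IsFractionRing.injective (MvPolynomial A k) K
    rw [map_zero, ← h0, map_sum]
    refine Finset.sum_congr rfl fun q _ => ?_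
    rw [Algebra.smul_def, map_mul, ← IsScalarTower.algebraMap_apply, mul_comm, tv]
  exact h (Fintype.linearIndependent_iff.1 (MvPolynomial.linearIndependent_X A k) c h1 a₀)

theorem orbit_free [Finite G] {p n : ℕ} [Fact p.Prime] [CharP k p] (hA : ∀ q : A, q ^ p ^ n = 1)
    (a : A →* G) {x₀ : G} (hp : ∀ q, a (q ^ p) * x₀ * (a (q ^ p))⁻¹ = x₀)
    (hx : ∃ q, a q * x₀ * (a q)⁻¹ ≠ x₀) {d : K[G]}
    (hd : d ∈ supp K {x | ∃ q, a q * x₀ * (a q)⁻¹ = x}) (h0 : cjE K a (zeta k K A) d = 0) :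
    d ∈ (supp K {x | ∃ q, a q * x₀ * (a q)⁻¹ = x}).map (cjE K a (zeta k K A) ^ (p - 1)) := by
  classical
  have : CharP K p := charP_of_injective_algebraMap (algebraMap k K).injective p
  set O : Set G := {x | ∃ q, a q * x₀ * (a q)⁻¹ = x}
  have hO : ∀ x ∈ O, ∀ q, a q * x * (a q)⁻¹ ∈ O := by
    rintro _ ⟨r, rfl⟩ q
    exact ⟨q * r, by simp [mul_assoc]⟩
  let S : Subgroup A := (Subgroup.centralizer {x₀}).comap a
  have hS : ∀ q, q ∈ S ↔ a q * x₀ * (a q)⁻¹ = x₀ := fun q => by
    rw [Subgroup.mem_comap, Subgroup.mem_centralizer_singleton_iff, mul_inv_eq_iff_eq_mul]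
  obtain ⟨a₀, ha₀⟩ := hx
  obtain ⟨c, hc1, hc2, hc3⟩ := exists_addChar (k := k) (S := S) (fun q => (hS _).2 (hp q))
    (mt (hS a₀).1 ha₀)
  let dg : G → K := fun x => if h : x ∈ O then algebraMap k K (c h.choose) else 0
  have hdg : ∀ q, dg (a q * x₀ * (a q)⁻¹) = algebraMap k K (c q) := fun q => by
    have h : a q * x₀ * (a q)⁻¹ ∈ O := ⟨q, rfl⟩
    have h1 := hc2 (q⁻¹ * h.choose) ((hS _).2 (by
      rw [map_mul, mul_inv_rev, mul_assoc, mul_assoc, ← mul_assoc x₀, ← mul_assoc (a h.choose),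
        ← mul_assoc (a h.choose), h.choose_spec]
      simp [mul_assoc]))
    have h2 := hc1 q (q⁻¹ * h.choose)
    rw [h1, mul_inv_cancel_left, add_zero] at h2
    simp only [dg, dif_pos h, h2]
  let δ : End K K[G] :=
    { toFun d := ofFun fun x => dg x * d.coeff x
      map_add' a b := ga_ext fun x => by simp [mul_add]
      map_smul' c a := ga_ext fun x => by simp [mul_left_comm] }
  have hδ : ∀ d x, (δ d).coeff x = dg x * d.coeff x := fun _ _ => rfl
  let υ : K[A] := ∑ q, single q (tv k K q * algebraMap k K (c q))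
  obtain ⟨υ', hυ'⟩ : ∃ υ', υ' * υ = 1 := (isUnit_of_augm hA (β := υ) (by
    simp only [υ, map_sum, augm_single]
    exact sum_tv_ne_zero hc3)).exists_left_inv
  refine mem_map_pow_of_deriv (δ := δ) (u := cjE K a υ) (u' := cjE K a υ') (cjE_mem_supp a hO _)
    (fun v hv x hx => by rw [hδ, hv x hx, mul_zero]) (cjE_mem_supp a hO _) (fun v hv => ?_)
    ((Commute.all _ _).map _) ((Commute.all _ _).map _) (by rw [← map_mul, hυ', map_one])
    (fun m h1 h2 h3 => ?_) hd h0
  · have h1 : ∀ q, δ (cj (a q) v) = cj (a q) (δ v) + algebraMap k K (c q) • cj (a q) v := by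
      intro q
      refine ga_ext fun x => ?_
      rw [coeff_add, Finsupp.add_apply, coeff_smul, Finsupp.smul_apply, hδ, coeff_cj, coeff_cj,
        hδ, smul_eq_mul, ← add_mul]
      by_cases hx : (a q)⁻¹ * x * a q ∈ O
      · obtain ⟨r, hr⟩ := hx
        have h2 : x = a (q * r) * x₀ * (a (q * r))⁻¹ := by
          rw [map_mul, mul_inv_rev, mul_assoc, mul_assoc, ← mul_assoc x₀, ← mul_assoc (a r),
            ← mul_assoc (a r), hr]
          simp [mul_assoc]
        rw [← hr, hdg, h2, hdg, hc1, map_add, add_comm]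
      · rw [hv _ hx, mul_zero, mul_zero]
    simp only [zeta, υ, map_sum, map_sub, LinearMap.sum_apply, LinearMap.sub_apply, cjE_single,
      map_smul, h1, map_one, cj_one, ← Finset.sum_add_distrib, mul_smul, smul_add]
    exact Finset.sum_congr rfl fun q _ => by abel
  · have h4 := Nat.le_of_dvd h1 ((CharP.cast_eq_zero_iff K p m).1 h3)
    have := (Fact.out : p.Prime).pos
    omega

theorem supp_free [Finite G] {p n : ℕ} [Fact p.Prime] [CharP k p] (hA : ∀ q : A, q ^ p ^ n = 1)
    (a : A →* G) {X : Set G} (hX : ∀ x ∈ X, ∀ q, a q * x * (a q)⁻¹ ∈ X)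
    (hp : ∀ x ∈ X, ∀ q, a (q ^ p) * x * (a (q ^ p))⁻¹ = x)
    (hx : ∀ x ∈ X, ∃ q, a q * x * (a q)⁻¹ ≠ x) {d : K[G]} (hd : d ∈ supp K X)
    (h0 : cjE K a (zeta k K A) d = 0) :
    d ∈ (supp K X).map (cjE K a (zeta k K A) ^ (p - 1)) := by
  classical
  induction hn : d.coeff.support.card using Nat.strong_induction_on generalizing d with
  | _ m ih =>
  by_cases h1 : d = 0
  · rw [h1]; exact zero_mem _
  obtain ⟨x₀, hx₀⟩ := exists_coeff_ne_zero h1
  have h2 : x₀ ∈ X := by_contra fun h => hx₀ (hd _ h)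
  set O : Set G := {x | ∃ q, a q * x₀ * (a q)⁻¹ = x}
  have hO : ∀ x ∈ O, ∀ q, a q * x * (a q)⁻¹ ∈ O := by
    rintro _ ⟨r, rfl⟩ q
    exact ⟨q * r, by simp [mul_assoc]⟩
  have h3 : cjE K a (zeta k K A) (trunc O d) = 0 := by rw [cjE_trunc a hO, h0, map_zero]
  have h4 : supp K O ≤ supp K X := fun v hv x hx => hv x (by
    rintro ⟨q, rfl⟩; exact hx (hX _ h2 q))
  have h5 := Submodule.map_mono h4 (orbit_free hA a (hp _ h2) (hx _ h2)
    (fun x hx => coeff_trunc_of_notMem d hx) h3)
  have h6 : ∀ x, (d - trunc O d).coeff x = if x ∈ O then 0 else d.coeff x := fun x => by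
    rw [coeff_sub, Finsupp.sub_apply, coeff_trunc]
    split_ifs <;> simp
  have h7 := ih (d - trunc O d).coeff.support.card (by
    rw [← hn]
    refine Finset.card_lt_card ⟨fun x hx => ?_, fun h => ?_⟩
    · rw [Finsupp.mem_support_iff] at hx ⊢
      rw [h6] at hx
      intro h; simp [h] at hx
    · have := h (Finsupp.mem_support_iff.2 hx₀)
      rw [Finsupp.mem_support_iff, h6, if_pos ⟨1, by simp⟩] at this
      exact this rfl) (d := d - trunc O d) (fun x hx => by rw [h6, hd x hx, ite_self])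
    (by rw [map_sub, h0, h3, sub_zero]) rfl
  have h8 := add_mem h5 h7
  rwa [add_sub_cancel] at h8

end CF.DG
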