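import Cfsg.Agent.Block.GA
import Mathlib.Algebra.MvPolynomial.Basic
import Mathlib.RingTheory.Localization.FractionRing
import Mathlib.Algebra.CharP.Algebra
import Mathlib.Algebra.CharP.Lemmas

/-!
# Substituting unipotent multiples for the variables of a rational function field
-/

namespace CF.DG

open MonoidAlgebra Module

section Aug
variable {K A : Type*} [Field K] [CommGroup A]

/-- The augmentation. -/
noncomputable def augm (K A : Type*) [Field K] [Group A] : K[A] →ₐ[K] K := lift K K A 1

theorem augm_single {A : Type*} [Group A] (a : A) (c : K) : augm K A (single a c) = c := by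
  simp [augm]

theorem pow_eq_augm {p n : ℕ} [Fact p.Prime] [CharP K p] (hA : ∀ a : A, a ^ p ^ n = 1)
    (β : K[A]) : β ^ p ^ n = algebraMap K K[A] (augm K A β ^ p ^ n) := by
  have : CharP K[A] p := charP_of_injective_algebraMap (algebraMap K K[A]).injective p
  induction β using induction_linear with
  | zero => simp [(Fact.out : p.Prime).ne_zero]
  | add a b ha hb => rw [add_pow_char_pow, ha, hb, map_add, add_pow_char_pow, map_add]
  | single a c => rw [single_pow, hA, augm_single]; rfl

theorem isUnit_of_augm {p n : ℕ} [Fact p.Prime] [CharP K p] (hA : ∀ a : A, a ^ p ^ n = 1)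
    {β : K[A]} (h : augm K A β ≠ 0) : IsUnit β := by
  have h1 : IsUnit (β ^ p ^ n) := by
    rw [pow_eq_augm hA]
    exact (IsUnit.mk0 _ (pow_ne_zero _ h)).map _
  exact (isUnit_pow_iff (pow_ne_zero n (Fact.out : p.Prime).ne_zero)).1 h1

theorem isNilpotent_sub_augm {p n : ℕ} [Fact p.Prime] [CharP K p] (hA : ∀ a : A, a ^ p ^ n = 1)
    (β : K[A]) : IsNilpotent (β - algebraMap K K[A] (augm K A β)) :=
  ⟨p ^ n, by
    rw [pow_eq_augm hA, map_sub, AlgHom.commutes]
    simp [(Fact.out : p.Prime).ne_zero]⟩

end Aug

variable {k ι K : Type*} [Field k] [Field K] [Algebra (MvPolynomial ι k) K]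
  [IsFractionRing (MvPolynomial ι k) K] [Algebra k K] [IsScalarTower k (MvPolynomial ι k) K]

variable (k K) in
/-- The variables of the rational function field. -/
noncomputable def tv (q : ι) : K := algebraMap (MvPolynomial ι k) K (MvPolynomial.X q)

theorem ringHom_ext_tv {R : Type*} [Semiring R] {f g : K →+* R}
    (h1 : ∀ c : k, f (algebraMap k K c) = g (algebraMap k K c))
    (h2 : ∀ q : ι, f (tv k K q) = g (tv k K q)) : f = g := by
  refine IsLocalization.ringHom_ext (nonZeroDivisors (MvPolynomial ι k)) ?_
  refine MvPolynomial.ringHom_ext (fun c => ?_) h2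
  have := h1 c
  rwa [IsScalarTower.algebraMap_apply k (MvPolynomial ι k) K] at this

variable {A : Type*} [CommGroup A]

variable (k) in
/-- `τ` multiplies the variable `t q` by the group element `r q`. -/
structure Subst (r : ι → A) (τ : K →+* K[A]) : Prop where
  tv : ∀ q, τ (tv k K q) = single (r q) (tv k K q)
  const : ∀ c : k, τ (algebraMap k K c) = single 1 (algebraMap k K c)
  aug : ∀ c, augm K A (τ c) = c

theorem exists_subst {p n : ℕ} [Fact p.Prime] [CharP K p] (hA : ∀ a : A, a ^ p ^ n = 1)
    (r : ι → A) : ∃ τ : K →+* K[A], Subst k r τ := by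
  let τ₀ : MvPolynomial ι k →+* K[A] := MvPolynomial.eval₂Hom
    ((algebraMap K K[A]).comp (algebraMap k K)) fun q => single (r q) (tv k K q)
  have h1 : ∀ f, augm K A (τ₀ f) = algebraMap _ K f := fun f =>
    DFunLike.congr_fun (MvPolynomial.ringHom_ext (f := (augm K A : K[A] →+* K).comp τ₀)
      (g := algebraMap _ K) (fun c => by
        simp [τ₀, IsScalarTower.algebraMap_apply k (MvPolynomial ι k) K, augm_single])
      fun q => by simp [τ₀, augm_single, tv]) f
  have h2 : ∀ f : nonZeroDivisors (MvPolynomial ι k), IsUnit (τ₀ f) := fun f =>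
    isUnit_of_augm hA (by
      rw [h1]; exact IsFractionRing.to_map_ne_zero_of_mem_nonZeroDivisors f.2)
  have h3 : ∀ q, IsLocalization.lift (S := K) h2 (tv k K q) = single (r q) (tv k K q) :=
    fun q => by rw [tv, IsLocalization.lift_eq]; simp [τ₀, tv]
  have h4 : ∀ c : k, IsLocalization.lift (S := K) h2 (algebraMap k K c) =
      single 1 (algebraMap k K c) := fun c => by
    rw [IsScalarTower.algebraMap_apply k (MvPolynomial ι k) K, IsLocalization.lift_eq]
    simp [τ₀, IsScalarTower.algebraMap_apply k (MvPolynomial ι k) K]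
  refine ⟨IsLocalization.lift h2, h3, h4, fun c => ?_⟩
  exact DFunLike.congr_fun (ringHom_ext_tv (k := k) (ι := ι)
    (f := (augm K A : K[A] →+* K).comp (IsLocalization.lift h2)) (g := RingHom.id K)
    (fun c => by simp [h4, augm_single]) fun q => by simp [h3, augm_single]) c

/-- The extension of a substitution to the group algebra. -/
noncomputable def hat (τ : K →+* K[A]) : K[A] →+* K[A] :=
  liftNCRingHom τ (of K A) fun _ _ => Commute.all _ _

omit [Algebra (MvPolynomial ι k) K] [IsFractionRing (MvPolynomial ι k) K] in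
theorem hat_single (τ : K →+* K[A]) (a : A) (c : K) :
    hat τ (single a c) = τ c * single a 1 := liftNCRingHom_single _ _ _ _ _

theorem Subst.hat_apply {r : ι → A} {τ τ' : K →+* K[A]} (h : Subst k r τ)
    (h' : Subst k (fun q => (r q)⁻¹) τ') (c : K) : hat τ' (τ c) = single 1 c :=
  DFunLike.congr_fun (ringHom_ext_tv (k := k) (ι := ι) (f := (hat τ').comp τ)
    (g := algebraMap K K[A]) (fun c => by
      simp [h.const, hat_single, h'.const, single_mul_single])
    fun q => by simp [h.tv, hat_single, h'.tv, single_mul_single]) c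

variable {G : Type*} [Group G] [Fintype G]

variable (K) in
/-- Extension of scalars on the group algebra. -/
noncomputable def xt : k[G] →+* K[G] := mapRingHom G (algebraMap k K)

omit [Fintype G] in
@[simp] theorem coeff_xt (w : k[G]) (g : G) : (xt K w).coeff g = algebraMap k K (w.coeff g) :=
  coeff_mapRingHom _ _ _

omit [Fintype G] in
@[simp] theorem xt_single (g : G) (c : k) : xt K (single g c) = single g (algebraMap k K c) :=
  mapRingHom_single _ _ _

variable (k) in
/-- Operators defined over the small field. -/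
def Rat (π : End K K[G]) : Prop := ∀ w : k[G], ∃ w' : k[G], π (xt K w) = xt K w'

/-- The semilinear operator attached to a substitution. -/
noncomputable def Top (ϱ : K[A] →ₐ[K] End K K[G]) (τ : K →+* K[A]) : K[G] →+ K[G] where
  toFun d := ∑ g, ϱ (τ (d.coeff g)) (single g 1)
  map_zero' := by simp
  map_add' a b := by simp [Finset.sum_add_distrib]

variable {ϱ : K[A] →ₐ[K] End K K[G]} {r : ι → A} {τ τ' : K →+* K[A]}

omit [IsFractionRing (MvPolynomial ι k) K] [IsScalarTower k (MvPolynomial ι k) K] in
theorem Subst.top_smul (h : Subst k r τ) (c : K) (w : k[G]) :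
    Top ϱ τ (c • xt K w) = ϱ (τ c) (xt K w) := by
  conv_rhs => rw [Block.eq_sum_single (xt K w), map_sum]
  refine Finset.sum_congr rfl fun g _ => ?_
  rw [coeff_smul, Finsupp.smul_apply, smul_eq_mul, coeff_xt, map_mul, h.const, map_mul,
    End.mul_apply, show single 1 (algebraMap k K (w.coeff g)) =
      algebraMap K K[A] (algebraMap k K (w.coeff g)) from rfl, AlgHom.commutes,
    algebraMap_end_apply, smul_single, smul_eq_mul, mul_one]

omit [Fintype G] in
@[elab_as_elim] theorem induction_xt {P : K[G] → Prop} (h0 : P 0) (h1 : ∀ a b, P a → P b → P (a + b))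
    (h2 : ∀ (c : K) (w : k[G]), P (c • xt K w)) (d : K[G]) : P d := by
  induction d using induction_linear with
  | zero => exact h0
  | add a b ha hb => exact h1 a b ha hb
  | single g c => simpa using h2 c (single g 1)

omit [IsFractionRing (MvPolynomial ι k) K] [IsScalarTower k (MvPolynomial ι k) K] in
theorem Subst.top_comm (h : Subst k r τ) {π : End K K[G]} (h1 : Rat k π)
    (h2 : ∀ β, Commute π (ϱ β)) (d : K[G]) : Top ϱ τ (π d) = π (Top ϱ τ d) := by
  refine induction_xt (k := k) (by simp) (fun a b ha hb => by simp only [map_add, ha, hb])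
    (fun c w => ?_) d
  · obtain ⟨w', hw⟩ := h1 w
    rw [LinearMap.map_smul, hw, h.top_smul, h.top_smul, ← hw, ← End.mul_apply, ← End.mul_apply,
      (h2 _).eq]

omit [IsFractionRing (MvPolynomial ι k) K] [IsScalarTower k (MvPolynomial ι k) K] in
theorem Subst.top_apply (h : Subst k r τ) (h1 : ∀ a, Rat k (ϱ (single a 1))) (β : K[A])
    (d : K[G]) : Top ϱ τ (ϱ β d) = ϱ (hat τ β) (Top ϱ τ d) := by
  induction β using induction_linear with
  | zero => simp
  | add a b ha hb => simp only [map_add, LinearMap.add_apply, ha, hb]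
  | single a c =>
    refine induction_xt (k := k) (by simp) (fun a b ha hb => by simp only [map_add, ha, hb])
      (fun c' w => ?_) d
    · obtain ⟨w', hw⟩ := h1 a w
      rw [show single a c = c • single a (1 : K) by simp, map_smul ϱ, LinearMap.smul_apply,
        LinearMap.map_smul, hw, smul_smul, h.top_smul, h.top_smul, ← hw, smul_single, smul_eq_mul, mul_one,
        hat_single, ← End.mul_apply, ← End.mul_apply, ← map_mul, ← map_mul, map_mul τ,
        mul_right_comm]

theorem Subst.top_top (h : Subst k r τ) (h' : Subst k (fun q => (r q)⁻¹) τ')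
    (h1 : ∀ a, Rat k (ϱ (single a 1))) (d : K[G]) : Top ϱ τ' (Top ϱ τ d) = d := by
  refine induction_xt (k := k) (by simp) (fun a b ha hb => by simp only [map_add, ha, hb])
    (fun c w => ?_) d
  · have h2 := h'.top_smul (ϱ := ϱ) 1 w
    rw [one_smul, map_one, map_one, End.one_apply] at h2
    rw [h.top_smul, h'.top_apply h1, h.hat_apply h', h2,
      show single 1 c = algebraMap K K[A] c from rfl, AlgHom.commutes, algebraMap_end_apply]

end CF.DG
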