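import Cfsg.Agent.DG.Core3
import Cfsg.Agent.Block.PSolv
import Cfsg.Agent.Clifford.Extend
import Mathlib.RingTheory.SimpleModule.IsAlgClosed
import Mathlib.RepresentationTheory.Maschke

/-!
# Points of blocks of groups of invertible order, and extensions coming from characters
-/

namespace CF.DG

open Cfsg MonoidAlgebra Module CF.Block Subgroup CF.Clifford
open CF.BlockB (v O k resC nrm omega eSet ev)

section Point
variable {k G : Type*} [Field k] [Group G]

theorem exists_pt_aux [IsAlgClosed k] {R : Type*} [Ring R] [Algebra k R] [Module.Finite k R]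
    [IsSemisimpleRing R] {e : R} (he : IsPrim (Subalgebra.center k R) e) :
    ∃ j : R, j * j = j ∧ j ≠ 0 ∧ e * j = j ∧ (∀ a, ∃ c : k, j * a * j = c • j) ∧
      ∃ (n : ℕ) (α β : Fin n → R), ∑ b, α b * j * β b = e := by
  classical
  obtain ⟨n, d, hd, ⟨φ⟩⟩ := IsSemisimpleRing.exists_algEquiv_pi_matrix_of_isAlgClosed k R
  have h1 : ∃ i, φ.symm (Pi.single i 1) * e ≠ 0 := by
    by_contra h
    push Not at h
    apply he.ne
    rw [← one_mul e, ← map_one φ.symm, ← Finset.univ_sum_single 1, map_sum, Finset.sum_mul]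
    exact Finset.sum_eq_zero fun i _ => h i
  obtain ⟨i, hi⟩ := h1
  have h2 := he.mul_eq_of_ne (f := φ.symm (Pi.single i 1)) (Subalgebra.mem_center_iff.2 fun b => by
    apply φ.injective
    rw [map_mul, map_mul, φ.apply_symm_apply, ← Pi.single_mul_right, ← Pi.single_mul_left,
      one_mul, mul_one]) (by rw [← map_mul, ← Pi.single_mul, one_mul]) hi
  have h3 : φ e = Pi.single i (φ e i) := by
    conv_lhs => rw [← h2, map_mul, φ.apply_symm_apply, ← Pi.single_mul_left, one_mul]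
  obtain ⟨c, hc⟩ := Matrix.mem_range_scalar_of_commute_single (M := φ e i) fun a b _ => by
    have := congrArg (fun x => φ x i)
      (Subalgebra.mem_center_iff.1 he.mem (φ.symm (Pi.single i (Matrix.single a b 1))))
    simpa [Commute, SemiconjBy] using this
  have h4 : φ e = Pi.single i 1 := by
    have h5 : φ e i * φ e i = φ e i := by rw [← Pi.mul_apply, ← map_mul, he.idem]
    rw [← hc, ← map_mul] at h5
    have h7 : c ≠ 0 := by
      rintro rfl
      exact he.ne (φ.injective (by rw [h3, ← hc, map_zero, map_zero, Pi.single_zero]))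
    rw [h3, ← hc, (mul_eq_left₀ h7).1 (Matrix.scalar_inj.1 h5), map_one]
  refine ⟨φ.symm (Pi.single i (Matrix.single 0 0 1)), ?_, fun h => ?_, φ.injective ?_, fun a => ?_,
    d i, fun b => φ.symm (Pi.single i (Matrix.single b 0 1)),
    fun b => φ.symm (Pi.single i (Matrix.single 0 b 1)), φ.injective ?_⟩
  · rw [← map_mul, ← Pi.single_mul, Matrix.single_mul_single_same, one_mul]
  · have := congrArg (fun x => φ x i 0 0) h
    simp at this
  · rw [map_mul, h4, φ.apply_symm_apply, ← Pi.single_mul, one_mul]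
  · refine ⟨φ a i 0 0, φ.injective ?_⟩
    rw [map_mul, map_mul, map_smul, φ.apply_symm_apply, ← Pi.single_mul_left, ← Pi.single_mul,
      Matrix.single_mul_mul_single, ← Pi.single_smul, Matrix.smul_single]
    simp
  · simp only [map_sum, map_mul, φ.apply_symm_apply, ← Pi.single_mul, h4,
      Matrix.single_mul_single_same, one_mul]
    rw [← Matrix.sum_single_one]
    exact (map_sum (AddMonoidHom.single (fun i => Matrix (Fin (d i)) (Fin (d i)) k) i) _ _).symm

theorem exists_pt [Finite G] [IsAlgClosed k] {N : Subgroup G} {e : k[G]} (he : IsBlk N e)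
    (hN : (Nat.card N : k) ≠ 0) : ∃ j, Pt N e j := by
  have : NeZero (Nat.card N : k) := ⟨hN⟩
  have hs : ∀ a : k[N], gmap N.subtype a ∈ sub k N := fun a => by
    simpa only [map_top_subtype] using gmap_mem_sub N.subtype (mem_sub_top a)
  have hs' : ∀ a ∈ sub k N, ∃ b, gmap N.subtype b = a := fun a ha =>
    exists_gmap_eq N.subtype_injective (by rwa [N.range_subtype])
  obtain ⟨e₀, rfl⟩ := hs' e (mem_Zc.1 he.mem).1
  have h0 := (isBlk_gmap N.subtype_injective (K := ⊤)).1 (by rwa [map_top_subtype])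
  have h1 : Zc k (⊤ : Subgroup N) = Subalgebra.center k k[N] :=
    SetLike.ext fun a => mem_Zc_top.trans mem_fix_top_iff
  obtain ⟨j, h2, h3, h4, h5, n, α, β, h6⟩ := exists_pt_aux (k := k) (e := e₀) (by rw [← h1]; exact h0)
  refine ⟨gmap N.subtype j, hs j, by rw [← map_mul, h2],
    fun h => h3 (gmap_injective N.subtype_injective (by rw [h, map_zero])), by rw [← map_mul, h4],
    fun a ha => ?_, n, _, _, fun b => hs (α b), fun b => hs (β b), by simp [← h6]⟩
  obtain ⟨a, rfl⟩ := hs' a ha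
  obtain ⟨c, hc⟩ := h5 a
  exact ⟨c, by rw [← map_mul, ← map_mul, hc, map_smul]⟩

theorem Pt.scalar {N : Subgroup G} {e j x : k[G]} (h : Pt N e j) (hx : x ∈ Block.sub k N)
    (h1 : x * e = x) (h2 : ∀ a ∈ Block.sub k N, x * a = a * x) : ∃ c : k, x = c • e := by
  obtain ⟨c, hc⟩ := h.loc x hx
  obtain ⟨n, α, β, hα, -, h3⟩ := h.gen
  refine ⟨c, ?_⟩
  rw [← h1, ← h3, Finset.mul_sum, Finset.smul_sum]
  refine Finset.sum_congr rfl fun b _ => ?_
  rw [← h2 j h.sub, mul_assoc, h.idem] at hc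
  rw [← mul_assoc, ← mul_assoc, h2 _ (hα b), mul_assoc _ x, hc, mul_smul_comm, smul_mul_assoc]

theorem Pt.e_ne {N : Subgroup G} {e j : k[G]} (h : Pt N e j) : e ≠ 0 := fun h0 =>
  h.ne (by rw [← h.mul, h0, zero_mul])

variable {Γ : Type*} [Group Γ] {N : Subgroup G} {e j : k[G]} {π : Γ →* G} {s : Γ → k[G]}

/-- An element inducing an inner automorphism is sent to a multiple of the group element. -/
theorem Ext.exists_smul [Finite G] (h : Ext N e π s) (hj : Pt N e j) {γ : Γ} {n : G} (hn : n ∈ N)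
    (hc : ∀ a ∈ Block.sub k N, cj (π γ) a = cj n a) : ∃ c : k, c ≠ 0 ∧ s γ = c • (single n 1 * e) := by
  obtain ⟨c, h1⟩ := hj.scalar (x := single n⁻¹ 1 * s γ)
    (mul_mem (single_mem_sub (inv_mem hn) 1) (h.sub γ)) (by rw [mul_assoc, h.mul_e])
    fun a ha => by
      rw [mul_assoc, h.conj γ a ha, hc a ha, ← mul_assoc, ← mul_assoc, ← cj_mul_single, cj_inv_cj]
  have h2 : s γ = c • (single n 1 * e) := by
    rw [← mul_smul_comm, ← h1, ← mul_assoc, single_mul_single, mul_inv_cancel, mul_one,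
      ← one_def, one_mul]
  refine ⟨c, fun h0 => hj.e_ne ?_, h2⟩
  rw [← h.one, ← mul_inv_cancel γ, h.mul, h2, h0, zero_smul, zero_mul]

theorem Ext.pow (h : Ext N e π s) (γ : Γ) (n : ℕ) : s (γ ^ (n + 1)) = s γ ^ (n + 1) := by
  induction n with
  | zero => simp
  | succ n ih => rw [pow_succ, h.mul, ih, ← pow_succ]

theorem Ext.eq_e [Finite G] {p : ℕ} [Fact p.Prime] [CharP k p] (h : Ext N e π s) (hj : Pt N e j)
    {γ : Γ} (hc : π γ ∈ centralizer (N : Set G)) {n : ℕ} (hn : γ ^ p ^ n = 1) : s γ = e := by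
  obtain ⟨c, -, h1⟩ := h.exists_smul hj N.one_mem (γ := γ) fun a ha => by
    rw [cj_one]
    exact mem_fix.1 (mem_fix_of_mem_sub_centralizer (H := centralizer (N : Set G))
      (sub_mono (le_centralizer_iff.1 le_rfl) ha)) _ hc
  rw [← one_def, one_mul] at h1
  obtain ⟨m, hm⟩ := Nat.exists_eq_succ_of_ne_zero (pow_ne_zero n (Fact.out : p.Prime).ne_zero)
  have h2 := h.pow γ m
  rw [← Nat.succ_eq_add_one, ← hm, hn, h.one, h1, smul_pow, hm, idem_pow_succ h.idem, ← hm] at h2
  have h3 : c ^ p ^ n = 1 := smul_left_injective k hj.e_ne (h2.symm.trans (one_smul k e).symm)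
  have h4 : (c - 1) ^ p ^ n = 0 := by rw [sub_pow_char_pow, h3, one_pow, sub_self]
  rw [h1, sub_eq_zero.1 (pow_eq_zero_iff (hm ▸ m.succ_ne_zero) |>.1 h4), one_smul]

theorem Ext.smul (h : Ext N e π s) (c : Γ →* k) : Ext N e π fun γ => c γ • s γ where
  norm := h.norm
  sub γ := Subalgebra.smul_mem _ (h.sub γ) _
  mul γ δ := by rw [map_mul, h.mul, smul_mul_smul_comm]
  one := by rw [map_one, one_smul, h.one]
  conj γ a ha := by rw [smul_mul_assoc, h.conj γ a ha, mul_smul_comm]

theorem Ext.descend {Δ : Type*} [Group Δ] {f : Δ →* Γ} (hf : Function.Surjective f)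
    {s : Δ → k[G]} (h : Ext N e (π.comp f) s) (h1 : ∀ δ, f δ = 1 → s δ = e) :
    ∃ u, Ext N e π u ∧ ∀ δ, u (f δ) = s δ := by
  choose r hr using hf
  have h2 : ∀ δ, s (r (f δ)) = s δ := fun δ => by
    rw [← mul_inv_cancel_left δ (r (f δ)), h.mul, h1 (δ⁻¹ * _) (by simp [hr]), h.mul_e]
  refine ⟨fun γ => s (r γ), ⟨fun γ => hr γ ▸ h.norm (r γ), fun γ => h.sub _, fun γ δ => ?_, ?_,
    fun γ a ha => ?_⟩, h2⟩
  · rw [← h.mul, ← h2 (r γ * r δ), map_mul, hr, hr]
  · rw [h1 _ (hr 1)]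
  · rw [h.conj _ a ha, MonoidHom.comp_apply, hr]

end Point

section Char
variable {N Γ : Type*} [Group N] [Group Γ] [Finite N]

theorem exists_asAlgebraHom_eq {V : Type*} [AddCommGroup V] [Module ℂ V] [FiniteDimensional ℂ V]
    (ρ : Representation ℂ N V) [ρ.IsIrreducible] (g : End ℂ V) :
    ∃ a : ℂ[N], ρ.asAlgebraHom a = g := by
  have : NeZero (Nat.card N : ℂ) := ⟨Char.card_ne_zero_complex⟩
  let f : End (End ℂ[N] ρ.asModule) ρ.asModule :=
    { toFun := g
      map_add' := g.map_add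
      map_smul' := fun d x => by
        obtain ⟨c, hc⟩ := exists_scalar_of_commute ρ (d.restrictScalars ℂ) fun y => by
          ext w
          have := d.map_smul (single y 1) (ρ.asModuleEquiv.symm w)
          simp only [Representation.single_smul, one_smul] at this
          exact this
        have h1 : ∀ y : V, d y = c • y := fun y => congrArg (fun f : End ℂ V => f y) hc
        exact (congrArg g (h1 x)).trans ((g.map_smul c x).trans (h1 (g x)).symm) }
  obtain ⟨s, hs⟩ := Module.Finite.fg_top (R := ℂ) (M := V)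
  obtain ⟨r, hr⟩ := jacobson_density f (show Finset ρ.asModule from s)
  exact ⟨r, LinearMap.ext_on hs fun x hx => (hr x hx).symm⟩

/-- The element of `ℂ N e_θ` acting as `γ` on a representation affording `η`. -/
noncomputable def sC (ι : N →* Γ) (η : Γ → ℂ) (γ : Γ) : ℂ[N] :=
  ofFun fun n => (Nat.card N : ℂ)⁻¹ * (η 1 * η (γ * (ι n)⁻¹))

theorem sC_spec {ι : N →* Γ} {η : Γ → ℂ} (hη : IsCharacter Γ η) {θ : IrrCharacter N}
    (h : ∀ n, η (ι n) = (θ : N → ℂ) n) :
    (∀ γ δ, sC ι η (γ * δ) = sC ι η γ * sC ι η δ) ∧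
      ∀ n, sC ι η (ι n) = single n 1 * eSet {θ} := by
  classical
  obtain ⟨d, σ, rfl⟩ := hη
  let ρ : Representation ℂ N (Fin d → ℂ) := σ.comp ι
  have hρ : ρ.character = θ := funext h
  have := Char.isIrreducible_of_irr ρ (hρ ▸ θ.2)
  have key : ∀ γ a, ρ.asAlgebraHom a = σ γ → sC ι σ.character γ = eSet {θ} * a := fun γ a ha => by
    refine ga_ext fun n => ?_
    have h1 := BlockB.coeff_one_eq_sum (eSet {θ} * (a * single n⁻¹ 1))
    rw [Finset.sum_eq_single θ (fun χ _ hχ => by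
      rw [BlockB.ev_eSet_mul_of_notMem (by simpa using hχ), mul_zero]) (by simp),
      BlockB.ev_eSet_mul_of_mem (by simp), ← mul_assoc, coeff_mul_single_apply, ← hρ,
      BlockB.ev_character, map_mul ρ.asAlgebraHom, ha, Representation.asAlgebraHom_single_one] at h1
    simp only [inv_inv, one_mul, mul_one] at h1
    rw [h1, sC, coeff_ofFun]
    simp [ρ, Representation.character]
  have hc : ∀ a : ℂ[N], a * eSet {θ} = eSet {θ} * a := BlockB.Z_comm (BlockB.eSet_mem_Z _)
  refine ⟨fun γ δ => ?_, fun n => by rw [key _ (single n 1) (by simp [ρ]), hc]⟩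
  obtain ⟨a, ha⟩ := exists_asAlgebraHom_eq ρ (σ γ)
  obtain ⟨b, hb⟩ := exists_asAlgebraHom_eq ρ (σ δ)
  rw [key γ a ha, key δ b hb, key _ (a * b) (by rw [map_mul, map_mul, ha, hb]), mul_assoc,
    ← mul_assoc a, hc, mul_assoc, ← mul_assoc (eSet _) (eSet _), BlockB.eSet_mul_self]

variable {p : ℕ} {M : Ideal AlgInt} {G : Type*} [Group G] [Finite G]

theorem nrm_sC [Finite Γ] (hM : IsPModular p M) (hp : ¬ p ∣ Nat.card N) (ι : N →* Γ) {η : Γ → ℂ}
    (hη : IsCharacter Γ η) (γ : Γ) : nrm M (sC ι η γ) ≤ 1 :=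
  BlockB.nrm_le_iff.2 fun n => by
    rw [sC, coeff_ofFun, map_mul, map_inv₀, (BlockB.v_natCast_eq_one_iff hM _).2 hp, inv_one,
      one_mul]
    exact BlockB.v_le_one_of_isIntegral M
      ((Char.char_isIntegral hη _).mul (Char.char_isIntegral hη _))

/-- An extension of a character gives an extension of the corresponding factor. -/
theorem exists_ext_of_char [Finite Γ] (hM : IsPModular p M) (hp : ¬ p ∣ Nat.card N)
    (E : NormalEmb N Γ) {η : Γ → ℂ} (hη : IsCharacter Γ η) {θ : IrrCharacter N}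
    (h : ∀ n, η (E.ι n) = (θ : N → ℂ) n) {j : N →* G} {π : Γ →* G} (hπ : ∀ n, π (E.ι n) = j n) :
    ∃ s, Ext j.range (gmap j (eb M {θ})) π s ∧
      (∀ n, s (E.ι n) = single (j n) 1 * gmap j (eb M {θ})) ∧
      ∀ z (c : ℂ), v M c ≤ 1 → (∀ x, η (z * x) = c * η x) →
        s z = resC M c • gmap j (eb M {θ}) := by
  obtain ⟨h1, h2⟩ := sC_spec hη h
  have h3 := nrm_sC hM hp E.ι hη
  have h4 := BlockB.nrm_eSet_le_one hM (isPBlock_singleton_of_not_dvd hM hp θ)
  have h5 : ∀ γ δ, gmap j (red M (sC E.ι η (γ * δ))) =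
      gmap j (red M (sC E.ι η γ)) * gmap j (red M (sC E.ι η δ)) := fun γ δ => by
    rw [h1, red_mul (h3 _) (h3 _), map_mul]
  have h6 : ∀ n, gmap j (red M (sC E.ι η (E.ι n))) = single (j n) 1 * gmap j (eb M {θ}) :=
    fun n => by
      rw [h2, red_mul (by simp [BlockB.nrm_single]) h4, red_single, map_mul, gmap_single,
        BlockB.resC_one, eb]
  have h7 : gmap j (red M (sC E.ι η 1)) = gmap j (eb M {θ}) := by
    simpa [← one_def] using h6 1
  have h8 : ∀ a : (k M)[N], gmap j a ∈ Block.sub (k M) j.range := fun a => by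
    simpa only [← MonoidHom.range_eq_map] using gmap_mem_sub j (mem_sub_top a)
  have h9 : ∀ γ n, π γ * j n * (π γ)⁻¹ = j (E.c γ n) := fun γ n => by
    rw [← hπ, ← hπ, E.ι_c, map_mul, map_mul, map_inv]
  refine ⟨fun γ => gmap j (red M (sC E.ι η γ)), ⟨fun γ => ?_, fun γ => h8 _, h5, h7,
    fun γ a ha => ?_⟩, h6, fun z c hc hz => ?_⟩
  · refine mem_normalizer_fintype ?_
    rintro _ ⟨n, rfl⟩
    exact ⟨_, (h9 γ n).symm⟩
  · refine sub_induction (P := fun a => gmap j (red M (sC E.ι η γ)) * a =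
      cj (π γ) a * gmap j (red M (sC E.ι η γ))) (by simp)
      (fun a b ha hb => by rw [mul_add, map_add, add_mul, ha, hb]) ?_ ha
    rintro c _ ⟨n, rfl⟩
    have h10 : gmap j (eb M {θ}) * single (j n) 1 = single (j n) 1 * gmap j (eb M {θ}) := by
      rw [← gmap_single j n, ← map_mul, ← map_mul, Zc_comm (eb_mem_Zc _) (mem_sub_top _)]
    have h11 := h5 γ 1
    have h12 := h5 1 γ
    rw [h7, mul_one] at h11
    rw [h7, one_mul] at h12
    have h13 := h5 γ (E.ι n)
    have h14 := h5 (E.ι (E.c γ n)) γ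
    rw [h6, ← h10, ← mul_assoc, ← h11] at h13
    rw [h6, mul_assoc, ← h12, E.ι_c, inv_mul_cancel_right] at h14
    rw [mul_smul_comm, map_smul, smul_mul_assoc, cj_single, h9, ← h13, h14]
  · have h10 : sC E.ι η z = c • sC E.ι η 1 := ga_ext fun n => by
      simp only [sC, coeff_ofFun, BlockB.coeff_smul_mul, hz, one_mul]
      ring
    rw [← h7, ← map_smul, ← red_smul hc (h3 _), ← h10]

end Char

end CF.DG
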