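import Cfsg.Agent.DG.Main

/-!
# Extending invariant characters through the Dade-Glauberman correspondence
-/

namespace CF.DG

open Cfsg MonoidAlgebra CF.Block Subgroup CF.Clifford CF.Char Function
open CF.BlockB (v k resC)

universe u

variable {p : ℕ} {M : Ideal AlgInt}

theorem ext_of_sides {N Δ T Q Z N' Δ' T' : Type*} [Group N] [Group Δ] [Group T] [Group Q] [Group Z]
    [Group N'] [Group Δ'] [Group T'] [Finite Δ] [Finite Δ'] [Finite Z] {F : NormalEmb N Δ}
    {a : Δ →* T} {b : Δ →* Q} {i : Z →* Δ}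
    {θ : N → ℂ} {η : Δ → ℂ} {lam : Z →* ℂˣ} (S : Side p F a b i θ η lam) {F' : NormalEmb N' Δ'}
    {a' : Δ' →* T'} {b' : Δ' →* Q} {i' : Z →* Δ'} {θ' : N' → ℂ} {η' : Δ' → ℂ}
    (S' : Side p F' a' b' i' θ' η' lam) (h : b'.comp i' = b.comp i) {ψ : T' → ℂ}
    (hψ : IsIrrCharacter T' ψ) (e : ∀ n, ψ (a' (F'.ι n)) = θ' n) :
    ∃ χ, IsIrrCharacter T χ ∧ ∀ n, χ (a (F.ι n)) = θ n := by
  have := Finite.of_injective _ F'.inj
  have := Fintype.ofFinite N'
  obtain ⟨f, -, -, h3⟩ := S.exists_fun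
  obtain ⟨g, -, h5, h6⟩ := h ▸ S'.exists_fun
  obtain ⟨β, hβ⟩ : (⟨ψ, hψ⟩ : IrrCharacter T') ∈ Set.range g := h5 ▸ ov_iff.2 (by
    rw [show (fun n => ψ ((a'.comp F'.ι) n)) = θ' from funext e, inner_irr_self S'.irr]
    exact one_ne_zero)
  have h1 := h6 β (F'.ι 1)
  rw [hβ, S'.ext, (S'.kb.ge ⟨1, rfl⟩ : b' _ = 1)] at h1
  refine ⟨f β, (f β).2, fun n => ?_⟩
  rw [h3, S.ext, (S.kb.ge ⟨n, rfl⟩ : b _ = 1), (mul_left_inj' (irr_one_ne_zero S'.irr)).1
    (h1.symm.trans ((e 1).trans (one_mul _).symm)), one_mul]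

theorem ext_inv {G : Type u} {H : Type*} [Group G] [Group H] [Finite G] [Finite H]
    (hM : IsPModular p M) {N : Subgroup G} [N.Normal] (hN : ¬ p ∣ Nat.card N) {θ : IrrCharacter N}
    (hθ : (NormalEmb.sub N).Invariant (θ : N → ℂ)) {P : Subgroup G} (hP : IsPGroup p P)
    (hab : ∀ x ∈ P, ∀ y ∈ P, x * y = y * x) {j : H →* G} (hj : Injective j)
    (hr : j.range = normalizer (P : Set G)) (hs' : ∀ g, ∃ h, ∃ n ∈ N, g = j h * n)
    (ih : ∀ φ, IsIrrCharacter (N.comap j) φ → (NormalEmb.sub (N.comap j)).Invariant φ →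
      ∃ ψ, IsIrrCharacter H ψ ∧ ∀ n : N.comap j, ψ n = φ n) :
    ∃ χ, IsIrrCharacter G χ ∧ ∀ n : N, χ n = (θ : N → ℂ) n := by
  have := Fact.mk hM.1
  have := BlockB.charP_k hM
  obtain ⟨Γ, _, _, E, π, η, lam, m, L, a, ha, hlam⟩ :=
    exists_lift hM.1 hN (NormalEmb.sub N) θ.2 hθ
  have hz : ∀ z : π.ker, z ^ a = 1 := fun z =>
    L.inj (Units.ext (by rw [map_pow, map_one, Units.val_pow_eq_pow_val, hlam, Units.val_one]))
  have hZ : ¬ p ∣ Nat.card π.ker := fun h => by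
    obtain ⟨z, h1⟩ := exists_prime_orderOf_dvd_card' p h
    exact ha (h1 ▸ orderOf_dvd_of_pow_eq_one (hz z))
  have S : Side p E π (QuotientGroup.mk' E.ι.range) π.ker.subtype θ η lam :=
    ⟨L.surj, QuotientGroup.mk'_surjective _, QuotientGroup.ker_mk' _, (range_subtype _).symm,
      fun z => L.central z.2, θ.2, irr_isCharacter L.irr, L.ext,
      fun z => by simpa using L.scalar z 1, hN, hZ⟩
  have hN' : ¬ p ∣ Nat.card (N.comap j) := fun h =>
    hN (h.trans (card_comap_dvd_of_injective N j hj))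
  let Δ := j.range.comap π
  let a' : Δ →* H := (MonoidHom.ofInjective hj).symm.toMonoidHom.comp (π.subgroupComap j.range)
  have ha' : ∀ x, j (a' x) = π x := fun x => MonoidHom.apply_ofInjective_symm hj _
  let F : NormalEmb (N.comap j) Δ :=
    { ι := (E.ι.comp (j.subgroupComap N)).codRestrict Δ fun c =>
        ⟨c, (L.π_ι (j.subgroupComap N c)).symm⟩
      c := (NormalEmb.sub (N.comap j)).c.comp a'
      inj := fun c d h => Subtype.ext (hj (congrArg Subtype.val (E.inj (congrArg Subtype.val h))))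
      ι_c := fun g c => Subtype.ext (by
        refine Eq.trans (congrArg E.ι ?_) (E.ι_c g (j.subgroupComap N c))
        rw [(NormalEmb.sub N).c_eq_of_comp E π L.π_ι]
        refine Subtype.ext ?_
        change j (a' g * c * (a' g)⁻¹) = π g * j c * (π g)⁻¹
        rw [map_mul, map_mul, map_inv, ha']) }
  have hF : ∀ c, π (F.ι c) = j c := fun c => L.π_ι (j.subgroupComap N c)
  let i : π.ker →* Δ := inclusion (ker_le_comap π _)
  have hi : ∀ z, i z ∈ center Δ := fun z => mem_center_iff.2 fun g =>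
    Subtype.ext (mem_center_iff.1 (L.central z.2) g)
  obtain ⟨s, hs, h1, h2⟩ := exists_ext_of_char hM hN E S.char L.ext (j := N.subtype) L.π_ι
  rw [N.range_subtype] at hs
  have hc : (π.comp Δ.subtype).ker ≤ center Δ := fun z hz => hi ⟨z, hz⟩
  have ho : ∀ z ∈ (π.comp Δ.subtype).ker, ¬ p ∣ orderOf z := fun z hz =>
    Subgroup.orderOf_coe z ▸ S.ord_a z hz
  obtain ⟨A, _, hA, h3⟩ := exists_normal_lift hc ho hP hab (fun g hg => by
    obtain ⟨x, rfl⟩ := L.surj g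
    exact ⟨⟨x, show π x ∈ j.range from hr ▸ le_normalizer hg⟩, rfl⟩) fun γ => hr ▸ γ.2
  have h4 : ∀ γ : Δ, π γ ∈ centralizer (P : Set G) → γ ∈ centralizer (A : Set Δ) :=
    fun γ h q hq => by
      obtain ⟨n, hn⟩ := hA ⟨q, hq⟩
      exact comm_of_pow hM.1 hc ho (congrArg Subtype.val hn) (h _ (h3 ▸ mem_map_of_mem _ hq))
  obtain ⟨u, hu, h5⟩ := dade hM hN (isBlk_ebs hM (isPBlock_singleton_of_not_dvd hM hN θ))
    (hs.comp Δ.subtype) A hA fun x hx y hy => (h4 x (mem_centralizer_iff.2 fun z hz =>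
      hab _ hz _ (h3 ▸ mem_map_of_mem _ hx)) y hy).symm
  have h6 := range_eq_Cz hM.1 hN hP hr
  obtain ⟨φ, hφ⟩ := exists_singleton hM hN' (j := j.comp (N.comap j).subtype)
    (hj.comp (subtype_injective _)) (e := Br P (ebs M N {θ})) (by
      rw [MonoidHom.range_comp, range_subtype, h6]
      exact (isBlk_ebs hM (isPBlock_singleton_of_not_dvd hM hN θ)).isBlk_Br_of_coprime (regSupp hM)
        hP (le_normalizer_of_normal' _ N) (mem_fix.2 fun g _ => by
          obtain ⟨x, rfl⟩ := L.surj g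
          exact hs.cj_e x) hN)
  rw [h3, ← hφ] at hu h5
  have h7 : ∀ c : N.comap j, j c ∈ Cz N P := fun c => h6 ▸ mem_map_of_mem _ c.2
  obtain ⟨ψ, h8, h9, h10⟩ := exists_char_of_ext hM hN' F (j := j.comp (N.comap j).subtype)
    (hj.comp (subtype_injective _)) (π := π.comp Δ.subtype) hF (φ := φ) (u := u)
    (by rwa [MonoidHom.range_comp, range_subtype, h6]) fun c => by
      have := h5 (F.ι c) (h4 _ (hF c ▸ (h7 c).1)) (hF c ▸ h7 c) 1 (by
        rw [one_smul, MonoidHom.comp_apply, subtype_apply, hF]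
        exact h1 _)
      rwa [one_smul, MonoidHom.comp_apply, subtype_apply, hF] at this
  have S' : Side p F a' ((QuotientGroup.mk' E.ι.range).comp Δ.subtype) i φ ψ lam := by
    refine ⟨fun h => ?_, fun q => ?_, Subgroup.ext fun x => ?_, Subgroup.ext fun x => ?_, hi, φ.2,
      irr_isCharacter h8, h9, fun z => ?_, hN', hZ⟩
    · obtain ⟨x, hx⟩ := L.surj (j h)
      exact ⟨⟨x, h, hx.symm⟩, hj ((ha' _).trans hx)⟩
    · obtain ⟨x, rfl⟩ := QuotientGroup.mk'_surjective _ q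
      obtain ⟨h, n, hn, h11⟩ := hs' (π x)
      refine ⟨⟨x * (E.ι ⟨n, hn⟩)⁻¹, h, by simp [L.π_ι, h11]⟩, ?_⟩
      simp
    · rw [MonoidHom.mem_ker, MonoidHom.comp_apply, QuotientGroup.mk'_apply,
        QuotientGroup.eq_one_iff]
      refine ⟨?_, by rintro ⟨c, rfl⟩; exact ⟨_, rfl⟩⟩
      rintro ⟨n, hn⟩
      have h11 : j (a' x) = n := by rw [ha', ← subtype_apply, ← hn, L.π_ι]; rfl
      exact ⟨⟨a' x, show j (a' x) ∈ N from h11 ▸ n.2⟩,
        Subtype.ext ((congrArg E.ι (Subtype.ext h11)).trans hn)⟩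
    · rw [MonoidHom.mem_ker, ← map_eq_one_iff j hj, ha']
      exact ⟨fun h => ⟨⟨x, h⟩, rfl⟩, by rintro ⟨z, rfl⟩; exact z.2⟩
    · have h11 : (π.comp Δ.subtype) (i z) = 1 := z.2
      have h12 : v M (lam z : ℂ) ≤ 1 :=
        (BlockB.v_eq_one_of_pow_eq_one (by rintro rfl; simp at ha) (hlam z)).le
      simpa using h10 (i z) (hi z) (lam z) a ha (by rw [← map_pow, hz, map_one]) (hlam z)
        (by simpa [h11, ← one_def] using h5 (i z) (center_le_centralizer _ (hi z))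
              (h11 ▸ one_mem _) (resC M (lam z))
              (by rw [h11, ← one_def, one_mul]; exact h2 z _ h12 (L.scalar z))) 1
  obtain ⟨ξ, x1, x2⟩ := ih φ φ.2 fun g n => by
    obtain ⟨x, rfl⟩ := S'.ha g
    exact (h9 _).symm.trans ((F.invariant_res (irr_isClassFunction h8) x n).trans (h9 _))
  obtain ⟨χ, y1, y2⟩ := ext_of_sides S S' rfl x1 fun c => by
    rw [← x2, show a' (F.ι c) = c from hj ((ha' _).trans (hF c))]
  exact ⟨χ, y1, fun n => by rw [← y2, L.π_ι]; rfl⟩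

end CF.DG
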