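import Cfsg.Agent.DG.Xt
import Cfsg.Agent.Fgs2.Isa13
import Cfsg.Agent.BG.Sec6

/-!
# Extending invariant characters over a complement with a coprime solvable normal subgroup
-/

set_option autoImplicit false

namespace CF.DG

open Cfsg Subgroup CF.BG CF.Clifford CF.Char CF.Fgs2.Isa
open scoped commutatorElement

universe u

theorem ext_quot {G : Type u} [Group G] [Finite G] {N D : Subgroup G} [N.Normal] [D.Normal]
    (i : N ⊓ D = ⊥) [(N.map (QuotientGroup.mk' D)).Normal]
    (h : ∀ θ, IsIrrCharacter (N.map (QuotientGroup.mk' D)) θ → (NormalEmb.sub _).Invariant θ →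
      ∃ χ, IsIrrCharacter (G ⧸ D) χ ∧ ∀ n : N.map (QuotientGroup.mk' D), χ n = θ n)
    {θ : N → ℂ} (x : IsIrrCharacter N θ) (y : (NormalEmb.sub N).Invariant θ) :
    ∃ χ, IsIrrCharacter G χ ∧ ∀ n : N, χ n = θ n := by
  let e := MulEquiv.ofBijective ((QuotientGroup.mk' D).subgroupMap N)
    ⟨(injective_iff_map_eq_one _).2 fun n w => Subtype.ext (mem_bot.1 (i.le
      ⟨n.2, (QuotientGroup.eq_one_iff _).1 (congrArg Subtype.val w)⟩)),
      MonoidHom.subgroupMap_surjective _ _⟩
  obtain ⟨χ, a, b⟩ := h _ (irr_comp_equiv x e.symm) fun g n => by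
    obtain ⟨g, rfl⟩ := QuotientGroup.mk'_surjective D g
    obtain ⟨n, rfl⟩ := e.surjective n
    have : (NormalEmb.sub _).c (QuotientGroup.mk' D g) (e n) = e ((NormalEmb.sub N).c g n) := rfl
    simp only [this, MulEquiv.symm_apply_apply, y g n]
  exact ⟨_, irr_inflate D a, fun n => (b (e n)).trans (by rw [MulEquiv.symm_apply_apply])⟩

/-- every invariant character of a complemented normal subgroup extends when the complement has a
solvable normal subgroup of coprime order with abelian fixed points -/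
theorem ext_sd (n : ℕ) : ∀ (G : Type u) [Group G] [Finite G] (N H K : Subgroup G) [N.Normal],
    Nat.card G = n → SDProd N H ⊤ → K ≤ H → H ≤ 𝐍 K → Sol K → (♯K).Coprime (♯N) → Abel (N ⊓ 𝐂 K) →
      ∀ θ, IsIrrCharacter N θ → (NormalEmb.sub N).Invariant θ →
        ∃ χ, IsIrrCharacter G χ ∧ ∀ n : N, χ n = θ n := by
  induction n using Nat.strong_induction_on with | _ n ih => ?_
  intro G _ _ N H K _ e sd l nK s c a θ x y
  have nN : ∀ X : Subgroup G, X ≤ 𝐍 N := fun X => le_top.trans sd.normal.norm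
  by_cases K1 : K = ⊥
  · rw [K1, cent_bot, inf_top_eq] at a
    obtain ⟨μ, rfl⟩ := exists_linear_of_one (irr_isCharacter x) (irr_one_eq_one_of_comm
      (fun u v => Subtype.ext (a.mul_comm u.2 v.2)) x)
    obtain ⟨ν, w⟩ := exists_lin_ext (NormalEmb.sub N) H (fun g => by
      obtain ⟨u, hu, v, hv, rfl⟩ := sd.exists_mul (mem_top g)
      exact ⟨⟨u, hu⟩, v, hv, rfl⟩) (fun u hu => Subtype.ext (mem_bot.1 (sd.inf.le ⟨u.2, hu⟩))) μ
      fun g _ u => Units.ext (y g u)
    exact ⟨_, irr_linear ν, fun u => congrArg Units.val (w u)⟩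
  by_cases D1 : K ⊓ 𝐂 N = ⊥
  · obtain ⟨A, AK, m⟩ := exists_minN K1 nK
    obtain ⟨p, hp, b⟩ := m.exists_abelem (s.mono AK)
    obtain ⟨M, hM⟩ := BlockB.exists_isPModular hp
    have cA := c.coprime_dvd_left (card_dvd_of_le AK)
    have sA := sd.inf_of_right_le m.norm
    rw [top_inf_eq] at sA
    have sB := SDProd.of_map (𝐍 A).subtype_injective (K := (N ⊓ 𝐍 A).subgroupOf _)
      (H := H.subgroupOf _) (M := ⊤) (by
        rwa [map_subgroupOf sA.left_le, map_subgroupOf sA.right_le, map_top_subtype])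
    rw [inf_subgroupOf_right] at sB
    have w : 𝐍 A ≠ ⊤ := fun w => by
      have := inf_norm_eq_inf_cent (nN A) (CF.BG.inf_eq_bot_of_coprime cA)
      rw [w, inf_top_eq] at this
      exact m.ne_bot (CF.BG.eq_bot_mono D1 (le_inf AK (cent_symm (this.le.trans inf_le_right))))
    refine ext_inv hM (θ := ⟨θ, x⟩) (fun w => hp.ne_one (Nat.eq_one_of_dvd_coprimes cA
      (b.pi.dvd_card m.ne_bot) w)) y ((piGrp_iff_isPGroup hp).1 b.pi)
      (fun _ u _ v => b.abel.mul_comm u v) (subtype_injective _) (range_subtype _) (fun g => by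
        obtain ⟨u, hu, v, hv, rfl⟩ := sd.exists_mul' (mem_top g)
        exact ⟨⟨u, m.norm hu⟩, v, hv, rfl⟩)
      (ih _ (e ▸ card_top (G := G) ▸ card_lt (lt_top_iff_ne_top.2 w)) _ _
        (H.subgroupOf _) (K.subgroupOf _) rfl sB (subgroupOf_mono _ l) (subgroupOf_norm _ nK)
        (s.subgroupOf _) ?_ ?_)
    · exact (c.coprime_dvd_left (card_comap_dvd_of_injective _ _ (subtype_injective _))
        ).coprime_dvd_right (card_comap_dvd_of_injective _ _ (subtype_injective _))
    · exact (subgroupOf_inf_cent (l.trans m.norm) N).subst (motive := Abel) (a.subgroupOf _)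
  have : (K ⊓ 𝐂 N).Normal := normalIn_top.1 ⟨le_top, sd.sup.ge.trans (sup_le
    ((cent_symm inf_le_right).trans (cent_le_norm _)) (norm_inf nK (norm_cent (nN H))))⟩
  set D := K ⊓ 𝐂 N
  have f := QuotientGroup.mk'_surjective D
  have := Normal.map ‹N.Normal› _ f
  have DH : D ≤ H := inf_le_left.trans l
  refine ext_quot (CF.BG.eq_bot_mono sd.inf (inf_le_inf_left _ DH))
    (ih _ (e ▸ Solv.card_quotient_lt D1) _ _ (H.map (QuotientGroup.mk' D)) (K.map (QuotientGroup.mk' D))
      rfl ⟨map_norm sd.norm _, by rw [← Subgroup.map_sup, sd.sup, map_top_of_surjective _ f], ?_⟩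
      (map_mono l) (map_norm nK _) (s.map _) ((c.coprime_dvd_left (card_map_dvd _ _)).coprime_dvd_right
        (card_map_dvd _ _)) ((a.map (QuotientGroup.mk' D)).mono ?_)) x y
  · refine eq_bot_iff.2 ?_
    rintro _ ⟨⟨u, hu, rfl⟩, v, hv, w⟩
    have : u ∈ H := by simpa using H.mul_mem hv (DH (QuotientGroup.eq.1 w))
    rw [mem_bot.1 (sd.inf.le ⟨hu, this⟩), map_one]
    exact one_mem _
  · rintro _ ⟨⟨u, hu, rfl⟩, w⟩
    refine ⟨u, ⟨hu, fun v hv => commutatorElement_eq_one_iff_mul_comm.1 (mem_bot.1 (sd.inf.le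
      ⟨comm_le_right (nN K) (commutator_mem_commutator hv hu), DH ?_⟩))⟩, rfl⟩
    rw [← QuotientGroup.eq_one_iff, ← QuotientGroup.mk'_apply, map_commutatorElement]
    exact commutatorElement_eq_one_iff_mul_comm.2 (w _ (mem_map_of_mem _ hv))

end CF.DG
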